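import Mathlib

set_option autoImplicit false

namespace Cfsg.Agent.Lib.Helper59

/-- The group of maps `x ↦ u * x + v` over a field with `u ^ m = 1`. -/
structure Aff (K : Type) [Field K] (m : ℕ) where
  u : Kˣ
  v : K
  hu : u ^ m = 1

namespace Aff

variable {K : Type} [Field K] {m : ℕ}

theorem ext' {x y : Aff K m} (hu : x.u = y.u) (hv : x.v = y.v) : x = y := by
  cases x; cases y; simp_all

instance : Mul (Aff K m) :=
  ⟨fun x y => ⟨x.u * y.u, (x.u : K) * y.v + x.v, by rw [mul_pow, x.hu, y.hu, one_mul]⟩⟩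

instance : One (Aff K m) := ⟨⟨1, 0, one_pow m⟩⟩

instance : Inv (Aff K m) :=
  ⟨fun x => ⟨x.u⁻¹, -(((x.u⁻¹ : Kˣ) : K) * x.v), by rw [inv_pow, x.hu, inv_one]⟩⟩

@[simp] theorem mul_u (x y : Aff K m) : (x * y).u = x.u * y.u := rfl
@[simp] theorem mul_v (x y : Aff K m) : (x * y).v = (x.u : K) * y.v + x.v := rfl
@[simp] theorem one_u : (1 : Aff K m).u = 1 := rfl
@[simp] theorem one_v : (1 : Aff K m).v = 0 := rfl
@[simp] theorem inv_u (x : Aff K m) : (x⁻¹).u = x.u⁻¹ := rfl
@[simp] theorem inv_v (x : Aff K m) : (x⁻¹).v = -(((x.u⁻¹ : Kˣ) : K) * x.v) := rfl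

instance : Group (Aff K m) where
  mul_assoc x y z := by
    apply ext'
    · simp [mul_assoc]
    · simp; ring
  one_mul x := by apply ext' <;> simp
  mul_one x := by apply ext' <;> simp
  inv_mul_cancel x := by apply ext' <;> simp

theorem pow_u (x : Aff K m) (n : ℕ) : (x ^ n).u = x.u ^ n := by
  induction n with
  | zero => simp
  | succ n ih => rw [pow_succ, mul_u, ih, pow_succ]

theorem pow_v (x : Aff K m) (n : ℕ) :
    (x ^ n).v = x.v * ∑ i ∈ Finset.range n, (x.u : K) ^ i := by
  induction n with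
  | zero => simp
  | succ n ih =>
    rw [pow_succ, mul_v, ih, pow_u, Finset.sum_range_succ]
    push_cast
    ring

theorem eq_one_iff (x : Aff K m) : x = 1 ↔ x.u = 1 ∧ x.v = 0 :=
  ⟨fun h => by rw [h]; exact ⟨rfl, rfl⟩, fun h => ext' h.1 h.2⟩

theorem orderOf_eq_of_u_ne_one (x : Aff K m) (hx : x.u ≠ 1) : orderOf x = orderOf x.u := by
  rw [orderOf_eq_orderOf_iff]
  intro n
  rw [eq_one_iff, pow_u, pow_v]
  constructor
  · exact fun h => h.1
  · intro h
    refine ⟨h, ?_⟩
    have h1 : (∑ i ∈ Finset.range n, (x.u : K) ^ i) * ((x.u : K) - 1) = (x.u : K) ^ n - 1 :=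
      geom_sum_mul _ _
    have h2 : ((x.u : K)) ^ n = 1 := by
      rw [← Units.val_pow_eq_pow_val, h]; rfl
    rw [h2, sub_self] at h1
    have h3 : (x.u : K) - 1 ≠ 0 := by
      intro h4
      apply hx
      apply Units.ext
      rw [sub_eq_zero] at h4
      rw [h4]; rfl
    rcases mul_eq_zero.mp h1 with h5 | h5
    · rw [h5, mul_zero]
    · exact absurd h5 h3

theorem pow_char_of_u_eq_one (p : ℕ) [CharP K p] (x : Aff K m) (hx : x.u = 1) : x ^ p = 1 := by
  rw [eq_one_iff, pow_u, pow_v, hx]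
  simp [CharP.cast_eq_zero]

instance [Finite K] : Finite (Aff K m) :=
  Finite.of_injective (fun x : Aff K m => (x.u, x.v)) (fun x y h => by
    simp only [Prod.mk.injEq] at h
    exact ext' h.1 h.2)

/-- projection to the units -/
def proj : Aff K m →* Kˣ where
  toFun x := x.u
  map_one' := rfl
  map_mul' _ _ := rfl

theorem isSolvable : Group.IsSolvable (Aff K m) := by
  have h1 : Group.IsSolvable (proj (K := K) (m := m)).ker := by
    apply Group.isSolvable_of_comm
    intro a b
    apply Subtype.ext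
    have ha : (a : Aff K m).u = 1 := a.2
    have hb : (b : Aff K m).u = 1 := b.2
    apply ext'
    · simp [mul_comm]
    · simp [ha, hb, add_comm]
  exact Group.isSolvable_of_ker_le_range (proj (K := K) (m := m)).ker.subtype proj (by simp)

/-- the spectrum of `Aff K m` -/
theorem spectrum [Finite K] (p : ℕ) [Fact p.Prime] [CharP K p] (hm : m ∣ Nat.card K - 1) :
    Set.range (orderOf : Aff K m → ℕ) = {n | n ∣ p ∨ n ∣ m} := by
  ext n
  simp only [Set.mem_range, Set.mem_ofPred_eq]
  constructor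
  · rintro ⟨x, rfl⟩
    by_cases hx : x.u = 1
    · exact Or.inl (orderOf_dvd_of_pow_eq_one (pow_char_of_u_eq_one p x hx))
    · right
      rw [orderOf_eq_of_u_ne_one x hx]
      exact orderOf_dvd_of_pow_eq_one x.hu
  · rintro (h | h)
    · rcases (Nat.dvd_prime (Fact.out : p.Prime)).mp h with h1 | h1
      · exact ⟨1, by rw [orderOf_one, h1]⟩
      · refine ⟨⟨1, 1, one_pow m⟩, ?_⟩
        rw [h1]
        apply orderOf_eq_prime
        · exact pow_char_of_u_eq_one p _ rfl
        · intro hcon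
          have := ((eq_one_iff _).mp hcon).2
          simp at this
    · -- element of order n in the cyclic group of units
      have hK1 : 1 < Nat.card K := Finite.one_lt_card
      have hcardU : Nat.card Kˣ = Nat.card K - 1 := Nat.card_units K
      obtain ⟨ζ, hζ⟩ := IsCyclic.exists_generator (α := Kˣ)
      have hord : orderOf ζ = Nat.card K - 1 := by
        rw [orderOf_eq_card_of_forall_mem_zpowers hζ, hcardU]
      have hn : n ∣ orderOf ζ := by rw [hord]; exact h.trans hm
      have hN : orderOf ζ ≠ 0 := by rw [hord]; omega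
      have h1 : orderOf ζ / n ∣ orderOf ζ := Nat.div_dvd_of_dvd hn
      have hn0 : n ≠ 0 := fun h0 => hN (by rw [h0] at hn; exact Nat.eq_zero_of_zero_dvd hn)
      have h2 : orderOf ζ / n ≠ 0 := by
        have := Nat.div_pos (Nat.le_of_dvd (Nat.pos_of_ne_zero hN) hn) (Nat.pos_of_ne_zero hn0)
        omega
      have hu : orderOf (ζ ^ (orderOf ζ / n)) = n := by
        rw [orderOf_pow_of_dvd h2 h1, Nat.div_div_self hn hN]
      set w := ζ ^ (orderOf ζ / n) with hw
      have hwm : w ^ m = 1 := by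
        rw [← orderOf_dvd_iff_pow_eq_one, hu]; exact h
      by_cases hw1 : w = 1
      · refine ⟨1, ?_⟩
        rw [orderOf_one, ← hu, hw1, orderOf_one]
      · refine ⟨⟨w, 0, hwm⟩, ?_⟩
        rw [orderOf_eq_of_u_ne_one _ hw1, hu]

end Aff

end Cfsg.Agent.Lib.Helper59
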