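import Mathlib
import Cfsg.Agent.Lib.Helper59.Derange

set_option autoImplicit false

namespace Cfsg.Agent.Lib.Helper59

open MulAction

/-- If all point stabilizers lie in `N`, the index of `N` divides the number of points. -/
theorem index_dvd_card_of_stabilizer_le {H X : Type*} [Group H] [MulAction H X] [Finite X]
    (N : Subgroup H) (h : ∀ x : X, stabilizer H x ≤ N) : N.index ∣ Nat.card X := by
  classical
  have : Fintype (orbitRel.Quotient H X) := Fintype.ofFinite _
  rw [Nat.card_congr (selfEquivSigmaOrbits H X), Nat.card_sigma]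
  apply Finset.dvd_sum
  intro ω _
  rw [Nat.card_coe_set_eq, ← index_stabilizer]
  exact Subgroup.index_dvd_of_le (h _)

theorem mem_derSub_of_two_fixed (G Ω : Type*) [Group G] [Finite G] [MulAction G Ω] [Finite Ω]
    [IsPretransitive G Ω] {g : G} {a b : Ω} (hab : a ≠ b) (ha : g • a = a) (hb : g • b = b) :
    g ∈ derSub G Ω := by
  by_contra hcon
  have h1 := (der_main G Ω).2 g hcon
  have h2 : Subsingleton (fixedBy Ω g) := Finite.card_le_one_iff_subsingleton.mp h1.le
  have h3 : (⟨a, ha⟩ : fixedBy Ω g) = ⟨b, hb⟩ := Subsingleton.elim _ _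
  exact hab (congrArg Subtype.val h3)

theorem stabilizer_sup_derSub (G Ω : Type*) [Group G] [Finite G] [MulAction G Ω] [Finite Ω]
    [IsPretransitive G Ω] (α : Ω) : stabilizer G α ⊔ derSub G Ω = ⊤ := by
  rw [eq_top_iff]
  intro g _
  have htr := (der_main G Ω).1
  obtain ⟨d, hd⟩ := htr.exists_smul_eq α (g • α)
  have h1 : (d : G)⁻¹ * g ∈ stabilizer G α := by
    rw [mem_stabilizer_iff, mul_smul]
    have : (d : G) • α = g • α := hd
    rw [← this, inv_smul_smul]
  have h2 : g = (d : G) * ((d : G)⁻¹ * g) := by group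
  rw [h2]
  exact Subgroup.mul_mem _ (Subgroup.mem_sup_right d.2) (Subgroup.mem_sup_left h1)

theorem relIndex_derSub_stabilizer (G Ω : Type*) [Group G] [Finite G] [MulAction G Ω] [Finite Ω]
    [IsPretransitive G Ω] (α : Ω) : (derSub G Ω).relIndex (stabilizer G α) = (derSub G Ω).index := by
  have := derSub_normal G Ω
  rw [← Subgroup.relIndex_sup_right, stabilizer_sup_derSub, Subgroup.relIndex_top_right]

/-- The index of the derangement subgroup divides the size of every subset not containing `α`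
which is invariant under the stabilizer of `α`. -/
theorem derSub_index_dvd_ncard (G Ω : Type*) [Group G] [Finite G] [MulAction G Ω] [Finite Ω]
    [IsPretransitive G Ω] (α : Ω) (S : Set Ω) (hα : α ∉ S)
    (hS : ∀ g : G, g • α = α → ∀ ω ∈ S, g • ω ∈ S) : (derSub G Ω).index ∣ S.ncard := by
  let p : SubMulAction (stabilizer G α) Ω :=
    { carrier := S
      smul_mem' := fun c x hx => hS c c.2 x hx }
  have hp : ∀ x : p, (x : Ω) ∈ S := fun x => x.2
  have h1 : ∀ x : p, stabilizer (stabilizer G α) x ≤ (derSub G Ω).subgroupOf (stabilizer G α) := by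
    intro x h hh
    rw [SubMulAction.stabilizer_of_subMul, mem_stabilizer_iff] at hh
    rw [Subgroup.mem_subgroupOf]
    have hne : α ≠ (x : Ω) := fun h => hα (h ▸ hp x)
    exact mem_derSub_of_two_fixed G Ω hne h.2 hh
  have h2 := index_dvd_card_of_stabilizer_le _ h1
  have h3 : ((derSub G Ω).subgroupOf (stabilizer G α)).index = (derSub G Ω).index :=
    relIndex_derSub_stabilizer G Ω α
  rw [h3] at h2
  have h4 : Nat.card p = S.ncard := Nat.card_coe_set_eq S
  rw [← h4]
  exact h2

/-- If the index of the derangement subgroup is `n - 1`, it acts regularly and the point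
stabilizer is transitive on the remaining points. -/
theorem derSub_regular_of_index (G Ω : Type*) [Group G] [Finite G] [MulAction G Ω]
    [FaithfulSMul G Ω] [Finite Ω] [IsPretransitive G Ω] (α : Ω)
    (hidx : (derSub G Ω).index = Nat.card Ω - 1) (hΩ : 2 ≤ Nat.card Ω) :
    (∀ d ∈ derSub G Ω, d • α = α → d = 1) ∧
    (∀ β γ : Ω, β ≠ α → γ ≠ α → ∃ h : G, h • α = α ∧ h • β = γ) := by
  classical
  let p : SubMulAction (stabilizer G α) Ω :=
    { carrier := {α}ᶜ
      smul_mem' := fun c x hx => by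
        simp only [Set.mem_compl_iff, Set.mem_singleton_iff] at hx ⊢
        intro h
        apply hx
        have h2 : c⁻¹ • (c • x) = c⁻¹ • α := by rw [h]
        rw [inv_smul_smul] at h2
        rw [h2]
        exact (inv_mem c.2 : _) }
  have hp : ∀ x : p, (x : Ω) ≠ α := fun x => x.2
  set N := (derSub G Ω).subgroupOf (stabilizer G α) with hN
  have h1 : ∀ x : p, stabilizer (stabilizer G α) x ≤ N := by
    intro x h hh
    rw [SubMulAction.stabilizer_of_subMul, mem_stabilizer_iff] at hh
    rw [hN, Subgroup.mem_subgroupOf]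
    exact mem_derSub_of_two_fixed G Ω (hp x).symm h.2 hh
  have hNidx : N.index = Nat.card Ω - 1 := by
    rw [← hidx]; exact relIndex_derSub_stabilizer G Ω α
  have hcardp : Nat.card p = Nat.card Ω - 1 := by
    have h4 : Nat.card p = ({α}ᶜ : Set Ω).ncard := Nat.card_coe_set_eq _
    rw [h4, Set.ncard_compl, Set.ncard_singleton]
  have key : ∀ x : p, orbit (stabilizer G α) x = Set.univ ∧ stabilizer (stabilizer G α) x = N := by
    intro x
    have hdvd : N.index ∣ (stabilizer (stabilizer G α) x).index := Subgroup.index_dvd_of_le (h1 x)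
    have hio : (stabilizer (stabilizer G α) x).index = (orbit (stabilizer G α) x).ncard :=
      index_stabilizer _ _
    have hle : (orbit (stabilizer G α) x).ncard ≤ Nat.card p := Set.ncard_le_card _
    have hpos : 0 < (orbit (stabilizer G α) x).ncard :=
      (Set.ncard_pos).mpr (nonempty_orbit x)
    have hle2 : N.index ≤ (orbit (stabilizer G α) x).ncard := by
      rw [← hio]; exact Nat.le_of_dvd (by rw [hio]; exact hpos) hdvd
    have heq : (orbit (stabilizer G α) x).ncard = Nat.card p := by omega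
    refine ⟨(Set.eq_univ_iff_ncard _).mpr heq, ?_⟩
    apply Subgroup.eq_of_le_of_card_ge (h1 x)
    have e1 := Subgroup.index_mul_card (stabilizer (stabilizer G α) x)
    have e2 := Subgroup.index_mul_card N
    rw [hio, heq, hcardp] at e1
    rw [hNidx] at e2
    have hpos' : 0 < Nat.card Ω - 1 := by omega
    have : Nat.card N = Nat.card (stabilizer (stabilizer G α) x) :=
      Nat.eq_of_mul_eq_mul_left hpos' (e2.trans e1.symm)
    exact this.le
  refine ⟨?_, ?_⟩
  · intro d hd hdα
    apply FaithfulSMul.eq_of_smul_eq_smul (α := Ω)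
    intro ω
    rw [one_smul]
    by_cases hω : ω = α
    · rw [hω]; exact hdα
    · have hmem : (⟨d, hdα⟩ : stabilizer G α) ∈ N := by
        rw [hN, Subgroup.mem_subgroupOf]; exact hd
      rw [← (key ⟨ω, hω⟩).2, SubMulAction.stabilizer_of_subMul, mem_stabilizer_iff] at hmem
      exact hmem
  · intro β γ hβ hγ
    have hmem : (⟨γ, hγ⟩ : p) ∈ orbit (stabilizer G α) (⟨β, hβ⟩ : p) := by
      rw [(key ⟨β, hβ⟩).1]; exact Set.mem_univ _
    obtain ⟨h, hh⟩ := hmem
    refine ⟨h, h.2, ?_⟩
    have := congrArg (Subtype.val) hh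
    exact this

/-- A regular normal subgroup whose nonidentity elements are fused is a `p`-group. -/
theorem isPrimePow_of_regular_normal (G Ω : Type*) [Group G] [Finite G] [MulAction G Ω]
    [Finite Ω] (D : Subgroup G) [D.Normal] (α : Ω) (hΩ : 2 ≤ Nat.card Ω)
    (htr : ∀ ω : Ω, ∃ d ∈ D, d • α = ω)
    (hreg : ∀ d ∈ D, d • α = α → d = 1)
    (h2 : ∀ β γ : Ω, β ≠ α → γ ≠ α → ∃ h : G, h • α = α ∧ h • β = γ) :
    IsPrimePow (Nat.card Ω) := by
  classical
  have hinj : ∀ d ∈ D, ∀ d' ∈ D, d • α = d' • α → d = d' := by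
    intro d hd d' hd' h
    have h1 : (d'⁻¹ * d) • α = α := by rw [mul_smul, h, inv_smul_smul]
    have h2 := hreg _ (D.mul_mem (D.inv_mem hd') hd) h1
    have : d = d' * (d'⁻¹ * d) := by group
    rw [this, h2, mul_one]
  have hcard : Nat.card D = Nat.card Ω := by
    apply Nat.card_congr
    refine Equiv.ofBijective (fun d : D => (d : G) • α) ⟨?_, ?_⟩
    · intro d d' h
      exact Subtype.ext (hinj d d.2 d' d'.2 h)
    · intro ω
      obtain ⟨d, hd, hdω⟩ := htr ω
      exact ⟨⟨d, hd⟩, hdω⟩
  obtain ⟨q, hq, hqdvd⟩ := Nat.exists_prime_and_dvd (show Nat.card D ≠ 1 by omega)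
  have : Fact q.Prime := ⟨hq⟩
  obtain ⟨d₀, hd₀⟩ := exists_prime_orderOf_dvd_card' q hqdvd
  have hd₀1 : (d₀ : G) ≠ 1 := by
    intro h
    have : d₀ = 1 := Subtype.ext h
    rw [this, orderOf_one] at hd₀
    exact hq.ne_one hd₀.symm
  have hd₀G : orderOf (d₀ : G) = q := by rw [Subgroup.orderOf_coe, hd₀]
  have hall : ∀ d ∈ D, d ≠ 1 → orderOf d = q := by
    intro d hd hd1
    have hne₀ : (d₀ : G) • α ≠ α := fun h => hd₀1 (hreg _ d₀.2 h)
    have hne : d • α ≠ α := fun h => hd1 (hreg _ hd h)
    obtain ⟨h, hhα, hh⟩ := h2 _ _ hne₀ hne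
    have hconj : h * (d₀ : G) * h⁻¹ ∈ D := ‹D.Normal›.conj_mem _ d₀.2 h
    have h3 : (h * (d₀ : G) * h⁻¹) • α = d • α := by
      rw [mul_smul, mul_smul]
      have : h⁻¹ • α = α := by
        have := congrArg (fun x => h⁻¹ • x) hhα
        simp only [inv_smul_smul] at this
        exact this.symm
      rw [this, hh]
    have h4 := hinj _ hconj _ hd h3
    rw [← h4]
    have : h * (d₀ : G) * h⁻¹ = MulAut.conj h (d₀ : G) := by simp
    rw [this, MulEquiv.orderOf_eq, hd₀G]
  have hpg : IsPGroup q D := by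
    intro d
    refine ⟨1, ?_⟩
    by_cases hd1 : (d : G) = 1
    · have : d = 1 := Subtype.ext hd1
      rw [this, one_pow]
    · have := hall d d.2 hd1
      apply Subtype.ext
      rw [pow_one, Subgroup.coe_pow, ← this, pow_orderOf_eq_one]; rfl
  obtain ⟨n, hn⟩ := IsPGroup.iff_card.mp hpg
  rw [isPrimePow_nat_iff]
  refine ⟨q, n, hq, ?_, ?_⟩
  · rcases Nat.eq_zero_or_pos n with h | h
    · rw [h, pow_zero] at hn; omega
    · exact h
  · rw [← hcard, hn]

end Cfsg.Agent.Lib.Helper59
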