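import Mathlib

set_option autoImplicit false

namespace Cfsg.Agent.Lib.Helper59

open MulAction
open scoped Pointwise

section Hamming

variable (ι : Type*) [Fintype ι] (m : ℕ)

/-- The group of Hamming isometries of `ι → Fin m`. -/
def hamIso : Subgroup (Equiv.Perm (ι → Fin m)) where
  carrier := {σ | ∀ x y, hammingDist (σ x) (σ y) = hammingDist x y}
  mul_mem' {a b} ha hb := by
    intro x y
    rw [Equiv.Perm.mul_apply, Equiv.Perm.mul_apply, ha, hb]
  one_mem' := by intro x y; rfl
  inv_mem' {a} ha := by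
    intro x y
    have h := ha (a⁻¹ x) (a⁻¹ y)
    simp at h
    exact h.symm

variable {ι m}

theorem mem_hamIso {σ : Equiv.Perm (ι → Fin m)} :
    σ ∈ hamIso ι m ↔ ∀ x y, hammingDist (σ x) (σ y) = hammingDist x y := Iff.rfl

/-- coordinatewise permutations -/
def cw (s : ι → Equiv.Perm (Fin m)) : Equiv.Perm (ι → Fin m) := Equiv.piCongrRight s

@[simp] theorem cw_apply (s : ι → Equiv.Perm (Fin m)) (x : ι → Fin m) (i : ι) :
    cw s x i = s i (x i) := rfl

theorem cw_mem (s : ι → Equiv.Perm (Fin m)) : cw s ∈ hamIso ι m := by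
  intro x y
  exact hammingDist_comp (fun i => (s i : Fin m → Fin m)) (fun i => (s i).injective)

/-- coordinate permutations -/
def cp (π : Equiv.Perm ι) : Equiv.Perm (ι → Fin m) where
  toFun x := x ∘ π
  invFun x := x ∘ π.symm
  left_inv x := by ext i; simp
  right_inv x := by ext i; simp

@[simp] theorem cp_apply (π : Equiv.Perm ι) (x : ι → Fin m) (i : ι) :
    cp π x i = x (π i) := rfl

theorem cp_mem (π : Equiv.Perm ι) : cp π ∈ hamIso ι m := by
  intro x y
  unfold hammingDist
  apply Finset.card_equiv π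
  intro i
  rw [Finset.mem_filter, Finset.mem_filter]
  simp

instance hamIso_pretransitive : IsPretransitive (hamIso ι m) (ι → Fin m) := by
  classical
  constructor
  intro x y
  refine ⟨⟨cw (fun i => Equiv.swap (x i) (y i)), cw_mem _⟩, ?_⟩
  ext i
  show ((cw (fun i => Equiv.swap (x i) (y i)) x i : Fin m) : ℕ) = y i
  simp

theorem hamIso_preprimitive (hm : 3 ≤ m) : IsPreprimitive (hamIso ι m) (ι → Fin m) := by
  classical
  have hm0 : 0 < m := by omega
  let z₀ : Fin m := ⟨0, hm0⟩
  let x₀ : ι → Fin m := fun _ => z₀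
  apply IsPreprimitive.of_isTrivialBlock_base x₀
  intro B hx₀ hB
  have key : ∀ g ∈ hamIso ι m, ∀ a ∈ B, g a ∈ B → ∀ z, (g z ∈ B ↔ z ∈ B) := by
    intro g hg a ha hga z
    have h : (⟨g, hg⟩ : hamIso ι m) • B = B :=
      isBlock_iff_smul_eq_of_mem.mp hB (g := ⟨g, hg⟩) ha hga
    constructor
    · intro h1
      rw [← h] at h1
      exact (Set.smul_mem_smul_set_iff (a := (⟨g, hg⟩ : hamIso ι m))).mp h1
    · intro h1
      rw [← h]
      exact Set.smul_mem_smul_set (a := (⟨g, hg⟩ : hamIso ι m)) h1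
  by_cases hsub : B.Subsingleton
  · exact Or.inl hsub
  right
  obtain ⟨y, hy, hyx⟩ : ∃ y ∈ B, y ≠ x₀ := by
    by_contra hcon
    push Not at hcon
    apply hsub
    intro a ha b hb
    rw [hcon a ha, hcon b hb]
  obtain ⟨i, hi⟩ : ∃ i, y i ≠ z₀ := by
    by_contra hcon
    push Not at hcon
    exact hyx (funext hcon)
  obtain ⟨v, hv0, hvy⟩ : ∃ v : Fin m, v ≠ z₀ ∧ v ≠ y i := by
    by_cases h1 : (⟨1, by omega⟩ : Fin m) = y i
    · refine ⟨⟨2, by omega⟩, ?_, ?_⟩
      · simp [z₀, Fin.ext_iff]
      · rw [← h1]; simp [Fin.ext_iff]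
    · exact ⟨⟨1, by omega⟩, by simp [z₀, Fin.ext_iff], h1⟩
  -- Step 1
  have hw₁ : Function.update x₀ i v ∈ B := by
    have hg₁ : cw (Function.update (fun _ => (1 : Equiv.Perm (Fin m))) i (Equiv.swap (y i) v)) x₀
        = x₀ := by
      ext k
      by_cases hk : k = i
      · subst hk
        simp only [cw_apply, Function.update_self, x₀]
        rw [Equiv.swap_apply_of_ne_of_ne (Ne.symm hi) (Ne.symm hv0)]
      · simp [hk]
    have hy' := (key _ (cw_mem _) x₀ hx₀ (by rw [hg₁]; exact hx₀) y).mpr hy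
    have hg₂ : cw (fun j => Equiv.swap (y j) z₀) y = x₀ := by
      ext k; simp [x₀]
    have h3 := (key _ (cw_mem _) y hy (by rw [hg₂]; exact hx₀) _).mpr hy'
    convert h3 using 1
    ext k
    by_cases hk : k = i
    · subst hk
      simp only [cw_apply, Function.update_self, Equiv.swap_apply_left]
      rw [Equiv.swap_apply_of_ne_of_ne hvy hv0]
    · simp [hk, x₀]
  -- Step 2
  have hw : ∀ (j : ι) (u : Fin m), u ≠ z₀ → Function.update x₀ j u ∈ B := by
    intro j u hu
    have h1 : cp (Equiv.swap i j) x₀ = x₀ := by ext k; simp [x₀]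
    have h2 : cp (Equiv.swap i j) (Function.update x₀ i v) ∈ B :=
      (key _ (cp_mem _) x₀ hx₀ (by rw [h1]; exact hx₀) _).mpr hw₁
    have h3 : cp (Equiv.swap i j) (Function.update x₀ i v) = Function.update x₀ j v := by
      ext k
      simp only [cp_apply, Function.update_apply]
      by_cases hk : k = j
      · subst hk; simp
      · have : Equiv.swap i j k ≠ i := by
          intro h
          apply hk
          have h' := congrArg (Equiv.swap i j) h
          simpa using h'
        simp [hk, this, x₀]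
    rw [h3] at h2
    have h4 : cw (Function.update (fun _ => (1 : Equiv.Perm (Fin m))) j (Equiv.swap v u)) x₀
        = x₀ := by
      ext k
      by_cases hk : k = j
      · subst hk
        simp only [cw_apply, Function.update_self, x₀]
        rw [Equiv.swap_apply_of_ne_of_ne (Ne.symm hv0) (Ne.symm hu)]
      · simp [hk]
    have h5 := (key _ (cw_mem _) x₀ hx₀ (by rw [h4]; exact hx₀) _).mpr h2
    convert h5 using 1
    ext k
    by_cases hk : k = j
    · subst hk; simp
    · simp [hk]
  -- Step 3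
  have hall : ∀ (S : Finset ι) (z : ι → Fin m), (∀ k, k ∉ S → z k = z₀) → z ∈ B := by
    intro S
    induction S using Finset.induction_on with
    | empty =>
      intro z hz
      have : z = x₀ := funext (fun k => hz k (by simp))
      rw [this]; exact hx₀
    | insert j S' _ ih =>
      intro z hz
      have hz'B : Function.update z j z₀ ∈ B := by
        apply ih
        intro k hk
        by_cases hkj : k = j
        · subst hkj; simp
        · rw [Function.update_of_ne hkj]
          exact hz k (by simp [hkj, hk])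
      by_cases hj : z j = z₀
      · have : Function.update z j z₀ = z := by rw [← hj]; simp
        rw [← this]; exact hz'B
      · have h1 : cw (fun l => Equiv.swap (Function.update z j z₀ l) z₀) (Function.update z j z₀)
            = x₀ := by ext k; simp [x₀]
        have h2 : cw (fun l => Equiv.swap (Function.update z j z₀ l) z₀) z
            = Function.update x₀ j (z j) := by
          ext k
          by_cases hk : k = j
          · subst hk; simp
          · simp [hk, x₀]
        exact (key _ (cw_mem _) _ hz'B (by rw [h1]; exact hx₀) z).mp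
          (by rw [h2]; exact hw j (z j) hj)
  exact Set.eq_univ_of_forall (fun z => hall Finset.univ z (fun k hk => absurd (Finset.mem_univ k) hk))

theorem hamIso_not_two (hm : 2 ≤ m) (i j : ι) (hij : i ≠ j) :
    ∃ x₀ w₁ w₂ : ι → Fin m, x₀ ≠ w₁ ∧ x₀ ≠ w₂ ∧
      ∀ g ∈ hamIso ι m, g x₀ = x₀ → g w₁ ≠ w₂ := by
  classical
  let z₀ : Fin m := ⟨0, by omega⟩
  let v : Fin m := ⟨1, by omega⟩
  have hv : z₀ ≠ v := by simp [v, z₀, Fin.ext_iff]
  let x₀ : ι → Fin m := fun _ => z₀
  have e1 : hammingDist x₀ (Function.update x₀ i v) = 1 := by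
    unfold hammingDist
    rw [Finset.card_eq_one]
    refine ⟨i, ?_⟩
    ext k
    simp only [Finset.mem_filter, Finset.mem_univ, true_and, Finset.mem_singleton]
    by_cases hk : k = i
    · subst hk; simp [x₀, hv]
    · simp [hk, x₀]
  have e2 : hammingDist x₀ (Function.update (Function.update x₀ i v) j v) = 2 := by
    unfold hammingDist
    rw [Finset.card_eq_two]
    refine ⟨i, j, hij, ?_⟩
    ext k
    simp only [Finset.mem_filter, Finset.mem_univ, true_and, Finset.mem_insert,
      Finset.mem_singleton]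
    by_cases hkj : k = j
    · subst hkj; simp [x₀, hv]
    · by_cases hki : k = i
      · subst hki; simp [x₀, hv, hkj]
      · simp [hkj, hki, x₀]
  refine ⟨x₀, Function.update x₀ i v, Function.update (Function.update x₀ i v) j v, ?_, ?_, ?_⟩
  · intro h
    rw [← h, hammingDist_self] at e1
    omega
  · intro h
    rw [← h, hammingDist_self] at e2
    omega
  · intro g hg hgx hgw
    have h1 := hg x₀ (Function.update x₀ i v)
    rw [hgx, hgw, e1, e2] at h1
    omega

end Hamming

section Regular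

variable {ι : Type*} [Fintype ι] {m : ℕ} (F : ι → Type*) [∀ i, Group (F i)]
  (c : ∀ i, F i ≃ Fin m)

/-- regular representation of the product, transported to `ι → Fin m` -/
def regHom : (∀ i, F i) →* Equiv.Perm (ι → Fin m) :=
  ((Equiv.piCongrRight c).permCongrHom :
      Equiv.Perm (∀ i, F i) →* Equiv.Perm (ι → Fin m)).comp
    (MulAction.toPermHom (∀ i, F i) (∀ i, F i))

theorem regHom_apply (g : ∀ i, F i) (x : ι → Fin m) (i : ι) :
    regHom F c g x i = c i (g i * (c i).symm (x i)) := rfl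

theorem regHom_mem (g : ∀ i, F i) : regHom F c g ∈ hamIso ι m := by
  intro x y
  have h : ∀ z, regHom F c g z = fun i => (fun t => c i (g i * (c i).symm t)) (z i) :=
    fun z => funext (fun i => regHom_apply F c g z i)
  rw [h x, h y]
  exact hammingDist_comp _
    (fun i => ((c i).injective.comp (mul_right_injective (g i))).comp (c i).symm.injective)

theorem regHom_free (g : ∀ i, F i) (x : ι → Fin m) (h : regHom F c g x = x) : g = 1 := by
  funext i
  have h1 := congrFun h i
  rw [regHom_apply] at h1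
  have h2 := congrArg (c i).symm h1
  rw [Equiv.symm_apply_apply] at h2
  exact mul_eq_right.mp h2

theorem regHom_injective : Function.Injective (regHom F c) := by
  rw [injective_iff_map_eq_one]
  intro g hg
  have hm : Nonempty (ι → Fin m) := by
    rcases isEmpty_or_nonempty ι with h | ⟨⟨i⟩⟩
    · exact ⟨fun i => isEmptyElim i⟩
    · exact ⟨fun j => c j 1⟩
  obtain ⟨x⟩ := hm
  exact regHom_free F c g x (by rw [hg]; rfl)

theorem regHom_trans (x y : ι → Fin m) : ∃ g, regHom F c g x = y := by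
  refine ⟨fun i => (c i).symm (y i) * ((c i).symm (x i))⁻¹, ?_⟩
  funext i
  rw [regHom_apply]
  simp

end Regular

theorem transport_to_fin {Ω : Type*} [Fintype Ω] {K : Type*} [Group K]
    (G₀ R₀ : Subgroup (Equiv.Perm Ω))
    (hle : R₀ ≤ G₀) (hiso : Nonempty (R₀ ≃* K)) (htr : ∀ x y : Ω, ∃ r ∈ R₀, r x = y)
    (hfree : ∀ r ∈ R₀, ∀ x, r x = x → r = 1) (hprim : IsPreprimitive G₀ Ω)
    (hnt : ∃ x₀ w₁ w₂ : Ω, x₀ ≠ w₁ ∧ x₀ ≠ w₂ ∧ ∀ g ∈ G₀, g x₀ = x₀ → g w₁ ≠ w₂) :
    ∃ (n : ℕ) (G R : Subgroup (Equiv.Perm (Fin n))), R ≤ G ∧ Nonempty (↥R ≃* K) ∧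
      MulAction.IsPretransitive ↥R (Fin n) ∧ (∀ a : Fin n, MulAction.stabilizer ↥R a = ⊥) ∧
      MulAction.IsPreprimitive ↥G (Fin n) ∧ ¬ MulAction.IsMultiplyPretransitive ↥G (Fin n) 2 := by
  classical
  let β : Ω ≃ Fin (Fintype.card Ω) := Fintype.equivFin Ω
  let ψ : Equiv.Perm Ω ≃* Equiv.Perm (Fin (Fintype.card Ω)) := β.permCongrHom
  have hψ : ∀ (σ : Equiv.Perm Ω) (a : Fin (Fintype.card Ω)), ψ σ a = β (σ (β.symm a)) :=
    fun σ a => rfl
  refine ⟨Fintype.card Ω, G₀.map (ψ : Equiv.Perm Ω →* Equiv.Perm (Fin (Fintype.card Ω))),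
    R₀.map (ψ : Equiv.Perm Ω →* Equiv.Perm (Fin (Fintype.card Ω))), Subgroup.map_mono hle,
    ?_, ?_, ?_, ?_, ?_⟩
  · obtain ⟨e⟩ := hiso
    exact ⟨(ψ.subgroupMap R₀).symm.trans e⟩
  · constructor
    intro a b
    obtain ⟨r, hr, hrab⟩ := htr (β.symm a) (β.symm b)
    refine ⟨⟨ψ r, Subgroup.mem_map_of_mem _ hr⟩, ?_⟩
    show ψ r a = b
    rw [hψ, hrab, Equiv.apply_symm_apply]
  · intro a
    rw [Subgroup.eq_bot_iff_forall]
    rintro ⟨σ, hσ⟩ hstab
    obtain ⟨r, hr, rfl⟩ := Subgroup.mem_map.mp hσ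
    have h1 : ψ r a = a := hstab
    rw [hψ] at h1
    have h2 : r (β.symm a) = β.symm a := by
      have := congrArg β.symm h1
      simpa using this
    have h3 := hfree r hr _ h2
    subst h3
    apply Subtype.ext
    simp
  · let φ : G₀ → G₀.map (ψ : Equiv.Perm Ω →* Equiv.Perm (Fin (Fintype.card Ω))) :=
      fun g => ⟨ψ g, Subgroup.mem_map_of_mem _ g.2⟩
    let f : Ω →ₑ[φ] Fin (Fintype.card Ω) :=
      { toFun := β
        map_smul' := fun g x => by
          show β ((g : Equiv.Perm Ω) x) = ψ g (β x)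
          rw [hψ, Equiv.symm_apply_apply] }
    exact IsPreprimitive.of_surjective (f := f) β.surjective
  · intro h2
    obtain ⟨x₀, w₁, w₂, h01, h02, hno⟩ := hnt
    rw [is_two_pretransitive_iff] at h2
    obtain ⟨⟨σ, hσ⟩, hg1, hg2⟩ := h2 (a := β x₀) (b := β w₁) (c := β x₀) (d := β w₂)
      (fun h => h01 (β.injective h)) (fun h => h02 (β.injective h))
    obtain ⟨g, hg, rfl⟩ := Subgroup.mem_map.mp hσ
    have h1 : ψ g (β x₀) = β x₀ := hg1
    have h2' : ψ g (β w₁) = β w₂ := hg2
    rw [hψ, Equiv.symm_apply_apply] at h1 h2'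
    exact hno g hg (β.injective h1) (β.injective h2')

end Cfsg.Agent.Lib.Helper59
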