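import Mathlib

set_option autoImplicit false

namespace Cfsg.Agent.Lib.Helper59

universe u v

/-- `w` is a law in `K` modulo the centre of `K` -/
def LawModCenter (w : FreeGroup ℕ) (K : Type u) [Group K] : Prop :=
  ∀ f : ℕ → K, FreeGroup.lift f w ∈ Subgroup.center K

theorem lift_map_apply {H : Type u} {K : Type v} [Group H] [Group K] (φ : H →* K) (f : ℕ → H)
    (w : FreeGroup ℕ) : FreeGroup.lift (fun i => φ (f i)) w = φ (FreeGroup.lift f w) := by
  have e1 : FreeGroup.lift (fun i => φ (f i)) = φ.comp (FreeGroup.lift f) := by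
    ext i; simp
  rw [e1, MonoidHom.comp_apply]

theorem lawModCenter_of_law_quot {G : Type u} {K : Type v} [Group G] [Group K]
    (e : G ≃* K ⧸ Subgroup.center K) (w : FreeGroup ℕ)
    (h : ∀ f : ℕ → G, FreeGroup.lift f w = 1) : LawModCenter w K := by
  intro f
  have h1 := h (fun i => e.symm (QuotientGroup.mk' _ (f i)))
  have h2 := lift_map_apply (e.symm.toMonoidHom.comp (QuotientGroup.mk' (Subgroup.center K))) f w
  have h3 : (e.symm.toMonoidHom.comp (QuotientGroup.mk' (Subgroup.center K)))
      (FreeGroup.lift f w) = 1 := by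
    rw [← h2]; exact h1
  have h4 : QuotientGroup.mk' (Subgroup.center K) (FreeGroup.lift f w) = 1 := by
    apply e.symm.injective
    rw [map_one]
    exact h3
  exact (QuotientGroup.eq_one_iff _).mp h4

theorem LawModCenter.of_injective {H : Type u} {K : Type v} [Group H] [Group K] (φ : H →* K)
    (hφ : Function.Injective φ) {w : FreeGroup ℕ} (h : LawModCenter w K) : LawModCenter w H := by
  intro f
  have h1 := h (fun i => φ (f i))
  rw [lift_map_apply] at h1
  rw [Subgroup.mem_center_iff] at h1 ⊢
  intro x
  apply hφ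
  rw [map_mul, map_mul]
  exact h1 (φ x)

theorem LawModCenter.law_of_center_eq_bot {H : Type u} [Group H] {w : FreeGroup ℕ}
    (h : LawModCenter w H) (hc : Subgroup.center H = ⊥) (f : ℕ → H) : FreeGroup.lift f w = 1 := by
  have h1 := h f
  rw [hc, Subgroup.mem_bot] at h1
  exact h1

theorem LawModCenter.law_quot {K : Type u} [Group K] {w : FreeGroup ℕ}
    (h : LawModCenter w K) (f : ℕ → K ⧸ Subgroup.center K) : FreeGroup.lift f w = 1 := by
  have h1 := h (fun i => (f i).out)
  have h2 := lift_map_apply (QuotientGroup.mk' (Subgroup.center K)) (fun i => (f i).out) w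
  have h3 : (fun i => QuotientGroup.mk' (Subgroup.center K) ((f i).out)) = f := by
    funext i
    exact QuotientGroup.out_eq' (f i)
  rw [h3] at h2
  rw [h2]
  exact (QuotientGroup.eq_one_iff _).mpr h1

/-- a group acting faithfully by matrices has bounded order -/
theorem card_le_of_injective_matrix {K : Type u} {ι : Type} [Fintype ι] [DecidableEq ι]
    {F : Type v} [Fintype F] (j : K → Matrix ι ι F) (hj : Function.Injective j) :
    Nat.card K ≤ Fintype.card F ^ (Fintype.card ι * Fintype.card ι) := by
  classical
  have h1 : Nat.card K ≤ Nat.card (Matrix ι ι F) := Nat.card_le_card_of_injective j hj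
  have h2 : Nat.card (Matrix ι ι F) = Fintype.card F ^ (Fintype.card ι * Fintype.card ι) := by
    show Nat.card (ι → ι → F) = _
    rw [Nat.card_fun, Nat.card_fun, Nat.card_eq_fintype_card, Nat.card_eq_fintype_card, ← pow_mul]
  rw [h2] at h1
  exact h1

theorem card_quot_center_le {G : Type u} {K : Type v} [Group G] [Group K] [Finite K]
    (e : G ≃* K ⧸ Subgroup.center K) : Nat.card G ≤ Nat.card K := by
  rw [Nat.card_congr e.toEquiv]
  exact Nat.card_le_card_of_surjective _ (QuotientGroup.mk'_surjective (Subgroup.center K))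

end Cfsg.Agent.Lib.Helper59
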