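import Mathlib
import Cfsg.Prelude.Def_Classical
import Cfsg.Agent.Lib.Helper59.LawBasic
import Cfsg.Agent.Lib.Helper44.Block
import Cfsg.Agent.Lib.Helper5.SLGen

set_option autoImplicit false

namespace Cfsg.Agent.Lib.Helper59

open Matrix

section Emb

variable (F : Type*) [Field F] (m : ℕ)

/-- `g ↦ diag(g, g⁻ᵀ)` -/
noncomputable def ddHom : Matrix.SpecialLinearGroup (Fin m) F →*
    Matrix (Fin m ⊕ Fin m) (Fin m ⊕ Fin m) F where
  toFun g := Matrix.fromBlocks g.1 0 0 (g⁻¹).1ᵀ
  map_one' := by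
    simp [Matrix.fromBlocks_one]
  map_mul' a b := by
    rw [Matrix.fromBlocks_multiply]
    simp [Matrix.transpose_mul]

theorem ddHom_apply (g : Matrix.SpecialLinearGroup (Fin m) F) :
    ddHom F m g = Matrix.fromBlocks g.1 0 0 (g⁻¹).1ᵀ := rfl

theorem ddHom_injective : Function.Injective (ddHom F m) := by
  intro a b h
  rw [ddHom_apply, ddHom_apply] at h
  exact Subtype.ext (Matrix.fromBlocks_inj.mp h).1

theorem sl_inv_mul (g : Matrix.SpecialLinearGroup (Fin m) F) : (g⁻¹).1 * g.1 = 1 := by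
  rw [← Matrix.SpecialLinearGroup.coe_mul, inv_mul_cancel, Matrix.SpecialLinearGroup.coe_one]

theorem sl_mul_inv (g : Matrix.SpecialLinearGroup (Fin m) F) : g.1 * (g⁻¹).1 = 1 := by
  rw [← Matrix.SpecialLinearGroup.coe_mul, mul_inv_cancel, Matrix.SpecialLinearGroup.coe_one]

theorem ddHom_mem_symplectic (g : Matrix.SpecialLinearGroup (Fin m) F) :
    ddHom F m g ∈ Matrix.symplecticGroup (Fin m) F := by
  rw [SymplecticGroup.mem_iff, ddHom_apply, Matrix.J, Matrix.fromBlocks_transpose,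
    Matrix.fromBlocks_multiply, Matrix.fromBlocks_multiply]
  have h1 := sl_mul_inv F m g
  have h2 : (g⁻¹).1ᵀ * g.1ᵀ = 1 := by
    rw [← Matrix.transpose_mul, h1, Matrix.transpose_one]
  simp only [Matrix.mul_zero, Matrix.zero_mul, Matrix.mul_one, Matrix.mul_neg, zero_add, add_zero,
    Matrix.neg_mul, Matrix.transpose_transpose, Matrix.transpose_zero, h1, h2, neg_zero]

/-- `SL_m(F)` inside `Sp_{2m}(F)` -/
noncomputable def spHom : Matrix.SpecialLinearGroup (Fin m) F →*
    Matrix.symplecticGroup (Fin m) F where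
  toFun g := ⟨ddHom F m g, ddHom_mem_symplectic F m g⟩
  map_one' := Subtype.ext (map_one _)
  map_mul' a b := Subtype.ext (map_mul _ a b)

theorem spHom_injective : Function.Injective (spHom F m) := by
  intro a b h
  exact ddHom_injective F m (congrArg Subtype.val h)

/-- `SL_m(F)` inside `GL_{2m}(F)` -/
noncomputable def ddGL : Matrix.SpecialLinearGroup (Fin m) F →*
    Matrix.GeneralLinearGroup (Fin m ⊕ Fin m) F :=
  (Units.map (ddHom F m)).comp (toUnits (G := Matrix.SpecialLinearGroup (Fin m) F)).toMonoidHom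

theorem ddGL_coe (g : Matrix.SpecialLinearGroup (Fin m) F) :
    ((ddGL F m g : Matrix.GeneralLinearGroup (Fin m ⊕ Fin m) F) :
      Matrix (Fin m ⊕ Fin m) (Fin m ⊕ Fin m) F) = ddHom F m g := rfl

theorem ddGL_mem (g : Matrix.SpecialLinearGroup (Fin m) F) :
    ddGL F m g ∈ Cfsg.isometryGroup F (Cfsg.quadFormPlus m F) := by
  rw [Cfsg.Agent.Lib.Helper44.mem_isometryGroup_iff]
  intro u
  have key : ∀ v : Fin m ⊕ Fin m → F,
      Cfsg.quadFormPlus m F v = (v ∘ Sum.inl) ⬝ᵥ (v ∘ Sum.inr) := fun v => rfl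
  rw [key, key, ddGL_coe, ddHom_apply, Cfsg.Agent.Lib.Helper44.fromBlocks_diag_mulVec_inl,
    Cfsg.Agent.Lib.Helper44.fromBlocks_diag_mulVec_inr, Matrix.dotProduct_mulVec,
    Matrix.vecMul_transpose, Matrix.mulVec_mulVec, sl_inv_mul, Matrix.one_mulVec]

/-- `SL_m(F)` inside `O⁺_{2m}(F)` -/
noncomputable def plusHom : Matrix.SpecialLinearGroup (Fin m) F →*
    Cfsg.isometryGroup F (Cfsg.quadFormPlus m F) :=
  (ddGL F m).codRestrict _ (ddGL_mem F m)

theorem plusHom_coe (g : Matrix.SpecialLinearGroup (Fin m) F) :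
    (((plusHom F m g : Cfsg.isometryGroup F (Cfsg.quadFormPlus m F)) :
      Matrix.GeneralLinearGroup (Fin m ⊕ Fin m) F) :
      Matrix (Fin m ⊕ Fin m) (Fin m ⊕ Fin m) F) = ddHom F m g := rfl

theorem plusHom_injective : Function.Injective (plusHom F m) := by
  intro a b h
  apply ddHom_injective F m
  rw [← plusHom_coe, ← plusHom_coe, h]

/-- `SL_m(F)` inside `O_{2m+1}(F)` -/
noncomputable def oddHom : Matrix.SpecialLinearGroup (Fin m) F →*
    Cfsg.isometryGroup F (Cfsg.quadFormOdd m F) :=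
  ((Cfsg.Agent.Lib.Helper44.blockIso (fun v : Unit → F => v () ^ 2)
    (Cfsg.quadFormPlus m F)).comp (MonoidHom.inr _ _)).comp (plusHom F m)

theorem oddHom_coe (g : Matrix.SpecialLinearGroup (Fin m) F) :
    (((oddHom F m g : Cfsg.isometryGroup F (Cfsg.quadFormOdd m F)) :
      Matrix.GeneralLinearGroup (Unit ⊕ (Fin m ⊕ Fin m)) F) :
      Matrix (Unit ⊕ (Fin m ⊕ Fin m)) (Unit ⊕ (Fin m ⊕ Fin m)) F) =
      Matrix.fromBlocks 1 0 0 (ddHom F m g) := rfl

theorem oddHom_injective : Function.Injective (oddHom F m) := by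
  intro a b h
  apply ddHom_injective F m
  have h1 := oddHom_coe F m a
  rw [h, oddHom_coe] at h1
  exact (Matrix.fromBlocks_inj.mp h1).2.2.2.symm

/-- `SL_m(F)` inside `O⁻_{2m+2}(F)` -/
noncomputable def minusHom (a b : F) : Matrix.SpecialLinearGroup (Fin m) F →*
    Cfsg.isometryGroup F (Cfsg.quadFormMinus m F a b) :=
  ((Cfsg.Agent.Lib.Helper44.blockIso (Cfsg.quadFormPlus m F)
    (fun v : Fin 2 → F => v 0 ^ 2 + a * v 0 * v 1 + b * v 1 ^ 2)).comp
      (MonoidHom.inl _ _)).comp (plusHom F m)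

theorem minusHom_coe (a b : F) (g : Matrix.SpecialLinearGroup (Fin m) F) :
    (((minusHom F m a b g : Cfsg.isometryGroup F (Cfsg.quadFormMinus m F a b)) :
      Matrix.GeneralLinearGroup ((Fin m ⊕ Fin m) ⊕ Fin 2) F) :
      Matrix ((Fin m ⊕ Fin m) ⊕ Fin 2) ((Fin m ⊕ Fin m) ⊕ Fin 2) F) =
      Matrix.fromBlocks (ddHom F m g) 0 0 1 := rfl

theorem minusHom_injective (a b : F) : Function.Injective (minusHom F m a b) := by
  intro x y h
  apply ddHom_injective F m
  have h1 := minusHom_coe F m a b x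
  rw [h, minusHom_coe] at h1
  exact (Matrix.fromBlocks_inj.mp h1).1.symm

end Emb

/-- a law modulo the centre of the commutator subgroup passes to perfect subgroups -/
theorem LawModCenter.of_perfect_injective {H : Type*} {O : Type*} [Group H] [Group O]
    (φ : H →* O) (hφ : Function.Injective φ) (hperf : commutator H = ⊤) {w : FreeGroup ℕ}
    (h : LawModCenter w ↥(commutator O)) : LawModCenter w H := by
  refine h.of_injective (φ.codRestrict _ (fun g => Cfsg.Agent.Lib.Helper44.map_mem_commutator φ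
    (by rw [hperf]; exact Subgroup.mem_top g))) ?_
  intro a b hab
  exact hφ (congrArg Subtype.val hab)

end Cfsg.Agent.Lib.Helper59
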