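import Mathlib

set_option autoImplicit false

namespace Cfsg.Agent.Lib.Helper59

open Polynomial Matrix

variable {F : Type*} [Field F]

/-- ping-pong degree step for the matrix `[[1 + X^(2d), X^d], [X^d, 1]]` -/
theorem pp_step (d : ℕ) (hd : 1 ≤ d) (a b : F[X]) (ha : a ≠ 0) (hb : b ≠ 0)
    (hne : b.natDegree ≠ a.natDegree + d) :
    ((1 + X ^ (2 * d)) * a + X ^ d * b) ≠ 0 ∧ (X ^ d * a + b) ≠ 0 ∧
    ((1 + X ^ (2 * d)) * a + X ^ d * b).natDegree = (X ^ d * a + b).natDegree + d ∧
    ((1 + X ^ (2 * d)) * a + X ^ d * b).natDegree ≤ max a.natDegree b.natDegree + 2 * d := by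
  have e1 : (1 + X ^ (2 * d) : F[X]) = X ^ (2 * d) + C 1 := by rw [add_comm]; simp
  have hq0 : (1 + X ^ (2 * d) : F[X]) ≠ 0 := by
    rw [e1]; exact X_pow_add_C_ne_zero (by omega) 1
  have hqd : (1 + X ^ (2 * d) : F[X]).natDegree = 2 * d := by
    rw [e1]; exact natDegree_X_pow_add_C
  have hx0 : (X ^ d : F[X]) ≠ 0 := pow_ne_zero _ X_ne_zero
  have d1 : ((1 + X ^ (2 * d)) * a).natDegree = 2 * d + a.natDegree := by
    rw [natDegree_mul hq0 ha, hqd]
  have d2 : (X ^ d * b).natDegree = d + b.natDegree := by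
    rw [natDegree_mul hx0 hb, natDegree_X_pow]
  have d3 : (X ^ d * a).natDegree = d + a.natDegree := by
    rw [natDegree_mul hx0 ha, natDegree_X_pow]
  rcases lt_or_gt_of_ne hne with hlt | hgt
  · -- deg b < deg a + d
    have k1 : ((1 + X ^ (2 * d)) * a + X ^ d * b).natDegree = 2 * d + a.natDegree := by
      rw [natDegree_add_eq_left_of_natDegree_lt (by rw [d1, d2]; omega), d1]
    have k2 : (X ^ d * a + b).natDegree = d + a.natDegree := by
      rw [natDegree_add_eq_left_of_natDegree_lt (by rw [d3]; omega), d3]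
    refine ⟨ne_zero_of_natDegree_gt (n := 0) (by rw [k1]; omega),
      ne_zero_of_natDegree_gt (n := 0) (by rw [k2]; omega), by rw [k1, k2]; omega, ?_⟩
    rw [k1]
    have := le_max_left a.natDegree b.natDegree
    omega
  · -- deg a + d < deg b
    have k1 : ((1 + X ^ (2 * d)) * a + X ^ d * b).natDegree = d + b.natDegree := by
      rw [natDegree_add_eq_right_of_natDegree_lt (by rw [d1, d2]; omega), d2]
    have k2 : (X ^ d * a + b).natDegree = b.natDegree := by
      rw [natDegree_add_eq_right_of_natDegree_lt (by rw [d3]; omega)]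
    refine ⟨ne_zero_of_natDegree_gt (n := 0) (by rw [k1]; omega),
      ne_zero_of_natDegree_gt (n := 0) (by rw [k2]; omega), by rw [k1, k2]; omega, ?_⟩
    rw [k1]
    have := le_max_right a.natDegree b.natDegree
    omega

/-- generator matrices -/
noncomputable def ppGen (F : Type*) [Field F] (i : ℕ) : Matrix.SpecialLinearGroup (Fin 2) F[X] :=
  ⟨!![1 + X ^ (2 * (i + 1)), X ^ (i + 1); X ^ (i + 1), 1], by
    rw [Matrix.det_fin_two_of]; ring⟩

theorem ppGen_mulVec (i : ℕ) (v : Fin 2 → F[X]) :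
    (ppGen F i).1 *ᵥ v = ![(1 + X ^ (2 * (i + 1))) * v 0 + X ^ (i + 1) * v 1,
      X ^ (i + 1) * v 0 + v 1] := by
  ext j
  fin_cases j <;> simp [ppGen, Matrix.mulVec, dotProduct, Fin.sum_univ_two]

theorem ppGen_inv_mulVec (i : ℕ) (v : Fin 2 → F[X]) :
    ((ppGen F i)⁻¹).1 *ᵥ v = ![v 0 - X ^ (i + 1) * v 1,
      (1 + X ^ (2 * (i + 1))) * v 1 + X ^ (i + 1) * (- v 0)] := by
  rw [Matrix.SpecialLinearGroup.coe_inv]
  ext j
  fin_cases j <;>
    simp [ppGen, Matrix.adjugate_fin_two_of, Matrix.mulVec, dotProduct, Fin.sum_univ_two] <;> ring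

/-- degree bound of a word -/
def ppBnd (L : List (ℕ × Bool)) : ℕ := (L.map fun x => 2 * (x.1 + 1)).sum

/-- the matrix of a word -/
noncomputable def ppProd (F : Type*) [Field F] (L : List (ℕ × Bool)) :
    Matrix.SpecialLinearGroup (Fin 2) F[X] :=
  (L.map fun x => cond x.2 (ppGen F x.1) (ppGen F x.1)⁻¹).prod

theorem pp_invariant : ∀ (L : List (ℕ × Bool)), FreeGroup.IsReduced L →
    ((ppProd F L).1 *ᵥ ![1, 1]) 0 ≠ 0 ∧ ((ppProd F L).1 *ᵥ ![1, 1]) 1 ≠ 0 ∧
    (((ppProd F L).1 *ᵥ ![1, 1]) 0).natDegree ≤ ppBnd L ∧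
    (((ppProd F L).1 *ᵥ ![1, 1]) 1).natDegree ≤ ppBnd L ∧
    (∀ x L', L = x :: L' →
      (x.2 = true → (((ppProd F L).1 *ᵥ ![1, 1]) 0).natDegree
        = (((ppProd F L).1 *ᵥ ![1, 1]) 1).natDegree + (x.1 + 1)) ∧
      (x.2 = false → (((ppProd F L).1 *ᵥ ![1, 1]) 1).natDegree
        = (((ppProd F L).1 *ᵥ ![1, 1]) 0).natDegree + (x.1 + 1))) := by
  intro L
  induction L with
  | nil =>
    intro _
    have : (ppProd F []).1 *ᵥ ![1, 1] = ![1, 1] := by
      simp [ppProd]
    rw [this]
    refine ⟨by simp, by simp, by simp, by simp, ?_⟩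
    intro x L' h
    exact absurd h (by simp)
  | cons x L' ih =>
    intro hred
    have hred' : FreeGroup.IsReduced L' := hred.infix ⟨[x], [], by simp⟩
    obtain ⟨h0, h1, hb0, hb1, hx⟩ := ih hred'
    set v' := (ppProd F L').1 *ᵥ ![1, 1] with hv'
    have hprod : ppProd F (x :: L')
        = (cond x.2 (ppGen F x.1) (ppGen F x.1)⁻¹) * ppProd F L' := by
      simp [ppProd]
    have hbnd : ppBnd (x :: L') = 2 * (x.1 + 1) + ppBnd L' := by
      simp [ppBnd]
    have hvv : (ppProd F (x :: L')).1 *ᵥ ![1, 1]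
        = (cond x.2 (ppGen F x.1) (ppGen F x.1)⁻¹).1 *ᵥ v' := by
      rw [hprod, Matrix.SpecialLinearGroup.coe_mul, ← Matrix.mulVec_mulVec]
    rw [hvv, hbnd]
    obtain ⟨i, ε⟩ := x
    cases ε with
    | true =>
      simp only [cond_true]
      rw [ppGen_mulVec]
      have hpre : (v' 1).natDegree ≠ (v' 0).natDegree + (i + 1) := by
        cases L' with
        | nil =>
          have : v' = ![1, 1] := by rw [hv']; simp [ppProd]
          rw [this]; simp
        | cons y L'' =>
          obtain ⟨hy1, hy2⟩ := hx y L'' rfl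
          have hr := (FreeGroup.isReduced_cons_cons.mp hred).1
          rcases hyb : y.2 with _ | _
          · have := hy2 hyb
            intro hcon
            have : i = y.1 := by omega
            have := hr this
            rw [hyb] at this
            exact absurd this (by simp)
          · have := hy1 hyb
            omega
      obtain ⟨k0, k1, k2, k3⟩ := pp_step (i + 1) (by omega) (v' 0) (v' 1) h0 h1 hpre
      refine ⟨by simpa using k0, by simpa using k1, ?_, ?_, ?_⟩
      · have : ((![(1 + X ^ (2 * (i + 1))) * v' 0 + X ^ (i + 1) * v' 1,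
            X ^ (i + 1) * v' 0 + v' 1] : Fin 2 → F[X]) 0)
            = (1 + X ^ (2 * (i + 1))) * v' 0 + X ^ (i + 1) * v' 1 := rfl
        rw [this]
        have := max_le hb0 hb1
        omega
      · have : ((![(1 + X ^ (2 * (i + 1))) * v' 0 + X ^ (i + 1) * v' 1,
            X ^ (i + 1) * v' 0 + v' 1] : Fin 2 → F[X]) 1)
            = X ^ (i + 1) * v' 0 + v' 1 := rfl
        rw [this]
        have := max_le hb0 hb1
        omega
      · intro x L'' hxL
        have hxe : x = (i, true) := (List.cons.inj hxL).1.symm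
        subst hxe
        refine ⟨fun _ => ?_, fun h => absurd h (by simp)⟩
        exact k2
    | false =>
      simp only [cond_false]
      rw [ppGen_inv_mulVec]
      have hpre : (- v' 0).natDegree ≠ (v' 1).natDegree + (i + 1) := by
        rw [natDegree_neg]
        cases L' with
        | nil =>
          have : v' = ![1, 1] := by rw [hv']; simp [ppProd]
          rw [this]; simp
        | cons y L'' =>
          obtain ⟨hy1, hy2⟩ := hx y L'' rfl
          have hr := (FreeGroup.isReduced_cons_cons.mp hred).1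
          rcases hyb : y.2 with _ | _
          · have := hy2 hyb
            omega
          · have := hy1 hyb
            intro hcon
            have : i = y.1 := by omega
            have := hr this
            rw [hyb] at this
            exact absurd this (by simp)
      obtain ⟨k0, k1, k2, k3⟩ := pp_step (i + 1) (by omega) (v' 1) (- v' 0) h1
        (neg_ne_zero.mpr h0) hpre
      have e0 : X ^ (i + 1) * v' 1 + - v' 0 = - (v' 0 - X ^ (i + 1) * v' 1) := by ring
      rw [e0] at k1 k2
      rw [natDegree_neg] at k2 k3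
      rw [neg_ne_zero] at k1
      have c0 : ((![v' 0 - X ^ (i + 1) * v' 1,
            (1 + X ^ (2 * (i + 1))) * v' 1 + X ^ (i + 1) * (- v' 0)] : Fin 2 → F[X]) 0)
            = v' 0 - X ^ (i + 1) * v' 1 := rfl
      have c1 : ((![v' 0 - X ^ (i + 1) * v' 1,
            (1 + X ^ (2 * (i + 1))) * v' 1 + X ^ (i + 1) * (- v' 0)] : Fin 2 → F[X]) 1)
            = (1 + X ^ (2 * (i + 1))) * v' 1 + X ^ (i + 1) * (- v' 0) := rfl
      rw [c0, c1]
      have hm := max_le hb1 hb0
      refine ⟨k1, k0, by omega, by omega, ?_⟩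
      intro x L'' hxL
      have hxe : x = (i, false) := (List.cons.inj hxL).1.symm
      subst hxe
      refine ⟨fun h => absurd h (by simp), fun _ => ?_⟩
      exact k2

/-- a nontrivial word is not a law in `PSL₂(F)` for large finite fields `F` -/
theorem word_not_law_psl2 (w : FreeGroup ℕ) (hw : w ≠ 1) (F : Type*) [Field F] [Fintype F]
    (hN : ppBnd w.toWord + 2 ≤ Fintype.card F) :
    ∃ f : ℕ → Matrix.ProjectiveSpecialLinearGroup (Fin 2) F, FreeGroup.lift f w ≠ 1 := by
  classical
  have hL : w.toWord ≠ [] := by rwa [Ne, FreeGroup.toWord_eq_nil_iff]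
  have hred : FreeGroup.IsReduced w.toWord := FreeGroup.isReduced_toWord
  obtain ⟨h0, h1, hb0, hb1, hx⟩ := pp_invariant (F := F) w.toWord hred
  set W := ppProd F w.toWord with hW
  set v := W.1 *ᵥ ![1, 1] with hv
  obtain ⟨x, L', hLx⟩ := List.exists_cons_of_ne_nil hL
  have hdeg : (v 0).natDegree ≠ (v 1).natDegree := by
    obtain ⟨hx1, hx2⟩ := hx x L' hLx
    rcases hxb : x.2 with _ | _
    · have := hx2 hxb; omega
    · have := hx1 hxb; omega
  have hp : v 0 - v 1 ≠ 0 := fun h => hdeg (by rw [sub_eq_zero.mp h])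
  have hpd : (v 0 - v 1).natDegree ≤ ppBnd w.toWord :=
    (natDegree_sub_le _ _).trans (max_le hb0 hb1)
  obtain ⟨c, hc⟩ := (v 0 - v 1).exists_eval_ne_zero_of_natDegree_lt_card hp (by
    rw [Cardinal.mk_fintype]
    exact_mod_cast (by omega : (v 0 - v 1).natDegree < Fintype.card F))
  let φ : Matrix.SpecialLinearGroup (Fin 2) F[X] →* Matrix.ProjectiveSpecialLinearGroup (Fin 2) F :=
    (QuotientGroup.mk' _).comp (Matrix.SpecialLinearGroup.map (Polynomial.evalRingHom c))
  refine ⟨fun i => φ (ppGen F i), ?_⟩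
  have hlift : FreeGroup.lift (fun i => φ (ppGen F i)) w = φ W := by
    have e1 : FreeGroup.lift (fun i => φ (ppGen F i)) = φ.comp (FreeGroup.lift (ppGen F)) := by
      ext i; simp
    rw [e1, MonoidHom.comp_apply]
    congr 1
    conv_lhs => rw [← FreeGroup.mk_toWord (x := w)]
    exact FreeGroup.lift_mk
  rw [hlift]
  intro h1
  have hcen : Matrix.SpecialLinearGroup.map (Polynomial.evalRingHom c) W
      ∈ Subgroup.center (Matrix.SpecialLinearGroup (Fin 2) F) :=
    (QuotientGroup.eq_one_iff _).mp h1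
  rw [Matrix.SpecialLinearGroup.mem_center_iff] at hcen
  obtain ⟨r, -, hr⟩ := hcen
  apply hc
  have e00 := congrFun (congrFun hr 0) 0
  have e01 := congrFun (congrFun hr 0) 1
  have e10 := congrFun (congrFun hr 1) 0
  have e11 := congrFun (congrFun hr 1) 1
  simp only [Matrix.scalar_apply, Matrix.SpecialLinearGroup.map_apply_coe,
    RingHom.mapMatrix_apply, Matrix.map_apply, Polynomial.coe_evalRingHom] at e00 e01 e10 e11
  rw [Matrix.diagonal_apply_eq] at e00 e11
  rw [Matrix.diagonal_apply_ne _ (by decide)] at e01 e10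
  have ev0 : v 0 = W.1 0 0 + W.1 0 1 := by
    rw [hv]; simp [Matrix.mulVec, dotProduct, Fin.sum_univ_two]
  have ev1 : v 1 = W.1 1 0 + W.1 1 1 := by
    rw [hv]; simp [Matrix.mulVec, dotProduct, Fin.sum_univ_two]
  rw [ev0, ev1, eval_sub, eval_add, eval_add, ← e00, ← e01, ← e10, ← e11]
  ring

end Cfsg.Agent.Lib.Helper59
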