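import Mathlib
import Cfsg.Agent.Lib.Helper59.LawBasic
import Cfsg.Agent.Lib.Helper59.WordLaw
import Cfsg.Agent.S2352

set_option autoImplicit false

namespace Cfsg.Agent.Lib.Helper59

open Matrix

section Emb

variable (F : Type*) [Field F]

theorem permMatrixHom_injective (n : ℕ) :
    Function.Injective (Matrix.permMatrixHom (n := Fin n) (R := F)) := by
  intro σ τ h
  rw [Matrix.permMatrixHom_apply, Matrix.permMatrixHom_apply] at h
  have h1 := PEquiv.toMatrix_injective h
  have h2 : σ⁻¹ = τ⁻¹ := by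
    ext i
    have := congrArg (fun e : Fin n ≃. Fin n => e i) h1
    simp only [Equiv.toPEquiv_apply, Option.some.injEq] at this
    rw [this]
  exact inv_injective h2

/-- even permutations as permutation matrices in `SL_n` -/
noncomputable def altToSL (n : ℕ) :
    alternatingGroup (Fin n) →* Matrix.SpecialLinearGroup (Fin n) F where
  toFun σ := ⟨Matrix.permMatrixHom (R := F) (σ : Equiv.Perm (Fin n)), by
    rw [Matrix.permMatrixHom_apply, Matrix.det_permutation, Equiv.Perm.sign_inv,
      Equiv.Perm.mem_alternatingGroup.mp σ.2]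
    simp⟩
  map_one' := Subtype.ext (map_one _)
  map_mul' a b := Subtype.ext (map_mul _ _ _)

theorem altToSL_coe (n : ℕ) (σ : alternatingGroup (Fin n)) :
    (altToSL F n σ).1 = Matrix.permMatrixHom (R := F) (σ : Equiv.Perm (Fin n)) := rfl

theorem altToSL_injective (n : ℕ) : Function.Injective (altToSL F n) := by
  intro σ τ h
  have h1 : (altToSL F n σ).1 = (altToSL F n τ).1 := by rw [h]
  rw [altToSL_coe, altToSL_coe] at h1
  exact Subtype.ext (permMatrixHom_injective F n h1)

/-- block embedding of `SL_2` into `SL_{2+k}` -/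
noncomputable def sl2ToSL (k : ℕ) :
    Matrix.SpecialLinearGroup (Fin 2) F →* Matrix.SpecialLinearGroup (Fin (2 + k)) F where
  toFun g := ⟨Matrix.reindexAlgEquiv F F finSumFinEquiv
      (Matrix.fromBlocks g.1 0 0 (1 : Matrix (Fin k) (Fin k) F)), by
    rw [Matrix.det_reindexAlgEquiv, Matrix.det_fromBlocks_zero₂₁, g.2, det_one, mul_one]⟩
  map_one' := by
    apply Subtype.ext
    show Matrix.reindexAlgEquiv F F finSumFinEquiv
      (Matrix.fromBlocks (1 : Matrix (Fin 2) (Fin 2) F) 0 0 (1 : Matrix (Fin k) (Fin k) F)) = 1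
    rw [Matrix.fromBlocks_one, map_one]
  map_mul' a b := by
    apply Subtype.ext
    show Matrix.reindexAlgEquiv F F finSumFinEquiv
      (Matrix.fromBlocks (a.1 * b.1) 0 0 (1 : Matrix (Fin k) (Fin k) F)) =
      Matrix.reindexAlgEquiv F F finSumFinEquiv
        (Matrix.fromBlocks a.1 0 0 (1 : Matrix (Fin k) (Fin k) F)) *
      Matrix.reindexAlgEquiv F F finSumFinEquiv
        (Matrix.fromBlocks b.1 0 0 (1 : Matrix (Fin k) (Fin k) F))
    rw [← map_mul, Matrix.fromBlocks_multiply]
    simp

theorem sl2ToSL_injective (k : ℕ) : Function.Injective (sl2ToSL F k) := by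
  intro a b h
  have h1 : (sl2ToSL F k a).1 = (sl2ToSL F k b).1 := by rw [h]
  have h2 : Matrix.fromBlocks a.1 0 0 (1 : Matrix (Fin k) (Fin k) F)
      = Matrix.fromBlocks b.1 0 0 (1 : Matrix (Fin k) (Fin k) F) :=
    (Matrix.reindexAlgEquiv F F finSumFinEquiv).injective h1
  exact Subtype.ext (Matrix.fromBlocks_inj.mp h2).1

end Emb

/-- a word which is a law in `PSL_m(F)` bounds `m` and `|F|` -/
theorem law_sl_bound (w : FreeGroup ℕ) (hw : w ≠ 1) :
    ∃ M Q : ℕ, ∀ (F : Type) [Field F] [Fintype F] (m : ℕ), 2 ≤ m →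
      LawModCenter w (Matrix.SpecialLinearGroup (Fin m) F) → m < M ∧ Fintype.card F < Q := by
  obtain ⟨N₁, hN₁⟩ := Cfsg.Agent.S2352.result w hw
  refine ⟨max N₁ 5, ppBnd w.toWord + 2, ?_⟩
  intro F _ _ m hm hlaw
  constructor
  · by_contra hcon
    push Not at hcon
    have hm5 : 5 ≤ m := le_trans (le_max_right _ _) hcon
    have hmN : N₁ ≤ m := le_trans (le_max_left _ _) hcon
    obtain ⟨f, hf⟩ := hN₁ m hmN
    have hA : LawModCenter w (alternatingGroup (Fin m)) :=
      hlaw.of_injective (altToSL F m) (altToSL_injective F m)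
    exact hf (hA.law_of_center_eq_bot (alternatingGroup.center_eq_bot (by simp; omega)) f)
  · by_contra hcon
    push Not at hcon
    obtain ⟨k, rfl⟩ := Nat.exists_eq_add_of_le hm
    have h2 : LawModCenter w (Matrix.SpecialLinearGroup (Fin 2) F) :=
      hlaw.of_injective (sl2ToSL F k) (sl2ToSL_injective F k)
    obtain ⟨f, hf⟩ := word_not_law_psl2 w hw F hcon
    exact hf (h2.law_quot f)

end Cfsg.Agent.Lib.Helper59
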