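import Mathlib

set_option autoImplicit false

namespace Cfsg.Agent.Lib.Helper59

open Polynomial Matrix

section Gen

variable {F : Type*} [Field F]

/-- ping-pong degree step for the matrix `[[1 + p^2, p], [p, 1]]`, `p` of degree `D ≥ 1` -/
theorem ppg_step (p : F[X]) (D : ℕ) (hpD : p.natDegree = D) (hD : 1 ≤ D) (a b : F[X])
    (ha : a ≠ 0) (hb : b ≠ 0) (hne : b.natDegree ≠ a.natDegree + D) :
    ((1 + p * p) * a + p * b) ≠ 0 ∧ (p * a + b) ≠ 0 ∧
    ((1 + p * p) * a + p * b).natDegree = (p * a + b).natDegree + D ∧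
    ((1 + p * p) * a + p * b).natDegree ≤ max a.natDegree b.natDegree + 2 * D := by
  have hx0 : p ≠ 0 := ne_zero_of_natDegree_gt (n := 0) (by omega)
  have hpp : (p * p).natDegree = 2 * D := by rw [natDegree_mul hx0 hx0, hpD]; omega
  have hqd : (1 + p * p : F[X]).natDegree = 2 * D := by
    rw [natDegree_add_eq_right_of_natDegree_lt (by rw [natDegree_one, hpp]; omega), hpp]
  have hq0 : (1 + p * p : F[X]) ≠ 0 := ne_zero_of_natDegree_gt (n := 0) (by omega)
  have d1 : ((1 + p * p) * a).natDegree = 2 * D + a.natDegree := by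
    rw [natDegree_mul hq0 ha, hqd]
  have d2 : (p * b).natDegree = D + b.natDegree := by
    rw [natDegree_mul hx0 hb, hpD]
  have d3 : (p * a).natDegree = D + a.natDegree := by
    rw [natDegree_mul hx0 ha, hpD]
  rcases lt_or_gt_of_ne hne with hlt | hgt
  · have k1 : ((1 + p * p) * a + p * b).natDegree = 2 * D + a.natDegree := by
      rw [natDegree_add_eq_left_of_natDegree_lt (by rw [d1, d2]; omega), d1]
    have k2 : (p * a + b).natDegree = D + a.natDegree := by
      rw [natDegree_add_eq_left_of_natDegree_lt (by rw [d3]; omega), d3]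
    refine ⟨ne_zero_of_natDegree_gt (n := 0) (by rw [k1]; omega),
      ne_zero_of_natDegree_gt (n := 0) (by rw [k2]; omega), by rw [k1, k2]; omega, ?_⟩
    rw [k1]
    have := le_max_left a.natDegree b.natDegree
    omega
  · have k1 : ((1 + p * p) * a + p * b).natDegree = D + b.natDegree := by
      rw [natDegree_add_eq_right_of_natDegree_lt (by rw [d1, d2]; omega), d2]
    have k2 : (p * a + b).natDegree = b.natDegree := by
      rw [natDegree_add_eq_right_of_natDegree_lt (by rw [d3]; omega)]
    refine ⟨ne_zero_of_natDegree_gt (n := 0) (by rw [k1]; omega),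
      ne_zero_of_natDegree_gt (n := 0) (by rw [k2]; omega), by rw [k1, k2]; omega, ?_⟩
    rw [k1]
    have := le_max_right a.natDegree b.natDegree
    omega

/-- generator matrices -/
noncomputable def ppgGen (p : ℕ → F[X]) (i : ℕ) : Matrix.SpecialLinearGroup (Fin 2) F[X] :=
  ⟨!![1 + p i * p i, p i; p i, 1], by
    rw [Matrix.det_fin_two_of]; ring⟩

theorem ppgGen_mulVec (p : ℕ → F[X]) (i : ℕ) (v : Fin 2 → F[X]) :
    (ppgGen p i).1 *ᵥ v = ![(1 + p i * p i) * v 0 + p i * v 1, p i * v 0 + v 1] := by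
  ext j
  fin_cases j <;> simp [ppgGen, Matrix.mulVec, dotProduct, Fin.sum_univ_two]

theorem ppgGen_inv_mulVec (p : ℕ → F[X]) (i : ℕ) (v : Fin 2 → F[X]) :
    ((ppgGen p i)⁻¹).1 *ᵥ v = ![v 0 - p i * v 1, (1 + p i * p i) * v 1 + p i * (- v 0)] := by
  rw [Matrix.SpecialLinearGroup.coe_inv]
  ext j
  fin_cases j <;>
    simp [ppgGen, Matrix.adjugate_fin_two_of, Matrix.mulVec, dotProduct, Fin.sum_univ_two] <;> ring

/-- degree bound of a word -/
def ppgBnd (D : ℕ → ℕ) (L : List (ℕ × Bool)) : ℕ := (L.map fun x => 2 * D x.1).sum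

/-- the matrix of a word -/
noncomputable def ppgProd (p : ℕ → F[X]) (L : List (ℕ × Bool)) :
    Matrix.SpecialLinearGroup (Fin 2) F[X] :=
  (L.map fun x => cond x.2 (ppgGen p x.1) (ppgGen p x.1)⁻¹).prod

theorem ppg_invariant (p : ℕ → F[X]) (D : ℕ → ℕ) (hp : ∀ i, (p i).natDegree = D i)
    (hD : ∀ i, 1 ≤ D i) (hinj : Function.Injective D) :
    ∀ (L : List (ℕ × Bool)), FreeGroup.IsReduced L →
    ((ppgProd p L).1 *ᵥ ![1, 1]) 0 ≠ 0 ∧ ((ppgProd p L).1 *ᵥ ![1, 1]) 1 ≠ 0 ∧
    (((ppgProd p L).1 *ᵥ ![1, 1]) 0).natDegree ≤ ppgBnd D L ∧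
    (((ppgProd p L).1 *ᵥ ![1, 1]) 1).natDegree ≤ ppgBnd D L ∧
    (∀ x L', L = x :: L' →
      (x.2 = true → (((ppgProd p L).1 *ᵥ ![1, 1]) 0).natDegree
        = (((ppgProd p L).1 *ᵥ ![1, 1]) 1).natDegree + D x.1) ∧
      (x.2 = false → (((ppgProd p L).1 *ᵥ ![1, 1]) 1).natDegree
        = (((ppgProd p L).1 *ᵥ ![1, 1]) 0).natDegree + D x.1)) := by
  intro L
  induction L with
  | nil =>
    intro _
    have : (ppgProd p []).1 *ᵥ ![1, 1] = ![1, 1] := by
      simp [ppgProd]
    rw [this]
    refine ⟨by simp, by simp, by simp, by simp, ?_⟩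
    intro x L' h
    exact absurd h (by simp)
  | cons x L' ih =>
    intro hred
    have hred' : FreeGroup.IsReduced L' := hred.infix ⟨[x], [], by simp⟩
    obtain ⟨h0, h1, hb0, hb1, hx⟩ := ih hred'
    set v' := (ppgProd p L').1 *ᵥ ![1, 1] with hv'
    have hprod : ppgProd p (x :: L')
        = (cond x.2 (ppgGen p x.1) (ppgGen p x.1)⁻¹) * ppgProd p L' := by
      simp [ppgProd]
    have hbnd : ppgBnd D (x :: L') = 2 * D x.1 + ppgBnd D L' := by
      simp [ppgBnd]
    have hvv : (ppgProd p (x :: L')).1 *ᵥ ![1, 1]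
        = (cond x.2 (ppgGen p x.1) (ppgGen p x.1)⁻¹).1 *ᵥ v' := by
      rw [hprod, Matrix.SpecialLinearGroup.coe_mul, ← Matrix.mulVec_mulVec]
    rw [hvv, hbnd]
    obtain ⟨i, ε⟩ := x
    have hDi := hD i
    cases ε with
    | true =>
      simp only [cond_true]
      rw [ppgGen_mulVec]
      have hpre : (v' 1).natDegree ≠ (v' 0).natDegree + D i := by
        cases L' with
        | nil =>
          have : v' = ![1, 1] := by rw [hv']; simp [ppgProd]
          rw [this]; simp; omega
        | cons y L'' =>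
          obtain ⟨hy1, hy2⟩ := hx y L'' rfl
          have hr := (FreeGroup.isReduced_cons_cons.mp hred).1
          rcases hyb : y.2 with _ | _
          · have := hy2 hyb
            intro hcon
            have : i = y.1 := hinj (by omega)
            have := hr this
            rw [hyb] at this
            exact absurd this (by simp)
          · have := hy1 hyb
            have := hD y.1
            omega
      obtain ⟨k0, k1, k2, k3⟩ := ppg_step (p i) (D i) (hp i) hDi (v' 0) (v' 1) h0 h1 hpre
      refine ⟨by simpa using k0, by simpa using k1, ?_, ?_, ?_⟩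
      · have : ((![(1 + p i * p i) * v' 0 + p i * v' 1,
            p i * v' 0 + v' 1] : Fin 2 → F[X]) 0)
            = (1 + p i * p i) * v' 0 + p i * v' 1 := rfl
        rw [this]
        have := max_le hb0 hb1
        omega
      · have : ((![(1 + p i * p i) * v' 0 + p i * v' 1,
            p i * v' 0 + v' 1] : Fin 2 → F[X]) 1)
            = p i * v' 0 + v' 1 := rfl
        rw [this]
        have := max_le hb0 hb1
        omega
      · intro x L'' hxL
        have hxe : x = (i, true) := (List.cons.inj hxL).1.symm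
        subst hxe
        refine ⟨fun _ => ?_, fun h => absurd h (by simp)⟩
        exact k2
    | false =>
      simp only [cond_false]
      rw [ppgGen_inv_mulVec]
      have hpre : (- v' 0).natDegree ≠ (v' 1).natDegree + D i := by
        rw [natDegree_neg]
        cases L' with
        | nil =>
          have : v' = ![1, 1] := by rw [hv']; simp [ppgProd]
          rw [this]; simp; omega
        | cons y L'' =>
          obtain ⟨hy1, hy2⟩ := hx y L'' rfl
          have hr := (FreeGroup.isReduced_cons_cons.mp hred).1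
          rcases hyb : y.2 with _ | _
          · have := hy2 hyb
            have := hD y.1
            omega
          · have := hy1 hyb
            intro hcon
            have : i = y.1 := hinj (by omega)
            have := hr this
            rw [hyb] at this
            exact absurd this (by simp)
      obtain ⟨k0, k1, k2, k3⟩ := ppg_step (p i) (D i) (hp i) hDi (v' 1) (- v' 0) h1
        (neg_ne_zero.mpr h0) hpre
      have e0 : p i * v' 1 + - v' 0 = - (v' 0 - p i * v' 1) := by ring
      rw [e0] at k1 k2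
      rw [natDegree_neg] at k2 k3
      rw [neg_ne_zero] at k1
      have c0 : ((![v' 0 - p i * v' 1,
            (1 + p i * p i) * v' 1 + p i * (- v' 0)] : Fin 2 → F[X]) 0)
            = v' 0 - p i * v' 1 := rfl
      have c1 : ((![v' 0 - p i * v' 1,
            (1 + p i * p i) * v' 1 + p i * (- v' 0)] : Fin 2 → F[X]) 1)
            = (1 + p i * p i) * v' 1 + p i * (- v' 0) := rfl
      rw [c0, c1]
      have hm := max_le hb1 hb0
      refine ⟨k1, k0, by omega, by omega, ?_⟩
      intro x L'' hxL
      have hxe : x = (i, false) := (List.cons.inj hxL).1.symm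
      subst hxe
      refine ⟨fun h => absurd h (by simp), fun _ => ?_⟩
      exact k2

/-- the test polynomial of a nonempty reduced word is nonzero of bounded degree -/
theorem ppg_test (p : ℕ → F[X]) (D : ℕ → ℕ) (hp : ∀ i, (p i).natDegree = D i)
    (hD : ∀ i, 1 ≤ D i) (hinj : Function.Injective D) (L : List (ℕ × Bool))
    (hred : FreeGroup.IsReduced L) (hL : L ≠ []) :
    ((ppgProd p L).1 *ᵥ ![1, 1]) 0 - ((ppgProd p L).1 *ᵥ ![1, 1]) 1 ≠ 0 ∧
    (((ppgProd p L).1 *ᵥ ![1, 1]) 0 - ((ppgProd p L).1 *ᵥ ![1, 1]) 1).natDegree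
      ≤ ppgBnd D L := by
  obtain ⟨h0, h1, hb0, hb1, hx⟩ := ppg_invariant p D hp hD hinj L hred
  obtain ⟨x, L', hLx⟩ := List.exists_cons_of_ne_nil hL
  have hDx := hD x.1
  have hdeg : (((ppgProd p L).1 *ᵥ ![1, 1]) 0).natDegree
      ≠ (((ppgProd p L).1 *ᵥ ![1, 1]) 1).natDegree := by
    obtain ⟨hx1, hx2⟩ := hx x L' hLx
    rcases hxb : x.2 with _ | _
    · have := hx2 hxb; omega
    · have := hx1 hxb; omega
  exact ⟨fun h => hdeg (by rw [sub_eq_zero.mp h]),
    (natDegree_sub_le _ _).trans (max_le hb0 hb1)⟩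

end Gen

end Cfsg.Agent.Lib.Helper59
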