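import Mathlib
import Cfsg.Prelude.Def_Classical
import Cfsg.Agent.Lib.Helper59.LawBasic
import Cfsg.Agent.Lib.Helper59.LawPSL
import Cfsg.Agent.Lib.Helper59.WordLawGen
import Cfsg.Agent.Lib.Helper13.UTransvComm
import Cfsg.Agent.Lib.Helper45.HermCenter
import Cfsg.Agent.Lib.Helper45.HermCount

set_option autoImplicit false

namespace Cfsg.Agent.Lib.Helper59

open Matrix Polynomial Cfsg.Agent.Lib.Helper45 Cfsg.Agent.Lib.Helper13

section SU

variable {F : Type*} [Field F] [Fintype F] {q : ℕ}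

/-- an element of norm `-1` and nonzero trace -/
theorem exists_zeta (hF : Fintype.card F = q ^ 2) :
    ∃ ζ : F, ζ ^ (q + 1) = -1 ∧ ζ + ζ ^ q ≠ 0 := by
  classical
  have hq2 := two_le_q hF
  have hc : ((-1 : F)) ^ q = -1 := by rw [conj_neg hF, one_pow]
  have hcard := norm_fiber_card hF (-1 : F) (by simp) hc
  by_contra hcon
  push Not at hcon
  have hsub : ∀ x : {x : F // x ^ (q + 1) = -1}, x.1 = 1 ∨ x.1 = -1 := by
    rintro ⟨x, hx⟩
    have h1 := hcon x hx
    have h2 : x ^ q = -x := by linear_combination h1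
    have h3 : x ^ 2 = 1 := by
      rw [pow_succ, h2] at hx
      linear_combination -hx
    have h4 : (x - 1) * (x + 1) = 0 := by linear_combination h3
    rcases mul_eq_zero.mp h4 with h | h
    · left; linear_combination h
    · right; linear_combination h
  have hinj : Function.Injective
      (fun x : {x : F // x ^ (q + 1) = -1} => decide (x.1 = 1)) := by
    intro x y hxy
    apply Subtype.ext
    rcases hsub x with hx | hx <;> rcases hsub y with hy | hy
    · rw [hx, hy]
    · simp only [hx, decide_true] at hxy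
      have : y.1 = 1 := by simpa using hxy.symm
      rw [hx, this]
    · simp only [hy, decide_true] at hxy
      have : x.1 = 1 := by simpa using hxy
      rw [this, hy]
    · rw [hx, hy]
  have hle := Nat.card_le_card_of_injective _ hinj
  rw [hcard, Nat.card_eq_fintype_card, Fintype.card_bool] at hle
  omega

/-- a pair of isotropic vectors with nonzero product -/
structure HypPair (n : ℕ) (F : Type*) [Field F] (q : ℕ) (a a' : Fin n → F) (κ : F) : Prop where
  aa : Cfsg.hermForm n F q a a = 0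
  bb : Cfsg.hermForm n F q a' a' = 0
  ba : Cfsg.hermForm n F q a' a = κ
  ab : Cfsg.hermForm n F q a a' = κ
  ne : κ ≠ 0

theorem exists_hypPair (hF : Fintype.card F = q ^ 2) (k : ℕ) :
    ∃ (a a' : Fin (k + 2) → F) (κ : F), HypPair (k + 2) F q a a' κ := by
  obtain ⟨ζ, hζ, hκ⟩ := exists_zeta hF
  have hq2 := two_le_q hF
  have hq0 : q ≠ 0 := by omega
  have hζ' : ζ * ζ ^ q = -1 := by rw [← hζ, pow_succ, mul_comm]
  refine ⟨Fin.cons 1 (Fin.cons ζ 0), Fin.cons ζ (Fin.cons 1 0), ζ + ζ ^ q, ?_, ?_, ?_, ?_, hκ⟩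
  · simp only [herm_def, Fin.sum_univ_succ, Fin.cons_zero, Fin.cons_succ, Pi.zero_apply,
      zero_mul, Finset.sum_const_zero, add_zero, one_pow, mul_one]
    rw [hζ']; ring
  · simp only [herm_def, Fin.sum_univ_succ, Fin.cons_zero, Fin.cons_succ, Pi.zero_apply,
      zero_mul, Finset.sum_const_zero, add_zero, one_pow, mul_one]
    rw [hζ']; ring
  · simp only [herm_def, Fin.sum_univ_succ, Fin.cons_zero, Fin.cons_succ, Pi.zero_apply,
      zero_mul, Finset.sum_const_zero, add_zero, one_pow, mul_one, one_mul]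
  · simp only [herm_def, Fin.sum_univ_succ, Fin.cons_zero, Fin.cons_succ, Pi.zero_apply,
      zero_mul, Finset.sum_const_zero, add_zero, one_pow, mul_one, one_mul]
    ring

/-- the vector with coordinates `α, β` in a hyperbolic pair -/
def evv {n : ℕ} (a a' : Fin n → F) (α β : F) : Fin n → F := α • a + β • a'

theorem HypPair.evv_inj {n : ℕ} {a a' : Fin n → F} {κ : F} (hP : HypPair n F q a a' κ)
    {α β α' β' : F} (h : evv a a' α β = evv a a' α' β') :
    α = α' ∧ β = β' := by
  have h1 := congrArg (fun x => Cfsg.hermForm n F q x a') h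
  have h2 := congrArg (fun x => Cfsg.hermForm n F q x a) h
  simp only [evv, herm_add_left, herm_smul_left, hP.aa, hP.bb, hP.ab, hP.ba, mul_zero, add_zero,
    zero_add] at h1 h2
  exact ⟨mul_right_cancel₀ hP.ne h1, mul_right_cancel₀ hP.ne h2⟩

theorem HypPair.utransv_left {n : ℕ} {a a' : Fin n → F} {κ : F} (hP : HypPair n F q a a' κ)
    (c α β : F) :
    Cfsg.unitaryTransvection n q a c *ᵥ evv a a' α β = evv a a' (α + c * κ * β) β := by
  rw [utransv_mulVec]
  simp only [evv, herm_add_left, herm_smul_left, hP.aa, hP.ba, mul_zero, zero_add]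
  rw [add_smul, mul_assoc, mul_comm κ β]
  abel

theorem HypPair.utransv_right {n : ℕ} {a a' : Fin n → F} {κ : F} (hP : HypPair n F q a a' κ)
    (c α β : F) :
    Cfsg.unitaryTransvection n q a' c *ᵥ evv a a' α β = evv a a' α (β + c * κ * α) := by
  rw [utransv_mulVec]
  simp only [evv, herm_add_left, herm_smul_left, hP.bb, hP.ab, mul_zero, add_zero]
  rw [add_smul, mul_assoc, mul_comm κ α]
  abel

/-- the skew element attached to `s` -/
theorem skew_conj (hF : Fintype.card F = q ^ 2) (s : F) : (s - s ^ q) ^ q = -(s - s ^ q) := by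
  rw [conj_sub hF, conj_conj hF]; ring

/-- matrix of an element of `SU`, as a monoid hom -/
def suMat (n : ℕ) (F : Type*) [Field F] (q : ℕ) :
    ↥(Cfsg.SU n F q) →* Matrix (Fin n) (Fin n) F where
  toFun g := ((g : Matrix.SpecialLinearGroup (Fin n) F) : Matrix (Fin n) (Fin n) F)
  map_one' := rfl
  map_mul' _ _ := rfl

/-- the ping-pong generator in `SU` -/
noncomputable def suGen (hF : Fintype.card F = q ^ 2) {n : ℕ} {a a' : Fin n → F} {κ : F}
    (hP : HypPair n F q a a' κ) (s : F) : ↥(Cfsg.SU n F q) :=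
  suMk (Cfsg.unitaryTransvection n q a (s - s ^ q)) (det_utransv a _ hP.aa)
      (isHermIso_utransv hF a _ hP.aa (skew_conj hF s)) *
    suMk (Cfsg.unitaryTransvection n q a' (s - s ^ q)) (det_utransv a' _ hP.bb)
      (isHermIso_utransv hF a' _ hP.bb (skew_conj hF s))

theorem suGen_mulVec (hF : Fintype.card F = q ^ 2) {n : ℕ} {a a' : Fin n → F} {κ : F}
    (hP : HypPair n F q a a' κ) (s α β : F) :
    suMat n F q (suGen hF hP s) *ᵥ evv a a' α β =
      evv a a' ((1 + (κ * (s - s ^ q)) * (κ * (s - s ^ q))) * α + (κ * (s - s ^ q)) * β)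
        ((κ * (s - s ^ q)) * α + β) := by
  show (Cfsg.unitaryTransvection n q a (s - s ^ q) * Cfsg.unitaryTransvection n q a' (s - s ^ q))
    *ᵥ evv a a' α β = _
  rw [← Matrix.mulVec_mulVec, hP.utransv_right, hP.utransv_left]
  congr 1 <;> ring

/-- the polynomial family -/
noncomputable def suPoly (F : Type*) [Field F] (q : ℕ) (κ : F) (i : ℕ) : F[X] :=
  C κ * (X ^ (i + 1) - X ^ (q * (i + 1)))

omit [Fintype F] in
theorem suPoly_natDegree (hq : 2 ≤ q) {κ : F} (hκ : κ ≠ 0) (i : ℕ) :
    (suPoly F q κ i).natDegree = q * (i + 1) := by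
  unfold suPoly
  rw [natDegree_C_mul hκ, natDegree_sub_eq_right_of_natDegree_lt, natDegree_X_pow]
  rw [natDegree_X_pow, natDegree_X_pow]
  exact lt_mul_of_one_lt_left (by omega) (by omega)

omit [Fintype F] in
theorem suPoly_eval (κ t : F) (i : ℕ) :
    (suPoly F q κ i).eval t = κ * (t ^ (i + 1) - (t ^ (i + 1)) ^ q) := by
  unfold suPoly
  rw [eval_mul, eval_C, eval_sub, eval_pow, eval_pow, eval_X, mul_comm q, pow_mul]

theorem ppgBnd_mul (q : ℕ) (L : List (ℕ × Bool)) :
    ppgBnd (fun i => q * (i + 1)) L = q * ppBnd L := by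
  induction L with
  | nil => simp [ppgBnd, ppBnd]
  | cons x L ih =>
    simp only [ppgBnd, ppBnd, List.map_cons, List.sum_cons] at ih ⊢
    rw [ih]; ring

/-- evaluation of a polynomial vector -/
noncomputable def evalv {n : ℕ} (a a' : Fin n → F) (t : F) (v : Fin 2 → F[X]) : Fin n → F :=
  evv a a' ((v 0).eval t) ((v 1).eval t)

theorem evalv_gen (hF : Fintype.card F = q ^ 2) {n : ℕ} {a a' : Fin n → F} {κ : F}
    (hP : HypPair n F q a a' κ) (t : F) (i : ℕ) (v : Fin 2 → F[X]) :
    suMat n F q (suGen hF hP (t ^ (i + 1))) *ᵥ evalv a a' t v =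
      evalv a a' t ((ppgGen (suPoly F q κ) i).1 *ᵥ v) := by
  rw [ppgGen_mulVec]
  unfold evalv
  rw [suGen_mulVec]
  simp only [Matrix.cons_val_zero, Matrix.cons_val_one, eval_add, eval_mul, eval_one,
    suPoly_eval]

theorem evalv_gen_inv (hF : Fintype.card F = q ^ 2) {n : ℕ} {a a' : Fin n → F} {κ : F}
    (hP : HypPair n F q a a' κ) (t : F) (i : ℕ) (v : Fin 2 → F[X]) :
    suMat n F q (suGen hF hP (t ^ (i + 1)))⁻¹ *ᵥ evalv a a' t v =
      evalv a a' t (((ppgGen (suPoly F q κ) i)⁻¹).1 *ᵥ v) := by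
  have h1 : v = (ppgGen (suPoly F q κ) i).1 *ᵥ (((ppgGen (suPoly F q κ) i)⁻¹).1 *ᵥ v) := by
    rw [Matrix.mulVec_mulVec, ← Matrix.SpecialLinearGroup.coe_mul, mul_inv_cancel,
      Matrix.SpecialLinearGroup.coe_one, Matrix.one_mulVec]
  conv_lhs => rw [h1]
  rw [← evalv_gen hF hP, Matrix.mulVec_mulVec, ← map_mul, inv_mul_cancel, map_one,
    Matrix.one_mulVec]

theorem evalv_prod (hF : Fintype.card F = q ^ 2) {n : ℕ} {a a' : Fin n → F} {κ : F}
    (hP : HypPair n F q a a' κ) (t : F) (L : List (ℕ × Bool)) (v : Fin 2 → F[X]) :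
    suMat n F q ((L.map fun x => cond x.2 (suGen hF hP (t ^ (x.1 + 1)))
        (suGen hF hP (t ^ (x.1 + 1)))⁻¹).prod) *ᵥ evalv a a' t v =
      evalv a a' t ((ppgProd (suPoly F q κ) L).1 *ᵥ v) := by
  induction L with
  | nil => simp [ppgProd]
  | cons x L ih =>
    have hprod : ppgProd (suPoly F q κ) (x :: L)
        = (cond x.2 (ppgGen (suPoly F q κ) x.1) (ppgGen (suPoly F q κ) x.1)⁻¹) *
          ppgProd (suPoly F q κ) L := by
      simp [ppgProd]
    rw [List.map_cons, List.prod_cons, map_mul, ← Matrix.mulVec_mulVec, ih, hprod,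
      Matrix.SpecialLinearGroup.coe_mul, ← Matrix.mulVec_mulVec]
    obtain ⟨i, ε⟩ := x
    cases ε with
    | true => exact evalv_gen hF hP t i _
    | false => exact evalv_gen_inv hF hP t i _

/-- a nontrivial word is not a law modulo the centre in `SU_n(q)` for `q` large -/
theorem not_law_su (w : FreeGroup ℕ) (hw : w ≠ 1) (hF : Fintype.card F = q ^ 2) (k : ℕ)
    (hB : ppBnd w.toWord < q) : ¬ LawModCenter w ↥(Cfsg.SU (k + 2) F q) := by
  classical
  intro hlaw
  have hq2 := two_le_q hF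
  obtain ⟨a, a', κ, hP⟩ := exists_hypPair hF k
  have hL : w.toWord ≠ [] := by rwa [Ne, FreeGroup.toWord_eq_nil_iff]
  have hred : FreeGroup.IsReduced w.toWord := FreeGroup.isReduced_toWord
  have hD1 : ∀ i : ℕ, 1 ≤ q * (i + 1) := fun i => Nat.mul_pos (by omega) (by omega)
  have hDinj : Function.Injective (fun i : ℕ => q * (i + 1)) := by
    intro i j hij
    have := Nat.eq_of_mul_eq_mul_left (by omega : 0 < q) hij
    omega
  obtain ⟨hp, hpd⟩ := ppg_test (suPoly F q κ) (fun i => q * (i + 1))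
    (suPoly_natDegree hq2 hP.ne) hD1 hDinj w.toWord hred hL
  rw [ppgBnd_mul] at hpd
  set v := (ppgProd (suPoly F q κ) w.toWord).1 *ᵥ ![1, 1] with hv
  have hlt : q * ppBnd w.toWord < Fintype.card F := by
    rw [hF, sq]
    exact (Nat.mul_lt_mul_left (by omega : 0 < q)).mpr hB
  obtain ⟨t, ht⟩ := (v 0 - v 1).exists_eval_ne_zero_of_natDegree_lt_card hp (by
    rw [Cardinal.mk_fintype]
    exact_mod_cast (by omega : (v 0 - v 1).natDegree < Fintype.card F))
  set g : ℕ → ↥(Cfsg.SU (k + 2) F q) := fun i => suGen hF hP (t ^ (i + 1)) with hg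
  have hZ := hlaw g
  have e1 : FreeGroup.lift g w
      = (w.toWord.map fun y => cond y.2 (g y.1) (g y.1)⁻¹).prod := by
    conv_lhs => rw [← FreeGroup.mk_toWord (x := w)]
    exact FreeGroup.lift_mk
  set Zm := suMat (k + 2) F q (FreeGroup.lift g w) with hZm
  have hact : Zm *ᵥ evalv a a' t ![1, 1] = evalv a a' t v := by
    rw [hZm, e1]
    exact evalv_prod hF hP t w.toWord ![1, 1]
  have hcs := central_scalar hF (n := k + 2) (by omega) Zm
    (by
      intro M hM hdet
      rw [Subgroup.mem_center_iff] at hZ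
      have := congrArg (suMat (k + 2) F q) (hZ (suMk M hdet hM))
      rw [map_mul, map_mul] at this
      exact this)
  generalize Zm ⟨0, by omega⟩ ⟨0, by omega⟩ = lam at hcs
  rw [hcs, Matrix.smul_mulVec, Matrix.one_mulVec] at hact
  have h2 : evv a a' lam lam = evv a a' ((v 0).eval t) ((v 1).eval t) := by
    unfold evalv at hact
    rw [← hact]
    simp [evv, smul_add]
  obtain ⟨h3, h4⟩ := hP.evv_inj h2
  apply ht
  rw [eval_sub, ← h3, ← h4, sub_self]

/-- even permutations inside `SU_n(q)` -/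
noncomputable def altToSU (F : Type*) [Field F] [Fintype F] (q n : ℕ) :
    alternatingGroup (Fin n) →* ↥(Cfsg.SU n F q) :=
  (altToSL F n).codRestrict _ (fun σ => by
    show IsHermIso n F q (Matrix.permMatrixHom (R := F) (σ : Equiv.Perm (Fin n)))
    rw [Matrix.permMatrixHom_apply]
    exact isHermIso_perm _)

theorem altToSU_injective (q n : ℕ) : Function.Injective (altToSU F q n) := by
  intro a b h
  exact altToSL_injective F n (congrArg Subtype.val h)

end SU

/-- a word which is a law in `PSU_n(q)` bounds `n` and `q` -/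
theorem law_su_bound (w : FreeGroup ℕ) (hw : w ≠ 1) :
    ∃ M B : ℕ, ∀ (F : Type) [Field F] [Fintype F] (n q : ℕ), Fintype.card F = q ^ 2 → 2 ≤ n →
      LawModCenter w ↥(Cfsg.SU n F q) → n < M ∧ q ≤ B := by
  obtain ⟨N₁, hN₁⟩ := Cfsg.Agent.S2352.result w hw
  refine ⟨max N₁ 5, ppBnd w.toWord, ?_⟩
  intro F _ _ n q hF hn hlaw
  constructor
  · by_contra hcon
    push Not at hcon
    have hm5 : 5 ≤ n := le_trans (le_max_right _ _) hcon
    have hmN : N₁ ≤ n := le_trans (le_max_left _ _) hcon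
    obtain ⟨f, hf⟩ := hN₁ n hmN
    have hA : LawModCenter w (alternatingGroup (Fin n)) :=
      hlaw.of_injective (altToSU F q n) (altToSU_injective q n)
    exact hf (hA.law_of_center_eq_bot (alternatingGroup.center_eq_bot (by simp; omega)) f)
  · by_contra hcon
    push Not at hcon
    obtain ⟨k, rfl⟩ := Nat.exists_eq_add_of_le hn
    rw [add_comm] at hlaw
    exact not_law_su w hw hF k hcon hlaw

end Cfsg.Agent.Lib.Helper59
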