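import Mathlib
import Cfsg.Prelude.Def_Classical
import Cfsg.Agent.Lib.Helper59.LawBasic
import Cfsg.Agent.Lib.Helper59.LawPSL
import Cfsg.Agent.Lib.Helper59.LawEmb
import Cfsg.Agent.Lib.Helper59.LawSU

set_option autoImplicit false

namespace Cfsg.Agent.Lib.Helper59

open Matrix

universe u

theorem card_le_of_quot_center {G : Type u} {K : Type} [Group G] [Group K] {ι : Type}
    [Fintype ι] [DecidableEq ι] {F : Type} [Fintype F] (e : G ≃* K ⧸ Subgroup.center K)
    (j : K → Matrix ι ι F) (hj : Function.Injective j) :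
    Nat.card G ≤ Fintype.card F ^ (Fintype.card ι * Fintype.card ι) := by
  have : Finite K := Finite.of_injective j hj
  exact (card_quot_center_le e).trans (card_le_of_injective_matrix j hj)

theorem pow_bound_aux {c d C D : ℕ} (hc : c ≤ C) (hd : d ≤ D) (hC : 1 ≤ C) :
    c ^ (d * d) ≤ C ^ (D * D) :=
  (Nat.pow_le_pow_left hc _).trans (Nat.pow_le_pow_right hC (Nat.mul_le_mul hd hd))

theorem omega_val_injective {ι : Type} [Fintype ι] [DecidableEq ι] {F : Type} [Field F]
    (Q : (ι → F) → F) :
    Function.Injective (fun g : ↥(Cfsg.Omega F Q) =>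
      (((g : ↥(Cfsg.isometryGroup F Q)) : Matrix.GeneralLinearGroup ι F) : Matrix ι ι F)) := by
  intro a b h
  exact Subtype.ext (Subtype.ext (Units.ext h))

/-- a nontrivial word is a law in only finitely many alternating or classical simple groups -/
theorem law_classical_bound (w : FreeGroup ℕ) (hw : w ≠ 1) :
    ∃ N : ℕ, ∀ (G : Type u) [Group G] [Finite G],
      (Cfsg.IsAlternating G ∨ Cfsg.IsPSL G ∨ Cfsg.IsPSp G ∨ Cfsg.IsPSU G ∨ Cfsg.IsPOmegaOdd G ∨
          Cfsg.IsPOmegaPlus G ∨ Cfsg.IsPOmegaMinus G) →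
      (∀ f : ℕ → G, FreeGroup.lift f w = 1) → Nat.card G ≤ N := by
  obtain ⟨N₁, hN₁⟩ := Cfsg.Agent.S2352.result w hw
  obtain ⟨M, Q, hSL⟩ := law_sl_bound w hw
  obtain ⟨M', B, hSU⟩ := law_su_bound w hw
  have hC1 : 1 ≤ Q + (B + 1) ^ 2 := by
    have : 1 ≤ (B + 1) ^ 2 := Nat.one_le_pow _ _ (by omega)
    omega
  refine ⟨max N₁.factorial ((Q + (B + 1) ^ 2) ^ ((2 * (M + M') + 2) * (2 * (M + M') + 2))), ?_⟩
  intro G _ _ hG hlaw
  rcases hG with hG | hG | hG | hG | hG | hG | hG
  · -- alternating
    obtain ⟨n, hn, ⟨e⟩⟩ := hG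
    refine le_trans ?_ (le_max_left _ _)
    have hn1 : n < N₁ := by
      by_contra hcon
      push Not at hcon
      obtain ⟨f, hf⟩ := hN₁ n hcon
      apply hf
      have h1 := lift_map_apply e.toMonoidHom (fun i => e.symm (f i)) w
      have h2 : (fun i => e.toMonoidHom (e.symm (f i))) = f := by
        funext i; simp
      rw [h2, hlaw, map_one] at h1
      exact h1
    rw [Nat.card_congr e.toEquiv]
    refine le_trans (Subgroup.card_le_card_group _) ?_
    rw [Nat.card_perm, Nat.card_eq_fintype_card, Fintype.card_fin]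
    exact Nat.factorial_le hn1.le
  · -- PSL
    obtain ⟨F, _, _, n, hn, -, ⟨e⟩⟩ := hG
    refine le_trans ?_ (le_max_right _ _)
    have hL : LawModCenter w (Matrix.SpecialLinearGroup (Fin n) F) :=
      lawModCenter_of_law_quot e w hlaw
    obtain ⟨h1, h2⟩ := hSL F n hn hL
    refine le_trans (card_le_of_quot_center e (fun g => g.1) Subtype.val_injective) ?_
    rw [Fintype.card_fin]
    exact pow_bound_aux (by omega) (by omega) hC1
  · -- PSp
    obtain ⟨F, _, _, m, hm, -, ⟨e⟩⟩ := hG
    refine le_trans ?_ (le_max_right _ _)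
    have hL : LawModCenter w (Matrix.symplecticGroup (Fin m) F) :=
      lawModCenter_of_law_quot e w hlaw
    obtain ⟨h1, h2⟩ := hSL F m hm (hL.of_injective (spHom F m) (spHom_injective F m))
    refine le_trans (card_le_of_quot_center e (fun g => g.1) Subtype.val_injective) ?_
    rw [Fintype.card_sum, Fintype.card_fin]
    exact pow_bound_aux (by omega) (by omega) hC1
  · -- PSU
    obtain ⟨F, _, _, n, q, hF, hn, -, ⟨e⟩⟩ := hG
    refine le_trans ?_ (le_max_right _ _)
    have hL : LawModCenter w ↥(Cfsg.SU n F q) := lawModCenter_of_law_quot e w hlaw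
    obtain ⟨h1, h2⟩ := hSU F n q hF (by omega) hL
    refine le_trans (card_le_of_quot_center e (fun g => g.1.1)
      (fun a b h => Subtype.ext (Subtype.ext h))) ?_
    rw [Fintype.card_fin, hF]
    have h3 : q ^ 2 ≤ (B + 1) ^ 2 := Nat.pow_le_pow_left (by omega) 2
    exact pow_bound_aux (by omega) (by omega) hC1
  · -- POmega odd
    obtain ⟨F, _, _, m, hm, -, ⟨e⟩⟩ := hG
    refine le_trans ?_ (le_max_right _ _)
    have hL : LawModCenter w ↥(Cfsg.Omega F (Cfsg.quadFormOdd m F)) :=
      lawModCenter_of_law_quot e w hlaw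
    obtain ⟨h1, h2⟩ := hSL F m (by omega) (hL.of_perfect_injective (oddHom F m)
      (oddHom_injective F m) (Cfsg.Agent.Lib.Helper5.commutator_SL_eq_top (by simpa using hm)))
    refine le_trans (card_le_of_quot_center e _ (omega_val_injective _)) ?_
    rw [Fintype.card_sum, Fintype.card_sum, Fintype.card_fin, Fintype.card_unit]
    exact pow_bound_aux (by omega) (by omega) hC1
  · -- POmega plus
    obtain ⟨F, _, _, m, hm, ⟨e⟩⟩ := hG
    refine le_trans ?_ (le_max_right _ _)
    have hL : LawModCenter w ↥(Cfsg.Omega F (Cfsg.quadFormPlus m F)) :=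
      lawModCenter_of_law_quot e w hlaw
    obtain ⟨h1, h2⟩ := hSL F m (by omega) (hL.of_perfect_injective (plusHom F m)
      (plusHom_injective F m)
      (Cfsg.Agent.Lib.Helper5.commutator_SL_eq_top (by simp; omega)))
    refine le_trans (card_le_of_quot_center e _ (omega_val_injective _)) ?_
    rw [Fintype.card_sum, Fintype.card_fin]
    exact pow_bound_aux (by omega) (by omega) hC1
  · -- POmega minus
    obtain ⟨F, _, _, m, a, b, hm, -, ⟨e⟩⟩ := hG
    refine le_trans ?_ (le_max_right _ _)
    have hL : LawModCenter w ↥(Cfsg.Omega F (Cfsg.quadFormMinus (m - 1) F a b)) :=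
      lawModCenter_of_law_quot e w hlaw
    obtain ⟨h1, h2⟩ := hSL F (m - 1) (by omega) (hL.of_perfect_injective (minusHom F (m - 1) a b)
      (minusHom_injective F (m - 1) a b)
      (Cfsg.Agent.Lib.Helper5.commutator_SL_eq_top (by simp; omega)))
    refine le_trans (card_le_of_quot_center e _ (omega_val_injective _)) ?_
    rw [Fintype.card_sum, Fintype.card_sum, Fintype.card_fin, Fintype.card_fin]
    exact pow_bound_aux (by omega) (by omega) hC1

end Cfsg.Agent.Lib.Helper59
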