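import Mathlib
import Cfsg.Agent.S0144

set_option autoImplicit false

namespace Cfsg.Agent.Lib.Helper59.PerfMax

open Equiv
open scoped commutatorElement

theorem pi_solvable {ι : Type*} {T : Type*} [Group T] [hT : Group.IsSolvable T] :
    Group.IsSolvable (ι → T) := by
  obtain ⟨n, hn⟩ := (Group.isSolvable_def T).1 hT
  refine (Group.isSolvable_def _).2 ⟨n, ?_⟩
  rw [eq_bot_iff]
  intro f hf
  rw [Subgroup.mem_bot]
  funext i
  have : (Pi.evalMonoidHom (fun _ => T) i) f ∈ derivedSeries T n :=
    map_derivedSeries_le_derivedSeries _ n (Subgroup.mem_map_of_mem _ hf)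
  rw [hn] at this
  exact this

theorem map_derivedSeries_subgroup_le {G : Type*} [Group G] (H : Subgroup G) (k : ℕ)
    (hH : H ≤ derivedSeries G k) (d : ℕ) :
    (derivedSeries H d).map H.subtype ≤ derivedSeries G (k + d) := by
  induction d with
  | zero =>
    rw [derivedSeries_zero, ← MonoidHom.range_eq_map, Subgroup.range_subtype]
    exact hH
  | succ d ih =>
    rw [derivedSeries_succ, Subgroup.map_commutator, ← add_assoc, derivedSeries_succ]
    exact Subgroup.commutator_mono ih ih

theorem derivedSeries_ne_bot_of_surj {G T : Type*} [Group G] [Group T] (H : Subgroup G)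
    (f : ↥H →* T) (hf : Function.Surjective f) (k d : ℕ) (hH : H ≤ derivedSeries G k)
    (hT : derivedSeries T d ≠ ⊥) : derivedSeries G (k + d) ≠ ⊥ := by
  intro h
  apply hT
  have h1 := map_derivedSeries_subgroup_le H k hH d
  rw [h, le_bot_iff, (Subgroup.map_eq_bot_iff_of_injective _ H.subtype_injective)] at h1
  rw [← map_derivedSeries_eq hf, h1, Subgroup.map_bot]

theorem commutator_A5 : commutator (alternatingGroup (Fin 5)) = ⊤ := by
  rcases (inferInstance : (commutator (alternatingGroup (Fin 5))).Normal).eq_bot_or_eq_top with h | h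
  · exfalso
    have h1 : ∀ a b : alternatingGroup (Fin 5), a * b * a⁻¹ * b⁻¹ = 1 := fun a b => by
      have : ⁅a, b⁆ ∈ commutator (alternatingGroup (Fin 5)) :=
        Subgroup.commutator_mem_commutator (Subgroup.mem_top a) (Subgroup.mem_top b)
      rw [h] at this; exact this
    have := h1 ⟨swap 0 1 * swap 1 2, by rw [Equiv.Perm.mem_alternatingGroup]; decide⟩
      ⟨swap 0 1 * swap 2 3, by rw [Equiv.Perm.mem_alternatingGroup]; decide⟩
    have h2 := congrArg (fun x : alternatingGroup (Fin 5) => (x : Perm (Fin 5)) 0) this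
    revert h2; decide
  · exact h

variable (T : Type) [Group T]

/-- The permutation action of `A₅` on `Fin 5 → T`. -/
def permAut : alternatingGroup (Fin 5) →* MulAut (Fin 5 → T) where
  toFun σ :=
    { toFun := fun f i => f ((σ : Perm (Fin 5))⁻¹ i)
      invFun := fun f i => f ((σ : Perm (Fin 5)) i)
      left_inv := fun f => by funext i; simp
      right_inv := fun f => by funext i; simp
      map_mul' := fun f g => rfl }
  map_one' := by ext f i; simp
  map_mul' := fun σ τ => by ext f i; simp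

theorem permAut_apply (σ : alternatingGroup (Fin 5)) (f : Fin 5 → T) (i : Fin 5) :
    permAut T σ f i = f ((σ : Perm (Fin 5))⁻¹ i) := rfl

/-- The wreath product `T ≀ A₅`. -/
abbrev Wr := (Fin 5 → T) ⋊[permAut T] alternatingGroup (Fin 5)

instance [Finite T] : Finite (Wr T) := Finite.of_equiv _ SemidirectProduct.equivProd.symm

/-- The normal closure of `A₅` in the wreath product. -/
def Kc : Subgroup (Wr T) :=
  Subgroup.normalClosure (Set.range (SemidirectProduct.inr : alternatingGroup (Fin 5) → Wr T))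

instance : (Kc T).Normal := Subgroup.normalClosure_normal

theorem inr_mem_Kc (l : alternatingGroup (Fin 5)) : (SemidirectProduct.inr l : Wr T) ∈ Kc T :=
  Subgroup.subset_normalClosure ⟨l, rfl⟩

theorem perfect_Kc : commutator ↥(Kc T) = ⊤ := by
  rw [eq_top_iff]
  have h1 : Kc T ≤ ⁅Kc T, Kc T⁆ := by
    apply Subgroup.normalClosure_le_normal
    rintro _ ⟨l, rfl⟩
    have hl : l ∈ commutator (alternatingGroup (Fin 5)) := commutator_A5 ▸ Subgroup.mem_top l
    have h2 : (commutator (alternatingGroup (Fin 5))).map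
        (SemidirectProduct.inr : alternatingGroup (Fin 5) →* Wr T) ≤ ⁅Kc T, Kc T⁆ := by
      rw [commutator_def, Subgroup.map_commutator]
      have h3 : (⊤ : Subgroup (alternatingGroup (Fin 5))).map
          (SemidirectProduct.inr : alternatingGroup (Fin 5) →* Wr T) ≤ Kc T := by
        rintro _ ⟨l, -, rfl⟩
        exact inr_mem_Kc T l
      exact Subgroup.commutator_mono h3 h3
    exact h2 (Subgroup.mem_map_of_mem _ hl)
  intro x _
  have := h1 x.2
  rw [← Subgroup.map_subtype_commutator] at this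
  obtain ⟨y, hy, hyx⟩ := this
  have : y = x := Subtype.ext hyx
  exact this ▸ hy

/-- The projection of `Kc` onto `A₅`. -/
def piK : ↥(Kc T) →* alternatingGroup (Fin 5) :=
  (SemidirectProduct.rightHom : Wr T →* alternatingGroup (Fin 5)).comp (Kc T).subtype

theorem piK_surjective : Function.Surjective (piK T) := fun l =>
  ⟨⟨SemidirectProduct.inr l, inr_mem_Kc T l⟩, by simp [piK]⟩

/-- The point stabiliser `A₄` in `A₅`. -/
def L0 : Subgroup (alternatingGroup (Fin 5)) :=
  MulAction.stabilizer (alternatingGroup (Fin 5)) (4 : Fin 5)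

theorem isCoatom_L0 : IsCoatom L0 := by
  have : MulAction.IsPreprimitive (alternatingGroup (Fin 5)) (Fin 5) :=
    alternatingGroup.isPreprimitive_of_three_le_card (Fin 5) (by simp)
  exact MulAction.IsPreprimitive.isCoatom_stabilizer_of_isPreprimitive
    (G := alternatingGroup (Fin 5)) (4 : Fin 5)

theorem card_L0 : Nat.card L0 = 12 := by
  have : MulAction.IsPretransitive (alternatingGroup (Fin 5)) (Fin 5) :=
    alternatingGroup.isPretransitive_of_three_le_card (Fin 5) (by simp)
  have h3 : L0.index = 5 := by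
    unfold L0
    rw [MulAction.index_stabilizer, MulAction.orbit_eq_univ]; simp
  have h2 : Nat.card (alternatingGroup (Fin 5)) = 60 := by
    rw [nat_card_alternatingGroup]; simp; decide
  have h4 := Subgroup.card_mul_index L0
  rw [h3, h2] at h4
  omega

instance : Group.IsSolvable L0 :=
  Cfsg.Agent.S0144.result 2 3 2 1 Nat.prime_two Nat.prime_three (by rw [card_L0]; norm_num)

/-- The maximal subgroup: preimage of `A₄` in `Kc`. -/
def Mmax : Subgroup ↥(Kc T) := L0.comap (piK T)

theorem isCoatom_Mmax : IsCoatom (Mmax T) :=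
  Subgroup.isCoatom_comap_of_surjective (piK_surjective T) isCoatom_L0

/-- The preimage of `A₄` in the wreath product. -/
def U0 : Subgroup (Wr T) := L0.comap (SemidirectProduct.rightHom : Wr T →* alternatingGroup (Fin 5))

theorem solvable_U0 [Group.IsSolvable T] : Group.IsSolvable ↥(U0 T) := by
  have : Group.IsSolvable (Fin 5 → T) := pi_solvable
  let g : ↥(U0 T) →* ↥L0 :=
    (SemidirectProduct.rightHom : Wr T →* alternatingGroup (Fin 5)).subgroupComap L0
  let f : (Fin 5 → T) →* ↥(U0 T) :=
    (SemidirectProduct.inl : (Fin 5 → T) →* Wr T).codRestrict (U0 T) (fun n => by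
      show SemidirectProduct.rightHom (SemidirectProduct.inl n : Wr T) ∈ L0
      rw [SemidirectProduct.rightHom_inl]; exact one_mem _)
  refine Group.isSolvable_of_ker_le_range f g ?_
  intro x hx
  have h1 : (x : Wr T) ∈ (SemidirectProduct.rightHom : Wr T →* alternatingGroup (Fin 5)).ker := by
    rw [MonoidHom.mem_ker]
    have := congrArg Subtype.val (MonoidHom.mem_ker.1 hx)
    exact this
  rw [← SemidirectProduct.range_inl_eq_ker_rightHom] at h1
  obtain ⟨n, hn⟩ := h1
  exact ⟨n, Subtype.ext hn⟩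

theorem solvable_Mmax [Group.IsSolvable T] : Group.IsSolvable ↥(Mmax T) := by
  have := solvable_U0 T
  let j : ↥(Mmax T) →* ↥(U0 T) :=
    ((Kc T).subtype.comp (Mmax T).subtype).codRestrict (U0 T) (fun x => x.2)
  refine Group.isSolvable_of_isSolvable_injective (f := j) ?_
  intro a b hab
  have := congrArg Subtype.val hab
  exact Subtype.ext (Subtype.ext this)

/-- The left component, a homomorphism on the kernel of the projection. -/
def leftKer : ↥((SemidirectProduct.rightHom : Wr T →* alternatingGroup (Fin 5)).ker) →*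
    (Fin 5 → T) where
  toFun x := (x : Wr T).left
  map_one' := rfl
  map_mul' x y := by
    have hx : (x : Wr T).right = 1 := MonoidHom.mem_ker.1 x.2
    show ((x : Wr T) * (y : Wr T)).left = _
    rw [SemidirectProduct.mul_left, hx, map_one]; rfl

theorem comm_inl_inr (n : Fin 5 → T) (ρ : alternatingGroup (Fin 5)) :
    (⁅(SemidirectProduct.inl n : Wr T), (SemidirectProduct.inr ρ : Wr T)⁆) =
      SemidirectProduct.inl (n * permAut T ρ n⁻¹) := by
  rw [commutatorElement_def, map_mul, SemidirectProduct.inl_aut, map_inv, map_inv]; group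

/-- `(0 1)(2 3)`. -/
def sig0 : alternatingGroup (Fin 5) :=
  ⟨swap 0 1 * swap 2 3, by rw [Equiv.Perm.mem_alternatingGroup]; decide⟩

/-- `(0 2)(1 3)`. -/
def tau0 : alternatingGroup (Fin 5) :=
  ⟨swap 0 2 * swap 1 3, by rw [Equiv.Perm.mem_alternatingGroup]; decide⟩

theorem tau0_mem : tau0 ∈ L0 := by
  unfold L0
  rw [MulAction.mem_stabilizer_iff]
  show (swap 0 2 * swap 1 3 : Perm (Fin 5)) 4 = 4
  decide

/-- The elements `[e₀(t), σ]` of `Mmax`. -/
def elA (t : T) : ↥(Mmax T) :=
  ⟨⟨⁅(SemidirectProduct.inl (Pi.mulSingle 0 t) : Wr T), (SemidirectProduct.inr sig0 : Wr T)⁆, by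
    rw [commutatorElement_def]
    exact mul_mem ((inferInstance : (Kc T).Normal).conj_mem _ (inr_mem_Kc T sig0) _)
      (inv_mem (inr_mem_Kc T sig0))⟩, by
    show SemidirectProduct.rightHom (⁅(SemidirectProduct.inl (Pi.mulSingle 0 t) : Wr T),
      (SemidirectProduct.inr sig0 : Wr T)⁆) ∈ L0
    rw [comm_inl_inr, SemidirectProduct.rightHom_inl]; exact one_mem _⟩

/-- The element `τ` of `Mmax`. -/
def elB : ↥(Mmax T) :=
  ⟨⟨SemidirectProduct.inr tau0, inr_mem_Kc T tau0⟩, by
    show SemidirectProduct.rightHom (SemidirectProduct.inr tau0 : Wr T) ∈ L0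
    rw [SemidirectProduct.rightHom_inr]; exact tau0_mem⟩

/-- The part of the derived subgroup of `Mmax` inside the base group. -/
def S1 : Subgroup ↥(Mmax T) :=
  commutator ↥(Mmax T) ⊓ ((piK T).comp (Mmax T).subtype).ker

/-- The evaluation at coordinate `0` on `S1`. -/
def evS1 : ↥(S1 T) →* T :=
  ((Pi.evalMonoidHom (fun _ => T) 0).comp (leftKer T)).comp
    ((((Kc T).subtype.comp (Mmax T).subtype).comp (S1 T).subtype).codRestrict _
      (fun x => MonoidHom.mem_ker.2 (MonoidHom.mem_ker.1 x.2.2)))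

theorem evS1_surjective : Function.Surjective (evS1 T) := by
  intro t
  have hc : ⁅elA T t, elB T⁆ ∈ commutator ↥(Mmax T) :=
    Subgroup.commutator_mem_commutator (Subgroup.mem_top _) (Subgroup.mem_top _)
  have hval : (((⁅elA T t, elB T⁆ : ↥(Mmax T)) : ↥(Kc T)) : Wr T) =
      SemidirectProduct.inl ((Pi.mulSingle 0 t * permAut T sig0 (Pi.mulSingle 0 t)⁻¹) *
        permAut T tau0 (Pi.mulSingle 0 t * permAut T sig0 (Pi.mulSingle 0 t)⁻¹)⁻¹) := by
    rw [← comm_inl_inr, ← comm_inl_inr]; rfl
  have hk : ⁅elA T t, elB T⁆ ∈ ((piK T).comp (Mmax T).subtype).ker := by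
    rw [MonoidHom.mem_ker]
    show SemidirectProduct.rightHom (((⁅elA T t, elB T⁆ : ↥(Mmax T)) : ↥(Kc T)) : Wr T) = 1
    rw [hval, SemidirectProduct.rightHom_inl]
  refine ⟨⟨⁅elA T t, elB T⁆, hc, hk⟩, ?_⟩
  show ((((⁅elA T t, elB T⁆ : ↥(Mmax T)) : ↥(Kc T)) : Wr T)).left 0 = t
  rw [hval, SemidirectProduct.left_inl]
  have e1 : ((sig0 : Perm (Fin 5))⁻¹ 0) = 1 := by decide
  have e2 : ((tau0 : Perm (Fin 5))⁻¹ 0) = 2 := by decide
  have e3 : ((sig0 : Perm (Fin 5))⁻¹ 2) = 3 := by decide
  simp only [Pi.mul_apply, Pi.inv_apply, permAut_apply, e1, e2, e3]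
  simp

theorem derivedSeries_Mmax_ne_bot (d : ℕ) (hT : derivedSeries T d ≠ ⊥) :
    derivedSeries ↥(Mmax T) (d + 1) ≠ ⊥ := by
  rw [add_comm]
  refine derivedSeries_ne_bot_of_surj (S1 T) (evS1 T) (evS1_surjective T) 1 d ?_ hT
  rw [derivedSeries_one]
  exact inf_le_left

theorem exists_solvable_family (n : ℕ) :
    ∃ (T : Type) (_ : Group T) (_ : Finite T), Group.IsSolvable T ∧ derivedSeries T n ≠ ⊥ := by
  induction n with
  | zero =>
    refine ⟨Multiplicative (ZMod 2), inferInstance, inferInstance, inferInstance, ?_⟩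
    rw [derivedSeries_zero]
    exact top_ne_bot
  | succ n ih =>
    obtain ⟨T, hg, hfin, hs, hd⟩ := ih
    exact ⟨↥(Mmax T), inferInstance, inferInstance, solvable_Mmax T, derivedSeries_Mmax_ne_bot T n hd⟩

theorem main (d : ℕ) :
    ∃ (G : Type) (_ : Group G) (_ : Finite G) (H : Subgroup G), commutator G = ⊤ ∧ IsCoatom H ∧
      Group.IsSolvable H ∧ derivedSeries H d ≠ ⊥ := by
  obtain ⟨T, hg, hfin, hs, hd⟩ := exists_solvable_family d
  refine ⟨↥(Kc T), inferInstance, inferInstance, Mmax T, perfect_Kc T, isCoatom_Mmax T,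
    solvable_Mmax T, ?_⟩
  intro h
  apply derivedSeries_Mmax_ne_bot T d hd
  rw [eq_bot_iff, ← h]
  exact derivedSeries_antitone _ (Nat.le_succ d)

end Cfsg.Agent.Lib.Helper59.PerfMax
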