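import Mathlib

/-!
# Horner words and root maps

For a group `G` with elements `u g`, the "Horner word" of a coefficient list `[c₀, c₁, …]` is
`u^c₀ * g * (u^c₁ * g * (…) * g⁻¹) * g⁻¹`.  If `u` has order `p`, its `g`-conjugates commute and
the Horner word of the minimal polynomial of a field generator `μ` is trivial, then there is an
additive map `x : F → G` with `x 1 = u` and `g * x a * g⁻¹ = x (μ * a)`.
-/

set_option autoImplicit false
set_option linter.style.haveILetI false

namespace Cfsg.Agent.Lib.Helper59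

open Polynomial

/-- `hornerWord u g [c₀, c₁, …] = u^c₀ * g * (u^c₁ * g * (…) * g⁻¹) * g⁻¹`. -/
def hornerWord {G : Type*} [Group G] (u g : G) : List ℕ → G
  | [] => 1
  | c :: cs => u ^ c * (g * hornerWord u g cs * g⁻¹)

@[simp] theorem hornerWord_nil {G : Type*} [Group G] (u g : G) : hornerWord u g [] = 1 := rfl

@[simp] theorem hornerWord_cons {G : Type*} [Group G] (u g : G) (c : ℕ) (cs : List ℕ) :
    hornerWord u g (c :: cs) = u ^ c * (g * hornerWord u g cs * g⁻¹) := rfl

theorem map_hornerWord {G H : Type*} [Group G] [Group H] (f : G →* H) (u g : G) (c : List ℕ) :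
    f (hornerWord u g c) = hornerWord (f u) (f g) c := by
  induction c with
  | nil => simp
  | cons a cs ih => simp [ih]

theorem hornerWord_append {G : Type*} [Group G] (u g : G) (c c' : List ℕ) :
    hornerWord u g (c ++ c') =
      hornerWord u g c * (g ^ c.length * hornerWord u g c' * (g ^ c.length)⁻¹) := by
  induction c with
  | nil => simp
  | cons a cs ih =>
    simp only [List.cons_append, hornerWord_cons, ih, List.length_cons, pow_succ']
    group

/-- The polynomial over `ZMod p` with the given list of coefficients. -/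
noncomputable def listPoly (p : ℕ) : List ℕ → (ZMod p)[X]
  | [] => 0
  | c :: cs => C (c : ZMod p) + X * listPoly p cs

@[simp] theorem listPoly_nil (p : ℕ) : listPoly p [] = 0 := rfl

@[simp] theorem listPoly_cons (p : ℕ) (c : ℕ) (cs : List ℕ) :
    listPoly p (c :: cs) = C (c : ZMod p) + X * listPoly p cs := rfl

theorem exists_listPoly (p : ℕ) [NeZero p] (f : (ZMod p)[X]) : ∃ c, listPoly p c = f := by
  refine Polynomial.recOnHorner f ⟨[], rfl⟩ ?_ ?_
  · rintro q a - - ⟨c, rfl⟩
    cases c with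
    | nil => exact ⟨[a.val], by simp⟩
    | cons b cs =>
      refine ⟨(b + a.val) :: cs, ?_⟩
      simp only [listPoly_cons, Nat.cast_add, ZMod.natCast_zmod_val, C_add]
      ring
  · rintro q - ⟨c, rfl⟩
    exact ⟨0 :: c, by simp [mul_comm]⟩

theorem coeff_listPoly (p : ℕ) (c : List ℕ) (i : ℕ) :
    (listPoly p c).coeff i = ((c.getD i 0 : ℕ) : ZMod p) := by
  induction c generalizing i with
  | nil => simp
  | cons a cs ih =>
    cases i with
    | zero => simp
    | succ i => simp [ih]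

theorem exists_monic_list (p : ℕ) [NeZero p] (f : (ZMod p)[X]) (hf : f.Monic) :
    ∃ c : List ℕ, c.length = f.natDegree ∧ listPoly p (c ++ [1]) = f := by
  refine ⟨(List.range f.natDegree).map (fun i => (f.coeff i).val), by simp, ?_⟩
  ext i
  rw [coeff_listPoly]
  rcases lt_trichotomy i f.natDegree with h | h | h
  · rw [List.getD_append _ _ _ _ (by simpa using h), List.getD_eq_getElem _ _ (by simpa using h)]
    simp
  · subst h
    rw [List.getD_append_right _ _ _ _ (by simp)]
    simp [hf.coeff_natDegree]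
  · rw [List.getD_eq_default _ _ (by simp; omega), coeff_eq_zero_of_natDegree_lt h]
    simp

/-- Horner expression in an additive group with an endomorphism. -/
def hornerAdd {M : Type*} [AddCommGroup M] (T : M →+ M) (v : M) : List ℕ → M
  | [] => 0
  | c :: cs => c • v + T (hornerAdd T v cs)

theorem exists_root_map_add {M : Type*} [AddCommGroup M]
    {p : ℕ} [Fact p.Prime] (hexp : ∀ a : M, p • a = 0) (T : M →+ M) (v : M)
    {F : Type*} [Field F] [Algebra (ZMod p) F] (μ : F)
    (hμ : Algebra.adjoin (ZMod p) {μ} = ⊤)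
    (cm : List ℕ) (hcm : listPoly p cm = minpoly (ZMod p) μ) (hrel : hornerAdd T v cm = 0) :
    ∃ ξ : F → M, (∀ a b, ξ (a + b) = ξ a + ξ b) ∧ ξ 1 = v ∧ (∀ a, ξ (μ * a) = T (ξ a)) ∧
      ∀ c : List ℕ, ξ (aeval μ (listPoly p c)) = hornerAdd T v c := by
  classical
  letI inst2 : Module (ZMod p) M := AddCommGroup.zmodModule (n := p) hexp
  let T' : M →ₗ[ZMod p] M := AddMonoidHom.toZModLinearMap p T
  have hT' : ∀ a : M, T' a = T a := fun a => rfl
  let Ψ : (ZMod p)[X] → M := fun f => (aeval T' f) v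
  have hΨadd : ∀ f f', Ψ (f + f') = Ψ f + Ψ f' := fun f f' => by
    simp only [Ψ, map_add, LinearMap.add_apply]
  have hΨmul : ∀ r f, Ψ (r * f) = (aeval T' r) (Ψ f) := fun r f => by
    simp only [Ψ, map_mul, Module.End.mul_apply]
  have hΨX : ∀ f, Ψ (X * f) = T' (Ψ f) := fun f => by
    rw [hΨmul, aeval_X]
  have hΨC : ∀ a : ℕ, Ψ (C (a : ZMod p)) = a • v := fun a => by
    simp only [Ψ, aeval_C, Module.algebraMap_end_apply]
    rw [Nat.cast_smul_eq_nsmul]
  have hΨh : ∀ c : List ℕ, Ψ (listPoly p c) = hornerAdd T v c := by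
    intro c
    induction c with
    | nil => simp [Ψ, hornerAdd]
    | cons a cs ih =>
      rw [listPoly_cons, hΨadd, hΨX, hΨC, ih, hT']
      rfl
  have hΨm : Ψ (minpoly (ZMod p) μ) = 0 := by
    rw [← hcm, hΨh, hrel]
  have hΨeq : ∀ f f', aeval μ f = aeval μ f' → Ψ f = Ψ f' := by
    intro f f' hff
    have h0 : aeval μ (f - f') = 0 := by rw [map_sub, hff, sub_self]
    obtain ⟨r, hr⟩ := minpoly.dvd (ZMod p) μ h0
    have h1 : f = f' + r * minpoly (ZMod p) μ := by rw [mul_comm, ← hr]; ring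
    rw [h1, hΨadd, hΨmul, hΨm, map_zero, add_zero]
  have hsurj : ∀ a : F, ∃ f : (ZMod p)[X], aeval μ f = a := by
    intro a
    have h1 : a ∈ Algebra.adjoin (ZMod p) {μ} := by rw [hμ]; trivial
    rw [Algebra.adjoin_singleton_eq_range_aeval] at h1
    exact h1
  choose fa hfa using hsurj
  refine ⟨fun a => Ψ (fa a), ?_, ?_, ?_, ?_⟩
  · intro a b
    have h1 : aeval μ (fa (a + b)) = aeval μ (fa a + fa b) := by
      rw [hfa, map_add, hfa, hfa]
    change Ψ (fa (a + b)) = Ψ (fa a) + Ψ (fa b)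
    rw [hΨeq _ _ h1, hΨadd]
  · have h1 : aeval μ (fa 1) = aeval μ (C ((1 : ℕ) : ZMod p)) := by
      rw [hfa]; simp
    change Ψ (fa 1) = v
    rw [hΨeq _ _ h1, hΨC, one_smul]
  · intro a
    have h1 : aeval μ (fa (μ * a)) = aeval μ (X * fa a) := by
      rw [hfa, map_mul, aeval_X, hfa]
    change Ψ (fa (μ * a)) = T (Ψ (fa a))
    rw [hΨeq _ _ h1, hΨX, hT']
  · intro c
    change Ψ (fa (aeval μ (listPoly p c))) = hornerAdd T v c
    rw [hΨeq _ _ (hfa (aeval μ (listPoly p c))), hΨh]

/-- Horner expression in a group with an endomorphism. -/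
def hornerA {A : Type*} [Group A] (T : A →* A) (v : A) : List ℕ → A
  | [] => 1
  | c :: cs => v ^ c * T (hornerA T v cs)

theorem exists_root_map {A : Type*} [Group A] (hcomm : ∀ a b : A, a * b = b * a)
    {p : ℕ} [Fact p.Prime] (hexp : ∀ a : A, a ^ p = 1) (T : A →* A) (v : A)
    {F : Type*} [Field F] [Algebra (ZMod p) F] (μ : F)
    (hμ : Algebra.adjoin (ZMod p) {μ} = ⊤)
    (cm : List ℕ) (hcm : listPoly p cm = minpoly (ZMod p) μ) (hrel : hornerA T v cm = 1) :
    ∃ ξ : F → A, (∀ a b, ξ (a + b) = ξ a * ξ b) ∧ ξ 1 = v ∧ (∀ a, ξ (μ * a) = T (ξ a)) ∧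
      ∀ c : List ℕ, ξ (aeval μ (listPoly p c)) = hornerA T v c := by
  letI inst1 : CommGroup A := { ‹Group A› with mul_comm := hcomm }
  have hh : ∀ c : List ℕ, hornerAdd (M := Additive A) (MonoidHom.toAdditive T) (Additive.ofMul v) c
      = Additive.ofMul (hornerA T v c) := by
    intro c
    induction c with
    | nil => rfl
    | cons a cs ih =>
      change a • Additive.ofMul v + (MonoidHom.toAdditive T) (hornerAdd _ _ cs) = _
      rw [ih]
      rfl
  obtain ⟨ξ, h1, h2, h3, h4⟩ := exists_root_map_add (M := Additive A) (p := p)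
    (fun a => by
      have := hexp (Additive.toMul a)
      rw [← ofMul_toMul a, ← ofMul_pow, this]; rfl)
    (MonoidHom.toAdditive T) (Additive.ofMul v) μ hμ cm hcm (by rw [hh, hrel]; rfl)
  refine ⟨fun a => Additive.toMul (ξ a), ?_, ?_, ?_, ?_⟩
  · intro a b
    change Additive.toMul (ξ (a + b)) = _
    rw [h1]; rfl
  · change Additive.toMul (ξ 1) = v
    rw [h2]; rfl
  · intro a
    change Additive.toMul (ξ (μ * a)) = _
    rw [h3]; rfl
  · intro c
    change Additive.toMul (ξ (aeval μ (listPoly p c))) = _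
    rw [h4, hh]; rfl

section RootHom

variable {G : Type*} [Group G] (u g : G)

theorem conj_pow_commute (hc : ∀ n : ℕ, Commute u (g ^ n * u * (g ^ n)⁻¹)) (i j : ℕ) :
    Commute (g ^ i * u * (g ^ i)⁻¹) (g ^ j * u * (g ^ j)⁻¹) := by
  wlog hij : i ≤ j generalizing i j
  · exact (this j i (by omega)).symm
  obtain ⟨d, rfl⟩ := Nat.exists_eq_add_of_le hij
  have h1 : g ^ (i + d) * u * (g ^ (i + d))⁻¹ = g ^ i * (g ^ d * u * (g ^ d)⁻¹) * (g ^ i)⁻¹ := by
    rw [pow_add]; group
  rw [h1, Commute.conj_iff]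
  exact hc d

/-- the subgroup generated by the conjugates `g ^ n * u * g ^ (-n)` -/
def conjSub : Subgroup G := Subgroup.closure (Set.range fun n : ℕ => g ^ n * u * (g ^ n)⁻¹)

theorem conjSub_comm (hc : ∀ n : ℕ, Commute u (g ^ n * u * (g ^ n)⁻¹)) :
    ∀ a ∈ conjSub u g, ∀ b ∈ conjSub u g, a * b = b * a := by
  have h1 : ∀ s ∈ (Set.range fun n : ℕ => g ^ n * u * (g ^ n)⁻¹), ∀ b ∈ conjSub u g,
      Commute s b := by
    rintro s ⟨i, rfl⟩ b hb
    induction hb using Subgroup.closure_induction with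
    | mem x hx =>
      obtain ⟨j, rfl⟩ := hx
      exact conj_pow_commute u g hc i j
    | one => exact Commute.one_right _
    | mul x y _ _ hx hy => exact hx.mul_right hy
    | inv x _ hx => exact hx.inv_right
  intro a ha b hb
  have : Commute a b := by
    induction ha using Subgroup.closure_induction with
    | mem x hx => exact h1 x hx b hb
    | one => exact Commute.one_left _
    | mul x y _ _ hx hy => exact hx.mul_left hy
    | inv x _ hx => exact hx.inv_left
  exact this

theorem conjSub_pow {p : ℕ} (h1 : u ^ p = 1)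
    (hc : ∀ n : ℕ, Commute u (g ^ n * u * (g ^ n)⁻¹)) :
    ∀ a ∈ conjSub u g, a ^ p = 1 := by
  intro a ha
  induction ha using Subgroup.closure_induction with
  | mem x hx =>
    obtain ⟨j, rfl⟩ := hx
    rw [conj_pow, h1, mul_one, mul_inv_cancel]
  | one => exact one_pow _
  | mul x y hx hy ihx ihy =>
    have : Commute x y := conjSub_comm u g hc x hx y hy
    rw [this.mul_pow, ihx, ihy, mul_one]
  | inv x _ ihx => rw [inv_pow, ihx, inv_one]

theorem conjSub_conj : ∀ a ∈ conjSub u g, g * a * g⁻¹ ∈ conjSub u g := by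
  intro a ha
  induction ha using Subgroup.closure_induction with
  | mem x hx =>
    obtain ⟨j, rfl⟩ := hx
    refine Subgroup.subset_closure ⟨j + 1, ?_⟩
    simp only [pow_succ']
    group
  | one => simp [one_mem]
  | mul x y _ _ ihx ihy =>
    have : g * (x * y) * g⁻¹ = (g * x * g⁻¹) * (g * y * g⁻¹) := by group
    rw [this]; exact mul_mem ihx ihy
  | inv x _ ihx =>
    have : g * x⁻¹ * g⁻¹ = (g * x * g⁻¹)⁻¹ := by group
    rw [this]; exact inv_mem ihx

theorem exists_root_hom {p : ℕ} [Fact p.Prime]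
    (h1 : u ^ p = 1) (hc : ∀ n : ℕ, Commute u (g ^ n * u * (g ^ n)⁻¹))
    {F : Type*} [Field F] [Algebra (ZMod p) F] (μ : F) (hμ : Algebra.adjoin (ZMod p) {μ} = ⊤)
    (cm : List ℕ) (hcm : listPoly p cm = minpoly (ZMod p) μ) (h4 : hornerWord u g cm = 1) :
    ∃ x : F → G, (∀ a b, x (a + b) = x a * x b) ∧ x 1 = u ∧ (∀ a, g * x a * g⁻¹ = x (μ * a)) ∧
      (∀ c : List ℕ, x (aeval μ (listPoly p c)) = hornerWord u g c) ∧
      (∀ a, x a ∈ conjSub u g) := by
  let T : ↥(conjSub u g) →* ↥(conjSub u g) :=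
    ((MulAut.conj g).toMonoidHom.comp (conjSub u g).subtype).codRestrict (conjSub u g)
      (fun a => by
        change g * (a : G) * g⁻¹ ∈ conjSub u g
        exact conjSub_conj u g a a.2)
  have hT : ∀ a : ↥(conjSub u g), ((T a : ↥(conjSub u g)) : G) = g * (a : G) * g⁻¹ := fun a => rfl
  let v : ↥(conjSub u g) := ⟨u, Subgroup.subset_closure ⟨0, by simp⟩⟩
  have hh : ∀ c : List ℕ, ((hornerA T v c : ↥(conjSub u g)) : G) = hornerWord u g c := by
    intro c
    induction c with
    | nil => rfl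
    | cons a cs ih =>
      change ((v ^ a * T (hornerA T v cs) : ↥(conjSub u g)) : G) = _
      rw [Subgroup.coe_mul, hT, ih, Subgroup.coe_pow]
      rfl
  obtain ⟨ξ, e1, e2, e3, e4⟩ := exists_root_map (A := ↥(conjSub u g)) (p := p)
    (fun a b => Subtype.ext (conjSub_comm u g hc a a.2 b b.2))
    (fun a => Subtype.ext (by
      rw [Subgroup.coe_pow]; exact conjSub_pow u g h1 hc a a.2))
    T v μ hμ cm hcm (Subtype.ext (by rw [hh, h4]; rfl))
  refine ⟨fun a => (ξ a : G), ?_, ?_, ?_, ?_, ?_⟩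
  · intro a b
    change ((ξ (a + b) : ↥(conjSub u g)) : G) = _
    rw [e1]; rfl
  · change ((ξ 1 : ↥(conjSub u g)) : G) = u
    rw [e2]
  · intro a
    change g * ((ξ a : ↥(conjSub u g)) : G) * g⁻¹ = ((ξ (μ * a) : ↥(conjSub u g)) : G)
    rw [e3, hT]
  · intro c
    change ((ξ (aeval μ (listPoly p c)) : ↥(conjSub u g)) : G) = _
    rw [e4, hh]
  · intro a
    exact (ξ a).2

end RootHom

section Commutation

variable {G : Type*} [Group G] (u g : G)

theorem commute_conj_shift (i d : ℕ) (h : Commute u (g ^ d * u * (g ^ d)⁻¹)) :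
    Commute (g ^ i * u * (g ^ i)⁻¹) (g ^ (i + d) * u * (g ^ (i + d))⁻¹) := by
  have h1 : g ^ (i + d) * u * (g ^ (i + d))⁻¹ = g ^ i * (g ^ d * u * (g ^ d)⁻¹) * (g ^ i)⁻¹ := by
    rw [pow_add]; group
  rw [h1, Commute.conj_iff]
  exact h

/-- The commutation trick: if `h' u h'⁻¹ = u * (g u g⁻¹)` for some `h'` commuting with `g`, and `u`
commutes with `g u g⁻¹`, then `u` commutes with all its conjugates by powers of `g`. -/
theorem commute_conj_of_shift (h' : G) (hg : Commute h' g)
    (h2 : Commute u (g * u * g⁻¹)) (h3 : h' * u * h'⁻¹ = u * (g * u * g⁻¹)) :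
    ∀ n : ℕ, Commute u (g ^ n * u * (g ^ n)⁻¹) := by
  have hθ : ∀ n : ℕ, h' * (g ^ n * u * (g ^ n)⁻¹) * h'⁻¹ =
      (g ^ n * u * (g ^ n)⁻¹) * (g ^ (n + 1) * u * (g ^ (n + 1))⁻¹) := by
    intro n
    have e1 : h' * (g ^ n * u * (g ^ n)⁻¹) * h'⁻¹ = g ^ n * (h' * u * h'⁻¹) * (g ^ n)⁻¹ := by
      have e2 : h' * g ^ n = g ^ n * h' := (hg.pow_right n).eq
      have e3 : (g ^ n)⁻¹ * h'⁻¹ = h'⁻¹ * (g ^ n)⁻¹ := by
        rw [← mul_inv_rev, ← mul_inv_rev, e2]
      calc h' * (g ^ n * u * (g ^ n)⁻¹) * h'⁻¹ = (h' * g ^ n) * u * ((g ^ n)⁻¹ * h'⁻¹) := by group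
        _ = (g ^ n * h') * u * (h'⁻¹ * (g ^ n)⁻¹) := by rw [e2, e3]
        _ = g ^ n * (h' * u * h'⁻¹) * (g ^ n)⁻¹ := by group
    rw [e1, h3, pow_succ]
    group
  have h0 : g ^ 0 * u * (g ^ 0)⁻¹ = u := by simp
  intro n
  induction n using Nat.strong_induction_on with
  | _ n ih =>
    rcases n with _ | _ | n
    · rw [h0]
    · simpa using h2
    · have hP1 : Commute u (g ^ 1 * u * (g ^ 1)⁻¹) := ih 1 (by omega)
      have hPn : Commute u (g ^ n * u * (g ^ n)⁻¹) := ih n (by omega)
      have hPn1 : Commute u (g ^ (n + 1) * u * (g ^ (n + 1))⁻¹) := ih (n + 1) (by omega)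
      have hbc := commute_conj_shift u g 1 n hPn
      have hbd := commute_conj_shift u g 1 (n + 1) hPn1
      have hθc : Commute (h' * (g ^ 0 * u * (g ^ 0)⁻¹) * h'⁻¹)
          (h' * (g ^ (n + 1) * u * (g ^ (n + 1))⁻¹) * h'⁻¹) := by
        rw [Commute.conj_iff, h0]; exact hPn1
      rw [hθ, hθ, h0] at hθc
      have e11 : 1 + n = n + 1 := by omega
      have e12 : 1 + (n + 1) = n + 1 + 1 := by omega
      rw [e11] at hbc
      rw [e12] at hbd
      rw [zero_add] at hθc
      generalize g ^ 1 * u * (g ^ 1)⁻¹ = b at hP1 hbc hbd hθc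
      generalize g ^ (n + 1) * u * (g ^ (n + 1))⁻¹ = c at hPn1 hbc hθc
      generalize g ^ (n + 1 + 1) * u * (g ^ (n + 1 + 1))⁻¹ = d at hbd hθc ⊢
      have key : u * b * (c * d) = c * d * (u * b) := hθc.eq
      have e1 : u * b * (c * d) = c * (u * d) * b := by
        calc u * b * (c * d) = u * (b * (c * d)) := by group
          _ = u * ((c * d) * b) := by rw [(hbc.mul_right hbd).eq]
          _ = (u * c) * d * b := by group
          _ = (c * u) * d * b := by rw [hPn1.eq]
          _ = c * (u * d) * b := by group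
      have e2 : c * d * (u * b) = c * (d * u) * b := by group
      rw [e1, e2] at key
      exact mul_left_cancel (mul_right_cancel key)

/-- characteristic `2` version: the commutation of `u` with `g u g⁻¹` is automatic. -/
theorem commute_conj_of_shift_two (h' : G) (hg : Commute h' g) (hu : u * u = 1)
    (h3 : h' * u * h'⁻¹ = u * (g * u * g⁻¹)) :
    ∀ n : ℕ, Commute u (g ^ n * u * (g ^ n)⁻¹) := by
  refine commute_conj_of_shift u g h' hg ?_ h3
  have e1 : (u * (g * u * g⁻¹)) * (u * (g * u * g⁻¹)) = 1 := by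
    rw [← h3]
    calc h' * u * h'⁻¹ * (h' * u * h'⁻¹) = h' * (u * u) * h'⁻¹ := by group
      _ = 1 := by rw [hu]; group
  have e2 : (g * u * g⁻¹) * (g * u * g⁻¹) = 1 := by
    calc (g * u * g⁻¹) * (g * u * g⁻¹) = g * (u * u) * g⁻¹ := by group
      _ = 1 := by rw [hu]; group
  change u * (g * u * g⁻¹) = g * u * g⁻¹ * u
  have e3 : u⁻¹ = u := inv_eq_of_mul_eq_one_right hu
  have e4 : (g * u * g⁻¹)⁻¹ = g * u * g⁻¹ := inv_eq_of_mul_eq_one_right e2
  have e5 : (u * (g * u * g⁻¹))⁻¹ = u * (g * u * g⁻¹) := inv_eq_of_mul_eq_one_right e1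
  rw [← e5, mul_inv_rev, e3, e4]

theorem commute_conj_hornerWord (c : List ℕ) (a : ℕ) (w : G)
    (hw : ∀ i < c.length, Commute w (g ^ (a + i) * u * (g ^ (a + i))⁻¹)) :
    Commute w (g ^ a * hornerWord u g c * (g ^ a)⁻¹) := by
  induction c generalizing a with
  | nil => simp
  | cons b cs ih =>
    have e1 : g ^ a * hornerWord u g (b :: cs) * (g ^ a)⁻¹ =
        (g ^ a * u * (g ^ a)⁻¹) ^ b * (g ^ (a + 1) * hornerWord u g cs * (g ^ (a + 1))⁻¹) := by
      rw [hornerWord_cons, conj_pow, pow_succ]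
      group
    rw [e1]
    refine Commute.mul_right ?_ ?_
    · have := hw 0 (by simp)
      rw [add_zero] at this
      exact this.pow_right b
    · refine ih (a + 1) ?_
      intro i hi
      have := hw (i + 1) (by simpa using hi)
      have e : a + (i + 1) = a + 1 + i := by omega
      rwa [e] at this

/-- If the Horner word of a monic coefficient list is trivial, commutation with the first
conjugates propagates to all conjugates. -/
theorem commute_conj_of_monic (c : List ℕ) (h4 : hornerWord u g (c ++ [1]) = 1)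
    (hlow : ∀ j < c.length, Commute u (g ^ j * u * (g ^ j)⁻¹)) :
    ∀ n : ℕ, Commute u (g ^ n * u * (g ^ n)⁻¹) := by
  have he : g ^ c.length * u * (g ^ c.length)⁻¹ = (hornerWord u g c)⁻¹ := by
    rw [hornerWord_append] at h4
    have : hornerWord u g [1] = u := by simp
    rw [this] at h4
    exact (inv_eq_of_mul_eq_one_right h4).symm
  intro n
  induction n using Nat.strong_induction_on with
  | _ n ih =>
    by_cases hn : n < c.length
    · exact hlow n hn
    · obtain ⟨d, rfl⟩ := Nat.exists_eq_add_of_le (not_lt.mp hn)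
      have e1 : g ^ (c.length + d) * u * (g ^ (c.length + d))⁻¹ =
          (g ^ d * hornerWord u g c * (g ^ d)⁻¹)⁻¹ := by
        have : g ^ (c.length + d) * u * (g ^ (c.length + d))⁻¹ =
            g ^ d * (g ^ c.length * u * (g ^ c.length)⁻¹) * (g ^ d)⁻¹ := by
          rw [add_comm, pow_add]; group
        rw [this, he]; group
      rw [e1]
      refine Commute.inv_right ?_
      refine commute_conj_hornerWord u g c d u ?_
      intro i hi
      exact ih (d + i) (by omega)

end Commutation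

end Cfsg.Agent.Lib.Helper59
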