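import Mathlib
import Cfsg.Agent.Lib.Helper59.StPair
import Cfsg.Agent.Lib.Helper59.Pres3A

/-!
# From three generators `u t h` with CRW-type relations to a rank-one Steinberg pair
-/

set_option autoImplicit false
set_option linter.style.haveILetI false

namespace Cfsg.Agent.Lib.Helper59

open Polynomial

theorem exists_list_aeval {p : ℕ} [Fact p.Prime] {F : Type*} [Field F] [Algebra (ZMod p) F]
    (μ : F) (hμ : Algebra.adjoin (ZMod p) {μ} = ⊤) (a : F) :
    ∃ c : List ℕ, aeval μ (listPoly p c) = a := by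
  haveI : NeZero p := ⟨(Fact.out : p.Prime).ne_zero⟩
  have h1 : a ∈ Algebra.adjoin (ZMod p) {μ} := by rw [hμ]; trivial
  rw [Algebra.adjoin_singleton_eq_range_aeval] at h1
  obtain ⟨f, hf⟩ := h1
  obtain ⟨c, rfl⟩ := exists_listPoly p f
  exact ⟨c, hf⟩

theorem exists_stPair_of_rels {F : Type*} [Field F] [Finite F] {p : ℕ} [Fact p.Prime] [Algebra (ZMod p) F]
    {G : Type*} [Group G] (u t h : G) (ν : Fˣ) (hνgen : ∀ a : Fˣ, ∃ j : ℕ, a = ν ^ j)
    (l : ℕ) (hμ : Algebra.adjoin (ZMod p) {((ν : F) ^ 2) ^ l} = ⊤)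
    (cm cl cn cn' : List ℕ)
    (hcm : listPoly p cm = minpoly (ZMod p) (((ν : F) ^ 2) ^ l))
    (hcl : aeval (((ν : F) ^ 2) ^ l) (listPoly p cl) = (ν : F) ^ 2)
    (hcn : aeval (((ν : F) ^ 2) ^ l) (listPoly p cn) = (ν : F))
    (hcn' : aeval (((ν : F) ^ 2) ^ l) (listPoly p cn') = (ν : F)⁻¹)
    (h1 : u ^ p = 1)
    (hc : ∀ n : ℕ, Commute u ((h ^ l) ^ n * u * ((h ^ l) ^ n)⁻¹))
    (h4 : hornerWord u (h ^ l) cm = 1)
    (h10 : h * u * h⁻¹ = hornerWord u (h ^ l) cl)
    (h6 : t = u * (t * u * t⁻¹) * u)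
    (h7 : t * h * t⁻¹ = h⁻¹)
    (h8 : h * t = hornerWord u (h ^ l) cn * (t * hornerWord u (h ^ l) cn' * t⁻¹) *
      hornerWord u (h ^ l) cn)
    (h9 : Commute (t * t) u)
    (hgen : Subgroup.closure {u, t, h} = ⊤) :
    ∃ P : StPair F G, P.x 1 = u ∧ P.w 1 = t ∧ (∀ a, P.y a = t * P.x (-a) * t⁻¹) ∧
      ∀ c : List ℕ, P.x (aeval (((ν : F) ^ 2) ^ l) (listPoly p c)) = hornerWord u (h ^ l) c := by
  obtain ⟨x, hadd, hx1, hconj, hhorner, hmem⟩ :=
    exists_root_hom u (h ^ l) h1 hc (((ν : F) ^ 2) ^ l) hμ cm hcm h4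
  have hν0 : (ν : F) ≠ 0 := ν.ne_zero
  have hx0 : x 0 = 1 := by
    have := hadd 0 0
    rw [add_zero] at this
    exact mul_left_cancel (a := x 0) (by rw [mul_one]; exact this.symm)
  have hxneg : ∀ a, x (-a) = (x a)⁻¹ := fun a => by
    rw [eq_inv_iff_mul_eq_one, ← hadd, neg_add_cancel, hx0]
  have hxpow : ∀ (a : F) (n : ℕ), x a ^ n = x (n * a) := by
    intro a n
    induction n with
    | zero => simp [hx0]
    | succ n ih => rw [pow_succ, ih, ← hadd]; congr 1; push_cast; ring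
  have hxh : ∀ (b : F) (c : List ℕ),
      hornerWord (x b) (h ^ l) c = x (b * aeval (((ν : F) ^ 2) ^ l) (listPoly p c)) := by
    intro b c
    induction c with
    | nil => simp [hx0]
    | cons a cs ih =>
      rw [hornerWord_cons, ih, hconj, hxpow, ← hadd, listPoly_cons]
      congr 1
      simp only [map_add, map_mul, aeval_X, map_natCast]
      ring
  have hsurj := exists_list_aeval (p := p) (((ν : F) ^ 2) ^ l) hμ
  have hgh : h * h ^ l * h⁻¹ = h ^ l := by
    rw [← pow_succ', pow_succ, mul_inv_cancel_right]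
  have hxh' : ∀ a, h * x a * h⁻¹ = x ((ν : F) ^ 2 * a) := by
    intro a
    obtain ⟨c, rfl⟩ := hsurj a
    rw [hhorner]
    have e := map_hornerWord (MulAut.conj h).toMonoidHom u (h ^ l) c
    simp only [MulEquiv.toMonoidHom_eq_coe, MonoidHom.coe_coe, MulAut.conj_apply] at e
    rw [e, hgh, h10, ← hhorner cl, hcl, hxh]
  have hth0 : t * h⁻¹ * t⁻¹ = h := by
    calc t * h⁻¹ * t⁻¹ = (t * h * t⁻¹)⁻¹ := by group
      _ = h := by rw [h7, inv_inv]
  have hth : h * t = t * h⁻¹ := by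
    calc h * t = (t * h⁻¹ * t⁻¹) * t := by rw [hth0]
      _ = t * h⁻¹ := by group
  have hth' : t⁻¹ * h⁻¹ = h * t⁻¹ := by
    rw [← h7]; group
  have hxh'' : ∀ b, h⁻¹ * x b * h = x (((ν : F)⁻¹) ^ 2 * b) := by
    intro b
    have := hxh' (((ν : F)⁻¹) ^ 2 * b)
    have e : (ν : F) ^ 2 * ((ν : F)⁻¹ ^ 2 * b) = b := by
      field_simp
    rw [e] at this
    rw [← this]; group
  have hyh : ∀ b, h * (t * x b * t⁻¹) * h⁻¹ = t * x (((ν : F)⁻¹) ^ 2 * b) * t⁻¹ := by
    intro b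
    calc h * (t * x b * t⁻¹) * h⁻¹ = (h * t) * x b * (t⁻¹ * h⁻¹) := by group
      _ = (t * h⁻¹) * x b * (h * t⁻¹) := by rw [hth, hth']
      _ = t * (h⁻¹ * x b * h) * t⁻¹ := by group
      _ = _ := by rw [hxh'']
  have hyhpow : ∀ (j : ℕ) (b : F),
      h ^ j * (t * x b * t⁻¹) * (h ^ j)⁻¹ = t * x ((((ν : F)⁻¹) ^ 2) ^ j * b) * t⁻¹ := by
    intro j
    induction j with
    | zero => intro b; simp
    | succ j ih =>
      intro b
      have : h ^ (j + 1) * (t * x b * t⁻¹) * (h ^ (j + 1))⁻¹ =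
          h * (h ^ j * (t * x b * t⁻¹) * (h ^ j)⁻¹) * h⁻¹ := by
        rw [pow_succ']; group
      have e : ((ν : F)⁻¹) ^ 2 * ((((ν : F)⁻¹) ^ 2) ^ j * b) = (((ν : F)⁻¹) ^ 2) ^ (j + 1) * b := by
        ring
      rw [this, ih, hyh, e]
  have hw : ∀ j : ℕ, x ((ν : F) ^ j) * (t * x (((ν : F) ^ j)⁻¹) * t⁻¹) * x ((ν : F) ^ j)
      = h ^ j * t := by
    intro j
    induction j using Nat.twoStepInduction with
    | zero => simp only [pow_zero, inv_one, hx1, one_mul]; exact h6.symm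
    | one =>
      rw [pow_one, pow_one, ← hcn', hhorner, ← hcn, hhorner]
      exact h8.symm
    | more j ih _ =>
      have e1 : (ν : F) ^ (j + 2) = (ν : F) ^ 2 * (ν : F) ^ j := by ring
      have e2 : ((ν : F) ^ (j + 2))⁻¹ = ((ν : F)⁻¹) ^ 2 * ((ν : F) ^ j)⁻¹ := by
        rw [e1, mul_inv, inv_pow]
      rw [e2, e1, ← hxh', ← hyh]
      calc h * x ((ν : F) ^ j) * h⁻¹ * (h * (t * x ((ν : F) ^ j)⁻¹ * t⁻¹) * h⁻¹) *
            (h * x ((ν : F) ^ j) * h⁻¹)
          = h * (x ((ν : F) ^ j) * (t * x ((ν : F) ^ j)⁻¹ * t⁻¹) * x ((ν : F) ^ j)) * h⁻¹ := by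
            group
        _ = h * (h ^ j * t) * h⁻¹ := by rw [ih]
        _ = h ^ (j + 1) * (t * h⁻¹) := by rw [pow_succ']; group
        _ = h ^ (j + 1) * (h * t) := by rw [hth]
        _ = h ^ (j + 2) * t := by rw [pow_succ (n := j + 1)]; group
  have hW : ∀ a b : F, a ≠ 0 →
      (x a * (t * x a⁻¹ * t⁻¹) * x a) * x b * (x a * (t * x a⁻¹ * t⁻¹) * x a)⁻¹
        = t * x (a⁻¹ ^ 2 * b) * t⁻¹ := by
    intro a b ha
    obtain ⟨j, hj⟩ := hνgen (Units.mk0 a ha)
    have ha' : a = (ν : F) ^ j := by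
      have := congrArg Units.val hj
      simpa using this
    rw [ha', hw]
    have : h ^ j * t * x b * (h ^ j * t)⁻¹ = h ^ j * (t * x b * t⁻¹) * (h ^ j)⁻¹ := by group
    have e : (((ν : F)⁻¹) ^ 2) ^ j = (((ν : F) ^ j)⁻¹) ^ 2 := by
      rw [inv_pow, inv_pow, inv_pow, ← pow_mul, ← pow_mul, mul_comm]
    rw [this, hyhpow, e]
  have htth : Commute (t * t) h := by
    change t * t * h = h * (t * t)
    have e : t * h = h⁻¹ * t := by rw [← h7]; group
    calc t * t * h = t * (t * h) := by group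
      _ = t * (h⁻¹ * t) := by rw [e]
      _ = (t * h⁻¹) * t := by group
      _ = (h * t) * t := by rw [hth]
      _ = h * (t * t) := by group
  have htt : ∀ a, Commute (t * t) (x a) := by
    intro a
    have key : ∀ z ∈ conjSub u (h ^ l), Commute (t * t) z := by
      intro z hm
      unfold conjSub at hm
      induction hm using Subgroup.closure_induction with
      | mem z hz =>
        obtain ⟨n, rfl⟩ := hz
        exact ((((htth.pow_right l).pow_right n).mul_right h9).mul_right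
          (((htth.pow_right l).pow_right n).inv_right))
      | one => exact Commute.one_right _
      | mul z z' _ _ hz hz' => exact hz.mul_right hz'
      | inv z _ hz => exact hz.inv_right
    exact key _ (hmem a)
  have tyt : ∀ c, t * (t * x c * t⁻¹) * t⁻¹ = x c := by
    intro c
    have : t * (t * x c * t⁻¹) * t⁻¹ = (t * t) * x c * (t * t)⁻¹ := by group
    rw [this, (htt c).eq, mul_inv_cancel_right]
  refine ⟨{ x := x
            y := fun a => t * x (-a) * t⁻¹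
            x_add := fun a b => (hadd a b).symm
            y_add := ?_
            rel1 := ?_
            rel2 := ?_
            gen := ?_ }, hx1, ?_, fun a => rfl, hhorner⟩
  · intro a b
    have : -(a + b) = -a + -b := by ring
    rw [this, hadd]; group
  · intro a b ha
    simp only [neg_neg]
    exact hW a b ha
  · intro a b ha
    have e1 : t * x (-a) * t⁻¹ * x (-a⁻¹) * (t * x (-a) * t⁻¹) =
        t * (x (-a) * (t * x (-a)⁻¹ * t⁻¹) * x (-a)) * t⁻¹ := by
      have e2 : x (-a⁻¹) = t * (t * x (-a)⁻¹ * t⁻¹) * t⁻¹ := by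
        rw [tyt, inv_neg]
      rw [e2]; group
    rw [e1]
    have e3 : t * (x (-a) * (t * x (-a)⁻¹ * t⁻¹) * x (-a)) * t⁻¹ * (t * x (-b) * t⁻¹) *
        (t * (x (-a) * (t * x (-a)⁻¹ * t⁻¹) * x (-a)) * t⁻¹)⁻¹ =
        t * ((x (-a) * (t * x (-a)⁻¹ * t⁻¹) * x (-a)) * x (-b) *
          (x (-a) * (t * x (-a)⁻¹ * t⁻¹) * x (-a))⁻¹) * t⁻¹ := by group
    rw [e3, hW (-a) (-b) (neg_ne_zero.mpr ha), tyt]
    congr 1
    rw [inv_neg]; ring
  · rw [eq_top_iff, ← hgen, Subgroup.closure_le]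
    have hxm : ∀ a, x a ∈ Subgroup.closure
        (Set.range x ∪ Set.range fun a => t * x (-a) * t⁻¹) :=
      fun a => Subgroup.subset_closure (Or.inl ⟨a, rfl⟩)
    have hym : ∀ a, t * x a * t⁻¹ ∈ Subgroup.closure
        (Set.range x ∪ Set.range fun a => t * x (-a) * t⁻¹) :=
      fun a => Subgroup.subset_closure (Or.inr ⟨-a, by simp⟩)
    have ht_eq : t = x 1 * (t * x 1 * t⁻¹) * x 1 := by rw [hx1]; exact h6
    have htm : t ∈ Subgroup.closure (Set.range x ∪ Set.range fun a => t * x (-a) * t⁻¹) := by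
      have := mul_mem (mul_mem (hxm 1) (hym 1)) (hxm 1)
      rwa [← ht_eq] at this
    rintro z (rfl | rfl | rfl)
    · rw [← hx1]; exact hxm 1
    · exact htm
    · have e := hw 1
      simp only [pow_one] at e
      have := mul_mem (mul_mem (mul_mem (hxm (ν : F)) (hym (ν : F)⁻¹)) (hxm (ν : F)))
        (inv_mem htm)
      rw [e, mul_inv_cancel_right] at this
      exact this
  · change x 1 * (t * x (-(-(1 : F)⁻¹)) * t⁻¹) * x 1 = t
    rw [neg_neg, inv_one, hx1]
    exact h6.symm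

section SL2

variable (F : Type*) [Field F]

/-- The Weyl element of `SL₂`. -/
def slT : Matrix.SpecialLinearGroup (Fin 2) F :=
  ⟨!![0, 1; -1, 0], by simp [Matrix.det_fin_two]⟩

/-- Diagonal elements of `SL₂`. -/
def slD (d : Fˣ) : Matrix.SpecialLinearGroup (Fin 2) F :=
  ⟨!![(d : F), 0; 0, ((d⁻¹ : Fˣ) : F)], by simp [Matrix.det_fin_two]⟩

theorem slX_add (a b : F) : slX F a * slX F b = slX F (a + b) := by
  apply Subtype.ext
  change (!![1, a; 0, 1] : Matrix (Fin 2) (Fin 2) F) * !![1, b; 0, 1] = !![1, a + b; 0, 1]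
  rw [Matrix.mul_fin_two]
  ext i j
  fin_cases i <;> fin_cases j <;> simp [add_comm]

theorem slX_zero : slX F 0 = 1 := by
  apply Subtype.ext
  change (!![1, 0; 0, 1] : Matrix (Fin 2) (Fin 2) F) = 1
  ext i j
  fin_cases i <;> fin_cases j <;> simp

theorem slX_pow (a : F) (n : ℕ) : slX F a ^ n = slX F (n * a) := by
  induction n with
  | zero => simp [slX_zero]
  | succ n ih => rw [pow_succ, ih, slX_add]; congr 1; push_cast; ring

theorem slD_mul (d e : Fˣ) : slD F d * slD F e = slD F (d * e) := by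
  apply Subtype.ext
  change (!![(d : F), 0; 0, ((d⁻¹ : Fˣ) : F)] : Matrix (Fin 2) (Fin 2) F) *
    !![(e : F), 0; 0, ((e⁻¹ : Fˣ) : F)] = !![((d * e : Fˣ) : F), 0; 0, (((d * e)⁻¹ : Fˣ) : F)]
  rw [Matrix.mul_fin_two]
  ext i j
  fin_cases i <;> fin_cases j <;> simp [mul_comm]

theorem slD_one : slD F 1 = 1 := by
  apply Subtype.ext
  change (!![((1 : Fˣ) : F), 0; 0, (((1 : Fˣ)⁻¹ : Fˣ) : F)] : Matrix (Fin 2) (Fin 2) F) = 1
  ext i j
  fin_cases i <;> fin_cases j <;> simp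

theorem slD_pow (d : Fˣ) (n : ℕ) : slD F d ^ n = slD F (d ^ n) := by
  induction n with
  | zero => simp [slD_one]
  | succ n ih => rw [pow_succ, ih, slD_mul, pow_succ]

theorem slD_inv (d : Fˣ) : (slD F d)⁻¹ = slD F d⁻¹ := by
  rw [inv_eq_iff_mul_eq_one, slD_mul, mul_inv_cancel, slD_one]

theorem slD_conj_slX (d : Fˣ) (a : F) :
    slD F d * slX F a * (slD F d)⁻¹ = slX F ((d : F) ^ 2 * a) := by
  rw [mul_inv_eq_iff_eq_mul]
  apply Subtype.ext
  change (!![(d : F), 0; 0, ((d⁻¹ : Fˣ) : F)] : Matrix (Fin 2) (Fin 2) F) * !![1, a; 0, 1] =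
    !![1, (d : F) ^ 2 * a; 0, 1] * !![(d : F), 0; 0, ((d⁻¹ : Fˣ) : F)]
  rw [Matrix.mul_fin_two, Matrix.mul_fin_two]
  ext i j
  fin_cases i <;> fin_cases j <;> simp
  field_simp

theorem slT_conj_slX (a : F) : slT F * slX F a * (slT F)⁻¹ = slY F (-a) := by
  rw [mul_inv_eq_iff_eq_mul]
  apply Subtype.ext
  change (!![0, 1; -1, 0] : Matrix (Fin 2) (Fin 2) F) * !![1, a; 0, 1] =
    !![1, 0; -a, 1] * !![0, 1; -1, 0]
  rw [Matrix.mul_fin_two, Matrix.mul_fin_two]
  ext i j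
  fin_cases i <;> fin_cases j <;> simp

theorem slT_eq : slT F = slX F 1 * slY F (-1) * slX F 1 := by
  apply Subtype.ext
  change (!![0, 1; -1, 0] : Matrix (Fin 2) (Fin 2) F) =
    !![1, 1; 0, 1] * !![1, 0; -1, 1] * !![1, 1; 0, 1]
  rw [Matrix.mul_fin_two, Matrix.mul_fin_two]
  ext i j
  fin_cases i <;> fin_cases j <;> simp

theorem slT_rel6 : slT F = slX F 1 * (slT F * slX F 1 * (slT F)⁻¹) * slX F 1 := by
  rw [slT_conj_slX]; exact slT_eq F

theorem slT_rel7 (d : Fˣ) : slT F * slD F d * (slT F)⁻¹ = (slD F d)⁻¹ := by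
  rw [mul_inv_eq_iff_eq_mul, slD_inv]
  apply Subtype.ext
  change (!![0, 1; -1, 0] : Matrix (Fin 2) (Fin 2) F) * !![(d : F), 0; 0, ((d⁻¹ : Fˣ) : F)] =
    !![((d⁻¹ : Fˣ) : F), 0; 0, (((d⁻¹)⁻¹ : Fˣ) : F)] * !![0, 1; -1, 0]
  rw [Matrix.mul_fin_two, Matrix.mul_fin_two]
  ext i j
  fin_cases i <;> fin_cases j <;> simp

theorem slT_rel8 (d : Fˣ) : slD F d * slT F =
    slX F (d : F) * (slT F * slX F (d : F)⁻¹ * (slT F)⁻¹) * slX F (d : F) := by
  rw [slT_conj_slX]
  apply Subtype.ext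
  change (!![(d : F), 0; 0, ((d⁻¹ : Fˣ) : F)] : Matrix (Fin 2) (Fin 2) F) * !![0, 1; -1, 0] =
    !![1, (d : F); 0, 1] * !![1, 0; -(d : F)⁻¹, 1] * !![1, (d : F); 0, 1]
  rw [Matrix.mul_fin_two, Matrix.mul_fin_two, Matrix.mul_fin_two]
  ext i j
  fin_cases i <;> fin_cases j <;> simp

theorem slT_sq_commute (g : Matrix.SpecialLinearGroup (Fin 2) F) :
    Commute (slT F * slT F) g := by
  have h : (slT F * slT F).1 = -1 := by
    change (!![0, 1; -1, 0] : Matrix (Fin 2) (Fin 2) F) * !![0, 1; -1, 0] = -1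
    rw [Matrix.mul_fin_two]
    ext i j
    fin_cases i <;> fin_cases j <;> simp
  apply Subtype.ext
  change (slT F * slT F).1 * g.1 = g.1 * (slT F * slT F).1
  rw [h]; simp

theorem slT_sq_mem_center : slT F * slT F ∈ Subgroup.center (Matrix.SpecialLinearGroup (Fin 2) F) := by
  rw [Subgroup.mem_center_iff]
  intro g
  exact ((slT_sq_commute F g).eq).symm

theorem sl2_center_cases (z : Matrix.SpecialLinearGroup (Fin 2) F)
    (hz : z ∈ Subgroup.center (Matrix.SpecialLinearGroup (Fin 2) F)) :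
    z = 1 ∨ z = slT F * slT F := by
  rw [Matrix.SpecialLinearGroup.mem_center_iff] at hz
  obtain ⟨r, hr, hrz⟩ := hz
  have h2 : r * r = 1 := by
    rw [← pow_two]; simpa using hr
  rcases mul_self_eq_one_iff.mp h2 with rfl | rfl
  · left
    apply Subtype.ext
    rw [← hrz]; simp
  · right
    apply Subtype.ext
    rw [← hrz]
    change _ = (!![0, 1; -1, 0] : Matrix (Fin 2) (Fin 2) F) * !![0, 1; -1, 0]
    rw [Matrix.mul_fin_two]
    ext i j
    fin_cases i <;> fin_cases j <;> simp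

theorem hornerWord_sl {p : ℕ} [Algebra (ZMod p) F] (d : Fˣ) (l : ℕ) (c : List ℕ) :
    hornerWord (slX F 1) (slD F d ^ l) c = slX F (aeval (((d : F) ^ 2) ^ l) (listPoly p c)) := by
  induction c with
  | nil => simp [slX_zero]
  | cons a cs ih =>
    rw [hornerWord_cons, ih, slD_pow, slD_conj_slX, slX_pow, slX_add, listPoly_cons]
    congr 1
    simp only [map_add, map_mul, aeval_X, map_natCast, Units.val_pow_eq_pow_val]
    ring

end SL2

theorem StPair.exists_sl2_hom {K : Type*} [Field K] [Finite K] {G : Type*} [Group G]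
    (P : StPair K G) :
    ∃ π : Matrix.SpecialLinearGroup (Fin 2) K →* G,
      (∀ a, π (slX K a) = P.x a) ∧ (∀ a, π (slY K a) = P.y a) := by
  let f : Bool × K → G := fun bt => if bt.1 then P.x bt.2 else P.y bt.2
  have hf : ∀ r ∈ stRels K, FreeGroup.lift f r = 1 := by
    rintro r (⟨b, t, u, rfl⟩ | ⟨b, t, u, ht, rfl⟩)
    · simp only [map_mul, map_inv, FreeGroup.lift_apply_of]
      cases b <;> simp [f, P.x_add, P.y_add]
    · simp only [map_mul, map_inv, FreeGroup.lift_apply_of]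
      cases b
      · simp only [f, Bool.false_eq_true, if_false, Bool.not_false, if_true]
        rw [mul_inv_eq_one]
        exact P.rel2 t u ht
      · simp only [f, Bool.not_true, Bool.false_eq_true, if_false, if_true]
        rw [mul_inv_eq_one]
        exact P.rel1 t u ht
  obtain ⟨e, he1, he2⟩ := steinberg_sl2 K
  refine ⟨(PresentedGroup.toGroup hf).comp e.symm.toMonoidHom, ?_, ?_⟩
  · intro a
    have h1 : e (PresentedGroup.of (true, a)) = slX K a := Subtype.ext (he1 a)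
    rw [← h1]
    simp [f]
  · intro a
    have h1 : e (PresentedGroup.of (false, a)) = slY K a := Subtype.ext (he2 a)
    rw [← h1]
    simp [f]

theorem sl2_hom_ext {K : Type*} [Field K] [Finite K] {H : Type*} [Group H]
    (f f' : Matrix.SpecialLinearGroup (Fin 2) K →* H)
    (hx : ∀ a, f (slX K a) = f' (slX K a)) (hy : ∀ a, f (slY K a) = f' (slY K a)) : f = f' := by
  obtain ⟨e, he1, he2⟩ := steinberg_sl2 K
  have h1 : f.comp e.toMonoidHom = f'.comp e.toMonoidHom := by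
    apply PresentedGroup.ext
    rintro ⟨b, a⟩
    cases b
    · have h2 : e (PresentedGroup.of (false, a)) = slY K a := Subtype.ext (he2 a)
      simp [h2, hy]
    · have h2 : e (PresentedGroup.of (true, a)) = slX K a := Subtype.ext (he1 a)
      simp [h2, hx]
  ext g : 1
  obtain ⟨z, rfl⟩ := e.surjective g
  exact DFunLike.congr_fun h1 z

section Bijective

variable {F : Type*} [Field F] [Finite F] {p : ℕ} [Fact p.Prime] [Algebra (ZMod p) F]
  {G : Type*} [Group G] (u t h : G) (ν : Fˣ) (hνgen : ∀ a : Fˣ, ∃ j : ℕ, a = ν ^ j)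
  (l : ℕ) (hμ : Algebra.adjoin (ZMod p) {((ν : F) ^ 2) ^ l} = ⊤)
  (cm cl cn cn' : List ℕ)
  (hcm : listPoly p cm = minpoly (ZMod p) (((ν : F) ^ 2) ^ l))
  (hcl : aeval (((ν : F) ^ 2) ^ l) (listPoly p cl) = (ν : F) ^ 2)
  (hcn : aeval (((ν : F) ^ 2) ^ l) (listPoly p cn) = (ν : F))
  (hcn' : aeval (((ν : F) ^ 2) ^ l) (listPoly p cn') = (ν : F)⁻¹)
  (h1 : u ^ p = 1)
  (hc : ∀ n : ℕ, Commute u ((h ^ l) ^ n * u * ((h ^ l) ^ n)⁻¹))
  (h4 : hornerWord u (h ^ l) cm = 1)
  (h10 : h * u * h⁻¹ = hornerWord u (h ^ l) cl)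
  (h6 : t = u * (t * u * t⁻¹) * u)
  (h7 : t * h * t⁻¹ = h⁻¹)
  (h8 : h * t = hornerWord u (h ^ l) cn * (t * hornerWord u (h ^ l) cn' * t⁻¹) *
    hornerWord u (h ^ l) cn)
  (hgen : Subgroup.closure {u, t, h} = ⊤)

include hνgen hμ hcm hcl hcn hcn' h1 hc h4 h10 h6 h7 h8 hgen

/-- A group generated by `u t h` satisfying the CRW-type relations and mapping to `SL₂(F)` in the
expected way is isomorphic to `SL₂(F)`. -/
theorem sl2_bijective_of_rels (h9 : Commute (t * t) u)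
    (φ : G →* Matrix.SpecialLinearGroup (Fin 2) F)
    (hφu : φ u = slX F 1) (hφt : φ t = slT F) (hφh : φ h = slD F ν) :
    Function.Bijective φ := by
  obtain ⟨P, -, -, hPy, hPh⟩ := exists_stPair_of_rels u t h ν hνgen l hμ cm cl cn cn'
    hcm hcl hcn hcn' h1 hc h4 h10 h6 h7 h8 h9 hgen
  have hx : ∀ a, φ (P.x a) = slX F a := by
    intro a
    obtain ⟨c, rfl⟩ := exists_list_aeval (p := p) _ hμ a
    rw [hPh, map_hornerWord, hφu, map_pow, hφh, hornerWord_sl F (p := p)]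
  have hy : ∀ a, φ (P.y a) = slY F a := by
    intro a
    rw [hPy, map_mul, map_mul, map_inv, hx, hφt, slT_conj_slX, neg_neg]
  exact ⟨P.hom_injective φ (fun a => by rw [hx]; rfl) (fun a => by rw [hy]; rfl),
    P.hom_surjective φ (fun a => by rw [hx]; rfl) (fun a => by rw [hy]; rfl)⟩

/-- The projective version: if moreover `t * t = 1`, the group is isomorphic to `PSL₂(F)`. -/
theorem psl2_bijective_of_rels (htt : t * t = 1)
    (ψ : G →* Matrix.ProjectiveSpecialLinearGroup (Fin 2) F)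
    (hψu : ψ u = QuotientGroup.mk (slX F 1)) (hψt : ψ t = QuotientGroup.mk (slT F))
    (hψh : ψ h = QuotientGroup.mk (slD F ν)) :
    Function.Bijective ψ := by
  obtain ⟨P, -, hPw, hPy, hPh⟩ := exists_stPair_of_rels u t h ν hνgen l hμ cm cl cn cn'
    hcm hcl hcn hcn' h1 hc h4 h10 h6 h7 h8 (by rw [htt]; exact Commute.one_left _) hgen
  obtain ⟨π, hπx, hπy⟩ := P.exists_sl2_hom
  set mk : Matrix.SpecialLinearGroup (Fin 2) F →* Matrix.ProjectiveSpecialLinearGroup (Fin 2) F :=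
    QuotientGroup.mk' (Subgroup.center (Matrix.SpecialLinearGroup (Fin 2) F)) with hmk
  have hψu' : ψ u = mk (slX F 1) := hψu
  have hψt' : ψ t = mk (slT F) := hψt
  have hψh' : ψ h = mk (slD F ν) := hψh
  have hx : ∀ a, ψ (P.x a) = mk (slX F a) := by
    intro a
    obtain ⟨c, rfl⟩ := exists_list_aeval (p := p) _ hμ a
    rw [hPh, map_hornerWord, hψu', map_pow, hψh', ← map_pow, ← map_hornerWord, hornerWord_sl F (p := p)]
  have hy : ∀ a, ψ (P.y a) = mk (slY F a) := by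
    intro a
    rw [hPy, map_mul, map_mul, map_inv, hx, hψt', ← map_inv, ← map_mul, ← map_mul,
      slT_conj_slX, neg_neg]
  have hcomp : ψ.comp π = mk := by
    refine sl2_hom_ext _ _ (fun a => ?_) (fun a => ?_)
    · rw [MonoidHom.comp_apply, hπx, hx]
    · rw [MonoidHom.comp_apply, hπy, hy]
  have hπs : Function.Surjective π := by
    rw [← MonoidHom.range_eq_top, eq_top_iff, ← P.gen, Subgroup.closure_le]
    rintro z (⟨a, rfl⟩ | ⟨a, rfl⟩)
    · exact ⟨slX F a, hπx a⟩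
    · exact ⟨slY F a, hπy a⟩
  have hπz : π (slT F * slT F) = 1 := by
    have h2 : π (slT F) = t := by
      rw [slT_eq, map_mul, map_mul, hπx, hπy, ← hPw]
      simp [StPair.w]
    rw [map_mul, h2, htt]
  constructor
  · rw [injective_iff_map_eq_one]
    intro a ha
    obtain ⟨b, rfl⟩ := hπs a
    have h3 : mk b = 1 := by rw [← hcomp]; exact ha
    have hb : b ∈ Subgroup.center (Matrix.SpecialLinearGroup (Fin 2) F) :=
      (QuotientGroup.eq_one_iff b).mp h3
    rcases sl2_center_cases F b hb with rfl | rfl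
    · exact map_one π
    · exact hπz
  · intro z
    obtain ⟨b, rfl⟩ := QuotientGroup.mk_surjective z
    exact ⟨π b, by rw [← MonoidHom.comp_apply, hcomp]; rfl⟩

end Bijective

end Cfsg.Agent.Lib.Helper59
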