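import Mathlib
import Cfsg.Agent.Lib.Helper59.Pres3A

/-!
# Finite-field input for the three-generator presentations of `SL₂`
-/

set_option autoImplicit false
set_option linter.style.haveILetI false

namespace Cfsg.Agent.Lib.Helper59

open Polynomial

section Field

variable {F : Type*} [Field F]

theorem exists_unit_gen [Finite F] : ∃ ν : Fˣ, ∀ a : Fˣ, ∃ j : ℕ, a = ν ^ j := by
  obtain ⟨ν, hν⟩ := IsCyclic.exists_monoid_generator (α := Fˣ)
  refine ⟨ν, fun a => ?_⟩
  obtain ⟨n, hn⟩ := (Submonoid.mem_powers_iff a ν).mp (hν a)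
  exact ⟨n, hn.symm⟩

theorem adjoin_sq_eq_top [Finite F] {p : ℕ} [Algebra (ZMod p) F] (ν : Fˣ)
    (hνgen : ∀ a : Fˣ, ∃ j : ℕ, a = ν ^ j) : Algebra.adjoin (ZMod p) {(ν : F) ^ 2} = ⊤ := by
  have hsq : ∀ a : F, a ^ 2 ∈ Algebra.adjoin (ZMod p) {(ν : F) ^ 2} := by
    intro a
    by_cases ha : a = 0
    · rw [ha]; simp
    · obtain ⟨j, hj⟩ := hνgen (Units.mk0 a ha)
      have ha' : a = (ν : F) ^ j := by simpa using congrArg Units.val hj
      have : a ^ 2 = ((ν : F) ^ 2) ^ j := by rw [ha']; ring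
      rw [this]
      exact pow_mem (Algebra.subset_adjoin (Set.mem_singleton _)) j
  rw [eq_top_iff]
  intro a _
  by_cases h2 : (2 : F) = 0
  · have hinj : Function.Injective (fun b : F => b ^ 2) := by
      intro b c hbc
      have hbc' : b ^ 2 = c ^ 2 := hbc
      have h3 : (b - c) * (b + c) = 0 := by
        have : (b - c) * (b + c) = b ^ 2 - c ^ 2 := by ring
        rw [this, hbc', sub_self]
      rcases mul_eq_zero.mp h3 with h4 | h4
      · exact sub_eq_zero.mp h4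
      · have h5 : b = -c := eq_neg_of_add_eq_zero_left h4
        have h6 : -c = c := by
          have : c + c = 0 := by rw [← two_mul, h2, zero_mul]
          exact neg_eq_of_add_eq_zero_left this
        rw [h5, h6]
    obtain ⟨b, hb⟩ := Finite.surjective_of_injective hinj a
    rw [← hb]; exact hsq b
  · have : a = ((a + 1) / 2) ^ 2 - ((a - 1) / 2) ^ 2 := by field_simp; ring
    rw [this]
    exact sub_mem (hsq _) (hsq _)

theorem exists_minpoly_list [Finite F] {p : ℕ} [Fact p.Prime] [Algebra (ZMod p) F] (μ : F) :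
    ∃ c : List ℕ, c.length = (minpoly (ZMod p) μ).natDegree ∧
      listPoly p (c ++ [1]) = minpoly (ZMod p) μ := by
  haveI : NeZero p := ⟨(Fact.out : p.Prime).ne_zero⟩
  exact exists_monic_list p _ (minpoly.monic (IsIntegral.of_finite (ZMod p) μ))

theorem exists_pow_eq_one_add [Fintype F] [CharP F 2] (ν : Fˣ)
    (hνgen : ∀ a : Fˣ, ∃ j : ℕ, a = ν ^ j) (hν : (ν : F) ^ 2 ≠ 1) :
    ∃ k : ℕ, ((ν : F) ^ 2) ^ k = 1 + (ν : F) ^ 2 := by
  have hne : 1 + (ν : F) ^ 2 ≠ 0 := by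
    intro h
    apply hν
    have : (ν : F) ^ 2 = -1 := eq_neg_of_add_eq_zero_right h
    rw [this, CharTwo.neg_eq]
  obtain ⟨j, hj⟩ := hνgen (Units.mk0 _ hne)
  have hj' : 1 + (ν : F) ^ 2 = (ν : F) ^ j := by simpa using congrArg Units.val hj
  have hq : 2 ∣ Fintype.card F :=
    (CharP.cast_eq_zero_iff F 2 (Fintype.card F)).mp (Nat.cast_card_eq_zero F)
  obtain ⟨m, hm⟩ := hq
  have hν' : ((ν : F) ^ 2) ^ m = ν := by
    rw [← pow_mul, ← hm, FiniteField.pow_card]
  refine ⟨m * j, ?_⟩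
  rw [pow_mul, hν', hj']

theorem pow_card_of_adjoin_ne_top [Finite F] {p : ℕ} [Fact p.Prime] [Algebra (ZMod p) F] (a : F)
    (ha : Algebra.adjoin (ZMod p) {a} ≠ ⊤) :
    ∃ d : ℕ, 1 ≤ d ∧ 2 * d ≤ Module.finrank (ZMod p) F ∧ a ^ (p ^ d) = a := by
  classical
  let K : IntermediateField (ZMod p) F := IntermediateField.adjoin (ZMod p) {a}
  have hK : K ≠ ⊤ := by
    intro h
    apply ha
    have h0 := IntermediateField.adjoin_simple_toSubalgebra_of_isAlgebraic (F := ZMod p) (α := a)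
      (IsIntegral.of_finite (ZMod p) a).isAlgebraic
    rw [← h0]
    change K.toSubalgebra = ⊤
    rw [h, IntermediateField.top_toSubalgebra]
  have h1 : Module.finrank (ZMod p) K * Module.finrank K F = Module.finrank (ZMod p) F :=
    Module.finrank_mul_finrank (ZMod p) K F
  have h2 : Module.finrank K F ≠ 1 :=
    fun h => hK (IntermediateField.finrank_eq_one_iff_eq_top.mp h)
  have h3 : 0 < Module.finrank K F := Module.finrank_pos
  have h4 : 0 < Module.finrank (ZMod p) K := Module.finrank_pos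
  refine ⟨Module.finrank (ZMod p) K, h4, ?_, ?_⟩
  · have h5 : 2 ≤ Module.finrank K F := by omega
    calc 2 * Module.finrank (ZMod p) K ≤ Module.finrank K F * Module.finrank (ZMod p) K :=
          Nat.mul_le_mul_right _ h5
      _ = _ := by rw [mul_comm, h1]
  · have hcard : Nat.card K = p ^ Module.finrank (ZMod p) K := by
      rw [Module.natCard_eq_pow_finrank (K := ZMod p) (V := K), Nat.card_zmod]
    letI : Fintype K := Fintype.ofFinite K
    have h6 := FiniteField.pow_card (⟨a, IntermediateField.mem_adjoin_simple_self (ZMod p) a⟩ : K)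
    rw [← Nat.card_eq_fintype_card, hcard] at h6
    have h7 := congrArg (fun z : K => (z : F)) h6
    simpa using h7

theorem sum_pow_add_two_le (p : ℕ) (hp : 2 ≤ p) (D : ℕ) :
    (∑ d ∈ Finset.Icc 1 D, p ^ d) + 2 ≤ 2 * p ^ D := by
  induction D with
  | zero => simp
  | succ D ih =>
    rw [Finset.sum_Icc_succ_top (by omega)]
    have h1 : 2 * p ^ D ≤ p ^ (D + 1) := by
      rw [pow_succ, mul_comm]
      exact Nat.mul_le_mul_left _ hp
    omega

theorem exists_good_gamma [Fintype F] {p : ℕ} [Fact p.Prime] [Algebra (ZMod p) F]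
    (h2 : (2 : F) ≠ 0) (hp : 3 ≤ p) (he : 3 ≤ Module.finrank (ZMod p) F) :
    ∃ γ : F, γ ≠ 0 ∧ γ ^ 4 ≠ 1 ∧ Algebra.adjoin (ZMod p) {((γ - γ⁻¹) / 2) ^ 2} = ⊤ := by
  classical
  by_contra hcon
  have hcon' : ∀ γ : F, γ ≠ 0 → γ ^ 4 ≠ 1 →
      Algebra.adjoin (ZMod p) {((γ - γ⁻¹) / 2) ^ 2} ≠ ⊤ := fun γ h0 h4 h => hcon ⟨γ, h0, h4, h⟩
  obtain ⟨e, he_def⟩ : ∃ e, e = Module.finrank (ZMod p) F := ⟨_, rfl⟩
  rw [← he_def] at he
  obtain ⟨D, hD⟩ : ∃ D, D = e / 2 := ⟨_, rfl⟩
  have hq : Fintype.card F = p ^ e := by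
    rw [← Nat.card_eq_fintype_card, Module.natCard_eq_pow_finrank (K := ZMod p) (V := F),
      Nat.card_zmod, he_def]
  let s : F → F := fun γ => ((γ - γ⁻¹) / 2) ^ 2
  let A : Finset F := Finset.univ.filter (fun γ => γ ≠ 0 ∧ γ ^ 4 ≠ 1)
  let B : Finset F :=
    (Finset.Icc 1 D).biUnion (fun d => Finset.univ.filter (fun a : F => a ^ (p ^ d) = a))
  have hAB : A.image s ⊆ B := by
    intro b hb
    obtain ⟨γ, hγ, rfl⟩ := Finset.mem_image.mp hb
    obtain ⟨h0, h4⟩ := (Finset.mem_filter.mp hγ).2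
    obtain ⟨d, hd1, hd2, hd3⟩ := pow_card_of_adjoin_ne_top (p := p) (s γ) (hcon' γ h0 h4)
    refine Finset.mem_biUnion.mpr ⟨d, Finset.mem_Icc.mpr ⟨hd1, ?_⟩,
      Finset.mem_filter.mpr ⟨Finset.mem_univ _, hd3⟩⟩
    rw [← he_def] at hd2
    omega
  have hBcard : B.card ≤ ∑ d ∈ Finset.Icc 1 D, p ^ d := by
    refine (Finset.card_biUnion_le).trans (Finset.sum_le_sum ?_)
    intro d hd
    have hd1 : 1 ≤ d := (Finset.mem_Icc.mp hd).1
    have hpd : 1 < p ^ d := Nat.one_lt_pow (by omega) (by omega)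
    have hsub : (Finset.univ.filter (fun a : F => a ^ (p ^ d) = a)) ⊆
        (X ^ (p ^ d) - X : F[X]).roots.toFinset := by
      intro a ha
      rw [Multiset.mem_toFinset, mem_roots (FiniteField.X_pow_card_sub_X_ne_zero F hpd)]
      simp only [IsRoot, eval_sub, eval_pow, eval_X]
      rw [(Finset.mem_filter.mp ha).2, sub_self]
    calc _ ≤ (X ^ (p ^ d) - X : F[X]).roots.toFinset.card := Finset.card_le_card hsub
      _ ≤ Multiset.card (X ^ (p ^ d) - X : F[X]).roots := Multiset.toFinset_card_le _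
      _ ≤ (X ^ (p ^ d) - X : F[X]).natDegree := card_roots' _
      _ = p ^ d := FiniteField.X_pow_card_sub_X_natDegree_eq F hpd
  have hfib : ∀ b ∈ A.image s, (A.filter (fun γ => s γ = b)).card ≤ 4 := by
    intro b _
    let P : F[X] := X ^ 4 - C (4 * b + 2) * X ^ 2 + 1
    have hP0 : P ≠ 0 := by
      intro h
      have := congrArg (eval 0) h
      simp [P] at this
    have hPdeg : P.natDegree ≤ 4 := by
      simp only [P]; compute_degree
    have hsub : A.filter (fun γ => s γ = b) ⊆ P.roots.toFinset := by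
      intro γ hγ
      obtain ⟨hγA, hγb⟩ := Finset.mem_filter.mp hγ
      obtain ⟨h0, -⟩ := (Finset.mem_filter.mp hγA).2
      rw [Multiset.mem_toFinset, mem_roots hP0]
      simp only [IsRoot, P, eval_add, eval_sub, eval_mul, eval_pow, eval_X, eval_C, eval_one]
      rw [← hγb]
      simp only [s]
      field_simp
      ring
    calc _ ≤ P.roots.toFinset.card := Finset.card_le_card hsub
      _ ≤ Multiset.card P.roots := Multiset.toFinset_card_le _
      _ ≤ P.natDegree := card_roots' _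
      _ ≤ 4 := hPdeg
  have hAcard : Fintype.card F ≤ A.card + 5 := by
    have hsub : (Finset.univ : Finset F) ⊆ A ∪ ({0} ∪ (nthRoots 4 (1 : F)).toFinset) := by
      intro γ _
      by_cases h0 : γ = 0
      · simp [h0]
      · by_cases h4 : γ ^ 4 = 1
        · refine Finset.mem_union_right _ (Finset.mem_union_right _ ?_)
          rw [Multiset.mem_toFinset, mem_nthRoots (by norm_num)]; exact h4
        · exact Finset.mem_union_left _ (Finset.mem_filter.mpr ⟨Finset.mem_univ _, h0, h4⟩)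
    have c1 : (nthRoots 4 (1 : F)).toFinset.card ≤ 4 :=
      (Multiset.toFinset_card_le _).trans (card_nthRoots 4 1)
    have c2 : (({0} : Finset F) ∪ (nthRoots 4 (1 : F)).toFinset).card ≤ 1 + 4 := by
      refine (Finset.card_union_le _ _).trans ?_
      have : ({0} : Finset F).card = 1 := Finset.card_singleton 0
      omega
    have c3 := Finset.card_union_le A (({0} : Finset F) ∪ (nthRoots 4 (1 : F)).toFinset)
    have c4 := Finset.card_le_card hsub
    rw [Finset.card_univ] at c4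
    omega
  have h1 : A.card ≤ 4 * (A.image s).card := Finset.card_le_mul_card_image A 4 hfib
  have h2' : (A.image s).card ≤ B.card := Finset.card_le_card hAB
  have h3 := sum_pow_add_two_le p (by omega) D
  have h4 : 9 * p ^ D ≤ p ^ e := by
    have e1 : e = D + (e - D) := by omega
    have h5 : 2 ≤ e - D := by omega
    have h6 : p ^ 2 ≤ p ^ (e - D) := Nat.pow_le_pow_right (by omega) h5
    have h7 : 9 ≤ p ^ 2 := by nlinarith
    calc 9 * p ^ D ≤ p ^ 2 * p ^ D := Nat.mul_le_mul_right _ h7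
      _ = p ^ D * p ^ 2 := mul_comm _ _
      _ ≤ p ^ D * p ^ (e - D) := Nat.mul_le_mul_left _ h6
      _ = p ^ (D + (e - D)) := (pow_add _ _ _).symm
      _ = p ^ e := by rw [← e1]
  have h8 : 1 ≤ p ^ D := Nat.one_le_pow _ _ (by omega)
  rw [hq] at hAcard
  omega

theorem exists_scheme_B [Fintype F] {p : ℕ} [Fact p.Prime] [Algebra (ZMod p) F]
    (h2 : (2 : F) ≠ 0) (hp : 3 ≤ p) (he : 3 ≤ Module.finrank (ZMod p) F)
    (ν : Fˣ) (hνgen : ∀ a : Fˣ, ∃ j : ℕ, a = ν ^ j) :
    ∃ l k : ℕ, Algebra.adjoin (ZMod p) {((ν : F) ^ 2) ^ l} = ⊤ ∧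
      ((ν : F) ^ 2) ^ k = 1 + ((ν : F) ^ 2) ^ l := by
  obtain ⟨γ, h0, h4, hadj⟩ := exists_good_gamma (p := p) h2 hp he
  have hm : γ - γ⁻¹ ≠ 0 := by
    intro h
    apply h4
    have h5 : γ = γ⁻¹ := sub_eq_zero.mp h
    have h6 : γ * γ = 1 := by
      nth_rewrite 2 [h5]; exact mul_inv_cancel₀ h0
    calc γ ^ 4 = (γ * γ) ^ 2 := by ring
      _ = 1 := by rw [h6]; norm_num
  have hpl : γ + γ⁻¹ ≠ 0 := by
    intro h
    apply h4
    have h5 : γ⁻¹ = -γ := eq_neg_of_add_eq_zero_right h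
    have h6 : γ * γ = -1 := by
      have h7 := mul_inv_cancel₀ h0
      rw [h5] at h7
      linear_combination -h7
    calc γ ^ 4 = (γ * γ) ^ 2 := by ring
      _ = 1 := by rw [h6]; norm_num
  obtain ⟨l, hl⟩ := hνgen (Units.mk0 ((γ - γ⁻¹) / 2) (div_ne_zero hm h2))
  obtain ⟨k, hk⟩ := hνgen (Units.mk0 ((γ + γ⁻¹) / 2) (div_ne_zero hpl h2))
  have hl' : (γ - γ⁻¹) / 2 = (ν : F) ^ l := by simpa using congrArg Units.val hl
  have hk' : (γ + γ⁻¹) / 2 = (ν : F) ^ k := by simpa using congrArg Units.val hk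
  have e2 : ((ν : F) ^ 2) ^ l = ((γ - γ⁻¹) / 2) ^ 2 := by rw [hl']; ring
  have e1 : ((ν : F) ^ 2) ^ k = ((γ + γ⁻¹) / 2) ^ 2 := by rw [hk']; ring
  refine ⟨l, k, ?_, ?_⟩
  · rw [e2]; exact hadj
  · rw [e1, e2]; field_simp; ring

end Field

end Cfsg.Agent.Lib.Helper59
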