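import Mathlib
import Cfsg.Agent.Lib.Helper59.StPair
import Cfsg.Agent.Lib.Helper59.Pres3A
import Cfsg.Agent.Lib.Helper59.Pres3B
import Cfsg.Agent.Lib.Helper59.Pres3C

/-!
# Three-generator presentations of `SL₂(F)` and `PSL₂(F)` with few relators
-/

set_option autoImplicit false
set_option linter.style.haveILetI false

namespace Cfsg.Agent.Lib.Helper59

open Polynomial

/-- Relators in odd characteristic (`z = true`: projective version). -/
def relsOdd {G : Type*} [Group G] (p l : ℕ) (k : Option ℕ) (cm cl cn cn' : List ℕ) (z : Bool)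
    (u t h : G) : List G :=
  [u ^ p,
   u * (h ^ l * u * (h ^ l)⁻¹) * (h ^ l * u * (h ^ l)⁻¹ * u)⁻¹,
   hornerWord u (h ^ l) cm,
   h * u * h⁻¹ * (hornerWord u (h ^ l) cl)⁻¹,
   t * (u * (t * u * t⁻¹) * u)⁻¹,
   t * h * t⁻¹ * h,
   h * t * (hornerWord u (h ^ l) cn * (t * hornerWord u (h ^ l) cn' * t⁻¹) *
     hornerWord u (h ^ l) cn)⁻¹,
   if z then t * t else (t * t) * u * (u * (t * t))⁻¹] ++
  (match k with
    | none => []
    | some k => [h ^ k * u * (h ^ k)⁻¹ * (u * (h ^ l * u * (h ^ l)⁻¹))⁻¹])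

/-- Relators in characteristic `2`. -/
def relsEven {G : Type*} [Group G] (k : Option ℕ) (cm cn cn' : List ℕ) (u t h : G) : List G :=
  [u * u,
   t * u * t * (u * t * u)⁻¹,
   hornerWord u h cm,
   h * t * (hornerWord u h cn * (t * hornerWord u h cn' * t⁻¹) * hornerWord u h cn)⁻¹] ++
  (match k with
    | none => []
    | some k => [h ^ k * u * (h ^ k)⁻¹ * (u * (h * u * h⁻¹))⁻¹])

theorem length_relsOdd {G : Type*} [Group G] (p l : ℕ) (k : Option ℕ) (cm cl cn cn' : List ℕ)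
    (z : Bool) (u t h : G) : (relsOdd p l k cm cl cn cn' z u t h).length ≤ 9 := by
  cases k <;> simp [relsOdd]

theorem length_relsEven {G : Type*} [Group G] (k : Option ℕ) (cm cn cn' : List ℕ)
    (u t h : G) : (relsEven k cm cn cn' u t h).length ≤ 5 := by
  cases k <;> simp [relsEven]

theorem map_relsOdd {G H : Type*} [Group G] [Group H] (f : G →* H) (p l : ℕ) (k : Option ℕ)
    (cm cl cn cn' : List ℕ) (z : Bool) (u t h : G) :
    (relsOdd p l k cm cl cn cn' z u t h).map f = relsOdd p l k cm cl cn cn' z (f u) (f t) (f h) := by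
  cases k <;> cases z <;> simp [relsOdd, map_hornerWord]

theorem map_relsEven {G H : Type*} [Group G] [Group H] (f : G →* H) (k : Option ℕ)
    (cm cn cn' : List ℕ) (u t h : G) :
    (relsEven k cm cn cn' u t h).map f = relsEven k cm cn cn' (f u) (f t) (f h) := by
  cases k <;> simp [relsEven, map_hornerWord]

section Verify

variable {F : Type*} [Field F] [Finite F]

omit [Finite F] in
theorem slD_pow_conj_slX (ν : Fˣ) (n : ℕ) (a : F) :
    slD F ν ^ n * slX F a * (slD F ν ^ n)⁻¹ = slX F (((ν : F) ^ 2) ^ n * a) := by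
  rw [slD_pow, slD_conj_slX, Units.val_pow_eq_pow_val]
  congr 1
  ring

omit [Finite F] in
theorem relsOdd_sl2 {p : ℕ} [Fact p.Prime] [CharP F p] [Algebra (ZMod p) F]
    (ν : Fˣ) (l : ℕ) (k : Option ℕ) (cm cl cn cn' : List ℕ)
    (hcm : listPoly p cm = minpoly (ZMod p) (((ν : F) ^ 2) ^ l))
    (hcl : aeval (((ν : F) ^ 2) ^ l) (listPoly p cl) = (ν : F) ^ 2)
    (hcn : aeval (((ν : F) ^ 2) ^ l) (listPoly p cn) = (ν : F))
    (hcn' : aeval (((ν : F) ^ 2) ^ l) (listPoly p cn') = (ν : F)⁻¹)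
    (hk' : ∀ k', k = some k' → ((ν : F) ^ 2) ^ k' = 1 + ((ν : F) ^ 2) ^ l) (z : Bool) :
    ∀ r ∈ relsOdd p l k cm cl cn cn' z (slX F 1) (slT F) (slD F ν),
      r = 1 ∨ (z = true ∧ r = slT F * slT F) := by
  have hW : ∀ c, hornerWord (slX F 1) (slD F ν ^ l) c =
      slX F (aeval (((ν : F) ^ 2) ^ l) (listPoly p c)) := fun c => hornerWord_sl F ν l c
  have f1 : slX F 1 ^ p = 1 := by
    rw [slX_pow, mul_one, CharP.cast_eq_zero, slX_zero]
  have f2 : slX F 1 * (slD F ν ^ l * slX F 1 * (slD F ν ^ l)⁻¹) *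
      (slD F ν ^ l * slX F 1 * (slD F ν ^ l)⁻¹ * slX F 1)⁻¹ = 1 := by
    rw [slD_pow_conj_slX, slX_add, slX_add, add_comm, mul_inv_cancel]
  have f3 : hornerWord (slX F 1) (slD F ν ^ l) cm = 1 := by
    rw [hW, hcm, minpoly.aeval, slX_zero]
  have f4 : slD F ν * slX F 1 * (slD F ν)⁻¹ * (hornerWord (slX F 1) (slD F ν ^ l) cl)⁻¹ = 1 := by
    rw [hW, hcl, slD_conj_slX, mul_one, mul_inv_cancel]
  have f5 : slT F * (slX F 1 * (slT F * slX F 1 * (slT F)⁻¹) * slX F 1)⁻¹ = 1 :=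
    mul_inv_eq_one.mpr (slT_rel6 F)
  have f6 : slT F * slD F ν * (slT F)⁻¹ * slD F ν = 1 := by
    rw [slT_rel7, inv_mul_cancel]
  have f7 : slD F ν * slT F * (hornerWord (slX F 1) (slD F ν ^ l) cn *
      (slT F * hornerWord (slX F 1) (slD F ν ^ l) cn' * (slT F)⁻¹) *
      hornerWord (slX F 1) (slD F ν ^ l) cn)⁻¹ = 1 := by
    rw [hW, hW, hcn, hcn']
    exact mul_inv_eq_one.mpr (slT_rel8 F ν)
  have f8 : slT F * slT F * slX F 1 * (slX F 1 * (slT F * slT F))⁻¹ = 1 :=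
    mul_inv_eq_one.mpr (slT_sq_commute F (slX F 1)).eq
  have f9 : ∀ k', k = some k' → slD F ν ^ k' * slX F 1 * (slD F ν ^ k')⁻¹ *
      (slX F 1 * (slD F ν ^ l * slX F 1 * (slD F ν ^ l)⁻¹))⁻¹ = 1 := by
    intro k' hk
    rw [slD_pow_conj_slX, slD_pow_conj_slX, slX_add, mul_one, mul_one, hk' k' hk, mul_inv_cancel]
  intro r hr
  unfold relsOdd at hr
  rw [List.mem_append] at hr
  rcases hr with hr | hr
  · simp only [List.mem_cons, List.not_mem_nil, or_false] at hr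
    rcases hr with rfl | rfl | rfl | rfl | rfl | rfl | rfl | rfl
    · exact Or.inl f1
    · exact Or.inl f2
    · exact Or.inl f3
    · exact Or.inl f4
    · exact Or.inl f5
    · exact Or.inl f6
    · exact Or.inl f7
    · cases z
      · exact Or.inl (by simpa using f8)
      · exact Or.inr ⟨rfl, by simp⟩
  · cases k with
    | none => simp at hr
    | some k' =>
      simp only [List.mem_cons, List.not_mem_nil, or_false] at hr
      subst hr
      exact Or.inl (f9 k' rfl)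

omit [Finite F] in
theorem relsEven_sl2 [CharP F 2] [Algebra (ZMod 2) F]
    (ν : Fˣ) (k : Option ℕ) (cm cn cn' : List ℕ)
    (hcm : listPoly 2 cm = minpoly (ZMod 2) ((ν : F) ^ 2))
    (hcn : aeval ((ν : F) ^ 2) (listPoly 2 cn) = (ν : F))
    (hcn' : aeval ((ν : F) ^ 2) (listPoly 2 cn') = (ν : F)⁻¹)
    (hk' : ∀ k', k = some k' → ((ν : F) ^ 2) ^ k' = 1 + (ν : F) ^ 2) :
    ∀ r ∈ relsEven k cm cn cn' (slX F 1) (slT F) (slD F ν), r = 1 := by
  have hW : ∀ c, hornerWord (slX F 1) (slD F ν) c =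
      slX F (aeval ((ν : F) ^ 2) (listPoly 2 c)) := fun c => by
    have := hornerWord_sl F (p := 2) ν 1 c
    simpa using this
  have g1 : slX F 1 * slX F 1 = 1 := by
    rw [slX_add, CharTwo.add_self_eq_zero, slX_zero]
  have g2 : slT F * slX F 1 * slT F * (slX F 1 * slT F * slX F 1)⁻¹ = 1 := by
    rw [mul_inv_eq_one]
    apply Subtype.ext
    change (!![0, 1; -1, 0] : Matrix (Fin 2) (Fin 2) F) * !![1, 1; 0, 1] * !![0, 1; -1, 0] =
      !![1, 1; 0, 1] * !![0, 1; -1, 0] * !![1, 1; 0, 1]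
    rw [Matrix.mul_fin_two, Matrix.mul_fin_two, Matrix.mul_fin_two, Matrix.mul_fin_two]
    ext i j
    fin_cases i <;> fin_cases j <;> simp [CharTwo.neg_eq, CharTwo.add_self_eq_zero]
  have g3 : hornerWord (slX F 1) (slD F ν) cm = 1 := by
    rw [hW, hcm, minpoly.aeval, slX_zero]
  have g4 : slD F ν * slT F * (hornerWord (slX F 1) (slD F ν) cn *
      (slT F * hornerWord (slX F 1) (slD F ν) cn' * (slT F)⁻¹) *
      hornerWord (slX F 1) (slD F ν) cn)⁻¹ = 1 := by
    rw [hW, hW, hcn, hcn']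
    exact mul_inv_eq_one.mpr (slT_rel8 F ν)
  have g5 : ∀ k', k = some k' → slD F ν ^ k' * slX F 1 * (slD F ν ^ k')⁻¹ *
      (slX F 1 * (slD F ν * slX F 1 * (slD F ν)⁻¹))⁻¹ = 1 := by
    intro k' hk
    rw [slD_pow_conj_slX, slD_conj_slX, slX_add, mul_one, mul_one, hk' k' hk, mul_inv_cancel]
  intro r hr
  unfold relsEven at hr
  rw [List.mem_append] at hr
  rcases hr with hr | hr
  · simp only [List.mem_cons, List.not_mem_nil, or_false] at hr
    rcases hr with rfl | rfl | rfl | rfl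
    · exact g1
    · exact g2
    · exact g3
    · exact g4
  · cases k with
    | none => simp at hr
    | some k' =>
      simp only [List.mem_cons, List.not_mem_nil, or_false] at hr
      subst hr
      exact g5 k' rfl

end Verify

section Schemes

variable {G : Type*} [Group G]

theorem odd_hyps (p l : ℕ) (k : Option ℕ) (cm cl cn cn' : List ℕ) (z : Bool) (u t h : G)
    (hk : k = none → ∃ c : List ℕ, cm = c ++ [1] ∧ c.length ≤ 2)
    (hall : ∀ r ∈ relsOdd p l k cm cl cn cn' z u t h, r = 1) :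
    u ^ p = 1 ∧ (∀ n : ℕ, Commute u ((h ^ l) ^ n * u * ((h ^ l) ^ n)⁻¹)) ∧
    hornerWord u (h ^ l) cm = 1 ∧ h * u * h⁻¹ = hornerWord u (h ^ l) cl ∧
    t = u * (t * u * t⁻¹) * u ∧ t * h * t⁻¹ = h⁻¹ ∧
    h * t = hornerWord u (h ^ l) cn * (t * hornerWord u (h ^ l) cn' * t⁻¹) *
      hornerWord u (h ^ l) cn ∧
    (z = false → Commute (t * t) u) ∧ (z = true → t * t = 1) := by
  have e1 : u ^ p = 1 := hall _ (by simp [relsOdd])
  have e2 : Commute u (h ^ l * u * (h ^ l)⁻¹) :=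
    mul_inv_eq_one.mp (hall (u * (h ^ l * u * (h ^ l)⁻¹) * (h ^ l * u * (h ^ l)⁻¹ * u)⁻¹)
      (by simp [relsOdd]))
  have e4 : hornerWord u (h ^ l) cm = 1 := hall _ (by simp [relsOdd])
  have e10 : h * u * h⁻¹ = hornerWord u (h ^ l) cl :=
    mul_inv_eq_one.mp (hall (h * u * h⁻¹ * (hornerWord u (h ^ l) cl)⁻¹) (by simp [relsOdd]))
  have e6 : t = u * (t * u * t⁻¹) * u :=
    mul_inv_eq_one.mp (hall (t * (u * (t * u * t⁻¹) * u)⁻¹) (by simp [relsOdd]))
  have e7 : t * h * t⁻¹ = h⁻¹ :=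
    eq_inv_of_mul_eq_one_left (hall (t * h * t⁻¹ * h) (by simp [relsOdd]))
  have e8 : h * t = hornerWord u (h ^ l) cn * (t * hornerWord u (h ^ l) cn' * t⁻¹) *
      hornerWord u (h ^ l) cn :=
    mul_inv_eq_one.mp (hall (h * t * (hornerWord u (h ^ l) cn *
      (t * hornerWord u (h ^ l) cn' * t⁻¹) * hornerWord u (h ^ l) cn)⁻¹) (by simp [relsOdd]))
  refine ⟨e1, ?_, e4, e10, e6, e7, e8, ?_, ?_⟩
  · cases k with
    | none =>
      obtain ⟨c, rfl, hc⟩ := hk rfl
      refine commute_conj_of_monic u (h ^ l) c e4 ?_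
      intro j hj
      have hj' : j = 0 ∨ j = 1 := by omega
      rcases hj' with rfl | rfl
      · simp
      · simpa using e2
    | some k' =>
      have e3 : h ^ k' * u * (h ^ k')⁻¹ = u * (h ^ l * u * (h ^ l)⁻¹) :=
        mul_inv_eq_one.mp (hall (h ^ k' * u * (h ^ k')⁻¹ * (u * (h ^ l * u * (h ^ l)⁻¹))⁻¹)
          (by simp [relsOdd]))
      exact commute_conj_of_shift u (h ^ l) (h ^ k')
        (((Commute.refl h).pow_left k').pow_right l) e2 e3
  · intro hz
    subst hz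
    exact mul_inv_eq_one.mp (hall ((t * t) * u * (u * (t * t))⁻¹) (by simp [relsOdd]))
  · intro hz
    subst hz
    exact hall (t * t) (by simp [relsOdd])

theorem hornerWord_mem_conjSub (u g : G) (c : List ℕ) : hornerWord u g c ∈ conjSub u g := by
  induction c with
  | nil => exact one_mem _
  | cons a cs ih =>
    rw [hornerWord_cons]
    have hu : u ∈ conjSub u g :=
      Subgroup.subset_closure (show u ∈ Set.range (fun n : ℕ => g ^ n * u * (g ^ n)⁻¹) from
        ⟨0, by simp⟩)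
    exact mul_mem (pow_mem hu a) (conjSub_conj u g _ ih)

theorem even_hyps (k : Option ℕ) (cm cn cn' : List ℕ) (u t h : G)
    (hk : k = none → ∃ c : List ℕ, cm = c ++ [1] ∧ c.length ≤ 1)
    (hall : ∀ r ∈ relsEven k cm cn cn' u t h, r = 1) :
    u ^ 2 = 1 ∧ (∀ n : ℕ, Commute u ((h ^ 1) ^ n * u * ((h ^ 1) ^ n)⁻¹)) ∧
    hornerWord u (h ^ 1) cm = 1 ∧ h * u * h⁻¹ = hornerWord u (h ^ 1) [0, 1] ∧
    t = u * (t * u * t⁻¹) * u ∧ t * h * t⁻¹ = h⁻¹ ∧
    h * t = hornerWord u (h ^ 1) cn * (t * hornerWord u (h ^ 1) cn' * t⁻¹) *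
      hornerWord u (h ^ 1) cn ∧ t * t = 1 := by
  have e1 : u * u = 1 := hall _ (by simp [relsEven])
  have e2 : t * u * t = u * t * u :=
    mul_inv_eq_one.mp (hall (t * u * t * (u * t * u)⁻¹) (by simp [relsEven]))
  have e4 : hornerWord u h cm = 1 := hall _ (by simp [relsEven])
  have e5 : h * t = hornerWord u h cn * (t * hornerWord u h cn' * t⁻¹) * hornerWord u h cn :=
    mul_inv_eq_one.mp (hall (h * t * (hornerWord u h cn * (t * hornerWord u h cn' * t⁻¹) *
      hornerWord u h cn)⁻¹) (by simp [relsEven]))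
  have hc : ∀ n : ℕ, Commute u (h ^ n * u * (h ^ n)⁻¹) := by
    cases k with
    | none =>
      obtain ⟨c, rfl, hc⟩ := hk rfl
      refine commute_conj_of_monic u h c e4 ?_
      intro j hj
      have hj' : j = 0 := by omega
      subst hj'
      simp
    | some k' =>
      have e3 : h ^ k' * u * (h ^ k')⁻¹ = u * (h * u * h⁻¹) :=
        mul_inv_eq_one.mp (hall (h ^ k' * u * (h ^ k')⁻¹ * (u * (h * u * h⁻¹))⁻¹)
          (by simp [relsEven]))
      exact commute_conj_of_shift_two u h (h ^ k') ((Commute.refl h).pow_left k') e1 e3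
  have hu2 : u ^ 2 = 1 := by rw [pow_two]; exact e1
  have ht : t = (u * t) * u * (u * t)⁻¹ := by
    rw [eq_mul_inv_iff_mul_eq]
    calc t * (u * t) = t * u * t := by group
      _ = u * t * u := e2
  have htt : t * t = 1 := by
    calc t * t = ((u * t) * u * (u * t)⁻¹) * ((u * t) * u * (u * t)⁻¹) := by rw [← ht]
      _ = (u * t) * (u * u) * (u * t)⁻¹ := by group
      _ = 1 := by rw [e1]; group
  have htinv : t⁻¹ = t := inv_eq_of_mul_eq_one_right htt
  have e6 : t = u * (t * u * t⁻¹) * u := by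
    rw [htinv, e2]
    calc t = (u * u) * t * (u * u) := by rw [e1]; group
      _ = u * (u * t * u) * u := by group
  have hsq : ∀ c : List ℕ, hornerWord u h c * hornerWord u h c = 1 := by
    intro c
    have := conjSub_pow u h hu2 hc _ (hornerWord_mem_conjSub u h c)
    rwa [pow_two] at this
  have hht : (h * t) * (h * t) = 1 := by
    rw [e5]
    have ha := hsq cn
    have hb := hsq cn'
    generalize hornerWord u h cn = a at ha ⊢
    generalize hornerWord u h cn' = b at hb ⊢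
    calc a * (t * b * t⁻¹) * a * (a * (t * b * t⁻¹) * a)
        = a * (t * b * t⁻¹) * (a * a) * (t * b * t⁻¹) * a := by group
      _ = a * (t * (b * b) * t⁻¹) * a := by rw [‹a * a = 1›]; group
      _ = a * a := by rw [‹b * b = 1›]; group
      _ = 1 := ‹a * a = 1›
  have e7 : t * h * t⁻¹ = h⁻¹ := by
    rw [htinv]
    have : h * (t * h * t) = 1 := by
      calc h * (t * h * t) = (h * t) * (h * t) := by group
        _ = 1 := hht
    exact eq_inv_of_mul_eq_one_right this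
  refine ⟨hu2, ?_, ?_, ?_, e6, e7, ?_, htt⟩
  · simpa using hc
  · simpa using e4
  · simp
  · simpa using e5

end Schemes

section Assembly

theorem presented_of_list {S : Type*} [Group S] (rl : List (FreeGroup (Fin 3))) (a : Fin 3 → S)
    (hrel : ∀ r ∈ rl, FreeGroup.lift a r = 1)
    (hbij : ∀ φ : PresentedGroup ((rl.toFinset : Finset (FreeGroup (Fin 3))) :
        Set (FreeGroup (Fin 3))) →* S,
      (∀ i, φ (PresentedGroup.of i) = a i) → Function.Bijective φ) :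
    ∃ rels : Finset (FreeGroup (Fin 3)), rels.card ≤ rl.length ∧
      Nonempty (PresentedGroup (↑rels : Set (FreeGroup (Fin 3))) ≃* S) := by
  refine ⟨rl.toFinset, List.toFinset_card_le rl, ?_⟩
  have h : ∀ r ∈ ((rl.toFinset : Finset (FreeGroup (Fin 3))) : Set (FreeGroup (Fin 3))),
      FreeGroup.lift a r = 1 := by
    intro r hr
    exact hrel r (List.mem_toFinset.mp (Finset.mem_coe.mp hr))
  exact ⟨MulEquiv.ofBijective (PresentedGroup.toGroup h)
    (hbij _ (fun i => PresentedGroup.toGroup.of h))⟩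

theorem presented_gen (rels : Set (FreeGroup (Fin 3))) :
    Subgroup.closure ({PresentedGroup.of 0, PresentedGroup.of 1, PresentedGroup.of 2} :
      Set (PresentedGroup rels)) = ⊤ := by
  rw [← PresentedGroup.closure_range_of rels]
  congr 1
  ext z
  constructor
  · rintro (rfl | rfl | rfl) <;> exact ⟨_, rfl⟩
  · rintro ⟨i, rfl⟩
    fin_cases i <;> simp

theorem presented_rel (rl : List (FreeGroup (Fin 3))) (r : FreeGroup (Fin 3)) (hr : r ∈ rl) :
    PresentedGroup.mk ((rl.toFinset : Finset (FreeGroup (Fin 3))) : Set (FreeGroup (Fin 3))) r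
      = 1 :=
  PresentedGroup.one_of_mem (Finset.mem_coe.mpr (List.mem_toFinset.mpr hr))

theorem presented_relsOdd (p l : ℕ) (k : Option ℕ) (cm cl cn cn' : List ℕ) (z : Bool) :
    ∀ r ∈ relsOdd p l k cm cl cn cn' z
        (PresentedGroup.of 0 : PresentedGroup (((relsOdd p l k cm cl cn cn' z
          (FreeGroup.of (0 : Fin 3)) (FreeGroup.of 1) (FreeGroup.of 2)).toFinset :
            Finset (FreeGroup (Fin 3))) : Set (FreeGroup (Fin 3))))
        (PresentedGroup.of 1) (PresentedGroup.of 2), r = 1 := by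
  intro r hr
  have h1 := map_relsOdd (PresentedGroup.mk (((relsOdd p l k cm cl cn cn' z
    (FreeGroup.of (0 : Fin 3)) (FreeGroup.of 1) (FreeGroup.of 2)).toFinset :
      Finset (FreeGroup (Fin 3))) : Set (FreeGroup (Fin 3)))) p l k cm cl cn cn' z
    (FreeGroup.of 0) (FreeGroup.of 1) (FreeGroup.of 2)
  change r ∈ relsOdd p l k cm cl cn cn' z (PresentedGroup.mk _ (FreeGroup.of 0))
    (PresentedGroup.mk _ (FreeGroup.of 1)) (PresentedGroup.mk _ (FreeGroup.of 2)) at hr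
  rw [← h1] at hr
  obtain ⟨r0, hr0, rfl⟩ := List.mem_map.mp hr
  exact presented_rel _ r0 hr0

theorem presented_relsEven (k : Option ℕ) (cm cn cn' : List ℕ) :
    ∀ r ∈ relsEven k cm cn cn'
        (PresentedGroup.of 0 : PresentedGroup (((relsEven k cm cn cn'
          (FreeGroup.of (0 : Fin 3)) (FreeGroup.of 1) (FreeGroup.of 2)).toFinset :
            Finset (FreeGroup (Fin 3))) : Set (FreeGroup (Fin 3))))
        (PresentedGroup.of 1) (PresentedGroup.of 2), r = 1 := by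
  intro r hr
  have h1 := map_relsEven (PresentedGroup.mk (((relsEven k cm cn cn'
    (FreeGroup.of (0 : Fin 3)) (FreeGroup.of 1) (FreeGroup.of 2)).toFinset :
      Finset (FreeGroup (Fin 3))) : Set (FreeGroup (Fin 3)))) k cm cn cn'
    (FreeGroup.of 0) (FreeGroup.of 1) (FreeGroup.of 2)
  change r ∈ relsEven k cm cn cn' (PresentedGroup.mk _ (FreeGroup.of 0))
    (PresentedGroup.mk _ (FreeGroup.of 1)) (PresentedGroup.mk _ (FreeGroup.of 2)) at hr
  rw [← h1] at hr
  obtain ⟨r0, hr0, rfl⟩ := List.mem_map.mp hr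
  exact presented_rel _ r0 hr0

theorem lift_relsOdd {S : Type*} [Group S] (a b c : S) (p l : ℕ) (k : Option ℕ)
    (cm cl cn cn' : List ℕ) (z : Bool) (r : FreeGroup (Fin 3))
    (hr : r ∈ relsOdd p l k cm cl cn cn' z (FreeGroup.of (0 : Fin 3)) (FreeGroup.of 1)
      (FreeGroup.of 2)) :
    FreeGroup.lift ![a, b, c] r ∈ relsOdd p l k cm cl cn cn' z a b c := by
  have h1 := List.mem_map_of_mem (f := FreeGroup.lift ![a, b, c]) hr
  rw [map_relsOdd] at h1
  simpa using h1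

theorem lift_relsEven {S : Type*} [Group S] (a b c : S) (k : Option ℕ)
    (cm cn cn' : List ℕ) (r : FreeGroup (Fin 3))
    (hr : r ∈ relsEven k cm cn cn' (FreeGroup.of (0 : Fin 3)) (FreeGroup.of 1)
      (FreeGroup.of 2)) :
    FreeGroup.lift ![a, b, c] r ∈ relsEven k cm cn cn' a b c := by
  have h1 := List.mem_map_of_mem (f := FreeGroup.lift ![a, b, c]) hr
  rw [map_relsEven] at h1
  simpa using h1

variable {F : Type*} [Field F] [Finite F]

theorem pres_odd_sl2 {p : ℕ} [Fact p.Prime] [CharP F p] [Algebra (ZMod p) F]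
    (ν : Fˣ) (hνgen : ∀ a : Fˣ, ∃ j : ℕ, a = ν ^ j) (l : ℕ)
    (hμ : Algebra.adjoin (ZMod p) {((ν : F) ^ 2) ^ l} = ⊤)
    (k : Option ℕ) (cm cl cn cn' : List ℕ)
    (hcm : listPoly p cm = minpoly (ZMod p) (((ν : F) ^ 2) ^ l))
    (hcl : aeval (((ν : F) ^ 2) ^ l) (listPoly p cl) = (ν : F) ^ 2)
    (hcn : aeval (((ν : F) ^ 2) ^ l) (listPoly p cn) = (ν : F))
    (hcn' : aeval (((ν : F) ^ 2) ^ l) (listPoly p cn') = (ν : F)⁻¹)
    (hk : k = none → ∃ c : List ℕ, cm = c ++ [1] ∧ c.length ≤ 2)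
    (hk' : ∀ k', k = some k' → ((ν : F) ^ 2) ^ k' = 1 + ((ν : F) ^ 2) ^ l) :
    ∃ rels : Finset (FreeGroup (Fin 3)), rels.card ≤ 9 ∧
      Nonempty (PresentedGroup (↑rels : Set (FreeGroup (Fin 3))) ≃*
        Matrix.SpecialLinearGroup (Fin 2) F) := by
  refine (presented_of_list
    (relsOdd p l k cm cl cn cn' false (FreeGroup.of (0 : Fin 3)) (FreeGroup.of 1)
      (FreeGroup.of 2)) ![slX F 1, slT F, slD F ν] ?_ ?_).imp
    fun rels h => ⟨h.1.trans (length_relsOdd ..), h.2⟩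
  · intro r hr
    have h1 := lift_relsOdd (slX F 1) (slT F) (slD F ν) p l k cm cl cn cn' false r hr
    rcases relsOdd_sl2 ν l k cm cl cn cn' hcm hcl hcn hcn' hk' false _ h1 with h | ⟨h, -⟩
    · exact h
    · exact absurd h (by simp)
  · intro φ hφ
    obtain ⟨e1, ec, e4, e10, e6, e7, e8, e9, -⟩ := odd_hyps p l k cm cl cn cn' false _ _ _ hk
      (presented_relsOdd p l k cm cl cn cn' false)
    exact sl2_bijective_of_rels _ _ _ ν hνgen l hμ cm cl cn cn' hcm hcl hcn hcn' e1 ec e4 e10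
      e6 e7 e8 (presented_gen _) (e9 rfl) φ (by simpa using hφ 0) (by simpa using hφ 1)
      (by simpa using hφ 2)

theorem pres_odd_psl2 {p : ℕ} [Fact p.Prime] [CharP F p] [Algebra (ZMod p) F]
    (ν : Fˣ) (hνgen : ∀ a : Fˣ, ∃ j : ℕ, a = ν ^ j) (l : ℕ)
    (hμ : Algebra.adjoin (ZMod p) {((ν : F) ^ 2) ^ l} = ⊤)
    (k : Option ℕ) (cm cl cn cn' : List ℕ)
    (hcm : listPoly p cm = minpoly (ZMod p) (((ν : F) ^ 2) ^ l))
    (hcl : aeval (((ν : F) ^ 2) ^ l) (listPoly p cl) = (ν : F) ^ 2)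
    (hcn : aeval (((ν : F) ^ 2) ^ l) (listPoly p cn) = (ν : F))
    (hcn' : aeval (((ν : F) ^ 2) ^ l) (listPoly p cn') = (ν : F)⁻¹)
    (hk : k = none → ∃ c : List ℕ, cm = c ++ [1] ∧ c.length ≤ 2)
    (hk' : ∀ k', k = some k' → ((ν : F) ^ 2) ^ k' = 1 + ((ν : F) ^ 2) ^ l) :
    ∃ rels : Finset (FreeGroup (Fin 3)), rels.card ≤ 9 ∧
      Nonempty (PresentedGroup (↑rels : Set (FreeGroup (Fin 3))) ≃*
        Matrix.ProjectiveSpecialLinearGroup (Fin 2) F) := by
  set mk : Matrix.SpecialLinearGroup (Fin 2) F →* Matrix.ProjectiveSpecialLinearGroup (Fin 2) F :=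
    QuotientGroup.mk' (Subgroup.center (Matrix.SpecialLinearGroup (Fin 2) F)) with hmk
  refine (presented_of_list
    (relsOdd p l k cm cl cn cn' true (FreeGroup.of (0 : Fin 3)) (FreeGroup.of 1)
      (FreeGroup.of 2)) ![mk (slX F 1), mk (slT F), mk (slD F ν)] ?_ ?_).imp
    fun rels h => ⟨h.1.trans (length_relsOdd ..), h.2⟩
  · intro r hr
    have h1 := lift_relsOdd (mk (slX F 1)) (mk (slT F)) (mk (slD F ν)) p l k cm cl cn cn' true r hr
    rw [← map_relsOdd] at h1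
    obtain ⟨r0, hr0, hr0'⟩ := List.mem_map.mp h1
    rw [← hr0']
    rcases relsOdd_sl2 ν l k cm cl cn cn' hcm hcl hcn hcn' hk' true r0 hr0 with h | ⟨-, h⟩
    · rw [h, map_one]
    · rw [h]
      exact (QuotientGroup.eq_one_iff _).mpr (slT_sq_mem_center F)
  · intro ψ hψ
    obtain ⟨e1, ec, e4, e10, e6, e7, e8, -, e9⟩ := odd_hyps p l k cm cl cn cn' true _ _ _ hk
      (presented_relsOdd p l k cm cl cn cn' true)
    exact psl2_bijective_of_rels _ _ _ ν hνgen l hμ cm cl cn cn' hcm hcl hcn hcn' e1 ec e4 e10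
      e6 e7 e8 (presented_gen _) (e9 rfl) ψ (hψ 0) (hψ 1) (hψ 2)

theorem pres_even_sl2 [CharP F 2] [Algebra (ZMod 2) F]
    (ν : Fˣ) (hνgen : ∀ a : Fˣ, ∃ j : ℕ, a = ν ^ j)
    (hμ : Algebra.adjoin (ZMod 2) {(ν : F) ^ 2} = ⊤)
    (k : Option ℕ) (cm cn cn' : List ℕ)
    (hcm : listPoly 2 cm = minpoly (ZMod 2) ((ν : F) ^ 2))
    (hcn : aeval ((ν : F) ^ 2) (listPoly 2 cn) = (ν : F))
    (hcn' : aeval ((ν : F) ^ 2) (listPoly 2 cn') = (ν : F)⁻¹)
    (hk : k = none → ∃ c : List ℕ, cm = c ++ [1] ∧ c.length ≤ 1)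
    (hk' : ∀ k', k = some k' → ((ν : F) ^ 2) ^ k' = 1 + (ν : F) ^ 2) :
    ∃ rels : Finset (FreeGroup (Fin 3)), rels.card ≤ 5 ∧
      Nonempty (PresentedGroup (↑rels : Set (FreeGroup (Fin 3))) ≃*
        Matrix.SpecialLinearGroup (Fin 2) F) := by
  refine (presented_of_list
    (relsEven k cm cn cn' (FreeGroup.of (0 : Fin 3)) (FreeGroup.of 1)
      (FreeGroup.of 2)) ![slX F 1, slT F, slD F ν] ?_ ?_).imp
    fun rels h => ⟨h.1.trans (length_relsEven ..), h.2⟩
  · intro r hr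
    have h1 := lift_relsEven (slX F 1) (slT F) (slD F ν) k cm cn cn' r hr
    exact relsEven_sl2 ν k cm cn cn' hcm hcn hcn' hk' _ h1
  · intro φ hφ
    obtain ⟨e1, ec, e4, e10, e6, e7, e8, e9⟩ := even_hyps k cm cn cn' _ _ _ hk
      (presented_relsEven k cm cn cn')
    exact sl2_bijective_of_rels (p := 2) _ _ _ ν hνgen 1 (by rw [pow_one]; exact hμ)
      cm [0, 1] cn cn' (by rw [pow_one]; exact hcm) (by simp) (by rw [pow_one]; exact hcn)
      (by rw [pow_one]; exact hcn') e1 ec e4 e10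
      e6 e7 e8 (presented_gen _) (by rw [e9]; exact Commute.one_left _) φ
      (by simpa using hφ 0) (by simpa using hφ 1) (by simpa using hφ 2)

theorem pres_even_psl2 [CharP F 2] [Algebra (ZMod 2) F]
    (ν : Fˣ) (hνgen : ∀ a : Fˣ, ∃ j : ℕ, a = ν ^ j)
    (hμ : Algebra.adjoin (ZMod 2) {(ν : F) ^ 2} = ⊤)
    (k : Option ℕ) (cm cn cn' : List ℕ)
    (hcm : listPoly 2 cm = minpoly (ZMod 2) ((ν : F) ^ 2))
    (hcn : aeval ((ν : F) ^ 2) (listPoly 2 cn) = (ν : F))
    (hcn' : aeval ((ν : F) ^ 2) (listPoly 2 cn') = (ν : F)⁻¹)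
    (hk : k = none → ∃ c : List ℕ, cm = c ++ [1] ∧ c.length ≤ 1)
    (hk' : ∀ k', k = some k' → ((ν : F) ^ 2) ^ k' = 1 + (ν : F) ^ 2) :
    ∃ rels : Finset (FreeGroup (Fin 3)), rels.card ≤ 5 ∧
      Nonempty (PresentedGroup (↑rels : Set (FreeGroup (Fin 3))) ≃*
        Matrix.ProjectiveSpecialLinearGroup (Fin 2) F) := by
  set mk : Matrix.SpecialLinearGroup (Fin 2) F →* Matrix.ProjectiveSpecialLinearGroup (Fin 2) F :=
    QuotientGroup.mk' (Subgroup.center (Matrix.SpecialLinearGroup (Fin 2) F)) with hmk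
  refine (presented_of_list
    (relsEven k cm cn cn' (FreeGroup.of (0 : Fin 3)) (FreeGroup.of 1)
      (FreeGroup.of 2)) ![mk (slX F 1), mk (slT F), mk (slD F ν)] ?_ ?_).imp
    fun rels h => ⟨h.1.trans (length_relsEven ..), h.2⟩
  · intro r hr
    have h1 := lift_relsEven (mk (slX F 1)) (mk (slT F)) (mk (slD F ν)) k cm cn cn' r hr
    rw [← map_relsEven] at h1
    obtain ⟨r0, hr0, hr0'⟩ := List.mem_map.mp h1
    rw [← hr0', relsEven_sl2 ν k cm cn cn' hcm hcn hcn' hk' r0 hr0, map_one]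
  · intro ψ hψ
    obtain ⟨e1, ec, e4, e10, e6, e7, e8, e9⟩ := even_hyps k cm cn cn' _ _ _ hk
      (presented_relsEven k cm cn cn')
    exact psl2_bijective_of_rels (p := 2) _ _ _ ν hνgen 1 (by rw [pow_one]; exact hμ)
      cm [0, 1] cn cn' (by rw [pow_one]; exact hcm) (by simp) (by rw [pow_one]; exact hcn)
      (by rw [pow_one]; exact hcn') e1 ec e4 e10
      e6 e7 e8 (presented_gen _) e9 ψ
      (hψ 0) (hψ 1) (hψ 2)

end Assembly

end Cfsg.Agent.Lib.Helper59
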