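import Mathlib
import Cfsg.Agent.Lib.Helper59.Pres3D

/-!
# Three-generator presentations of `SL₂(F)` and `PSL₂(F)`: choice of the parameters
-/

set_option autoImplicit false
set_option linter.style.haveILetI false

namespace Cfsg.Agent.Lib.Helper59

open Polynomial

section Top

variable (F : Type*) [Field F] [Fintype F]

theorem sl2_pres_even [CharP F 2] :
    (∃ rels : Finset (FreeGroup (Fin 3)), rels.card ≤ 5 ∧
      Nonempty (PresentedGroup (↑rels : Set (FreeGroup (Fin 3))) ≃*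
        Matrix.SpecialLinearGroup (Fin 2) F)) ∧
    (∃ rels : Finset (FreeGroup (Fin 3)), rels.card ≤ 5 ∧
      Nonempty (PresentedGroup (↑rels : Set (FreeGroup (Fin 3))) ≃*
        Matrix.ProjectiveSpecialLinearGroup (Fin 2) F)) := by
  haveI : Fact (Nat.Prime 2) := ⟨Nat.prime_two⟩
  letI : Algebra (ZMod 2) F := ZMod.algebra F 2
  obtain ⟨ν, hνgen⟩ := exists_unit_gen (F := F)
  have hμ : Algebra.adjoin (ZMod 2) {(ν : F) ^ 2} = ⊤ := adjoin_sq_eq_top (p := 2) ν hνgen
  obtain ⟨cn, hcn⟩ := exists_list_aeval (p := 2) _ hμ (ν : F)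
  obtain ⟨cn', hcn'⟩ := exists_list_aeval (p := 2) _ hμ (ν : F)⁻¹
  obtain ⟨c, hclen, hc⟩ := exists_minpoly_list (p := 2) ((ν : F) ^ 2)
  by_cases h1 : (ν : F) ^ 2 = 1
  · have hlen : c.length ≤ 1 := by
      rw [hclen, h1, minpoly.one]
      exact (natDegree_X_sub_C_le _)
    exact ⟨pres_even_sl2 ν hνgen hμ none (c ++ [1]) cn cn' hc hcn hcn'
        (fun _ => ⟨c, rfl, hlen⟩) (fun k' hk' => by simp at hk'),
      pres_even_psl2 ν hνgen hμ none (c ++ [1]) cn cn' hc hcn hcn'
        (fun _ => ⟨c, rfl, hlen⟩) (fun k' hk' => by simp at hk')⟩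
  · obtain ⟨k, hk⟩ := exists_pow_eq_one_add ν hνgen h1
    exact ⟨pres_even_sl2 ν hνgen hμ (some k) (c ++ [1]) cn cn' hc hcn hcn'
        (fun h => by simp at h) (fun k' hk' => by
          have : k = k' := by simpa using hk'
          rw [← this]; exact hk),
      pres_even_psl2 ν hνgen hμ (some k) (c ++ [1]) cn cn' hc hcn hcn'
        (fun h => by simp at h) (fun k' hk' => by
          have : k = k' := by simpa using hk'
          rw [← this]; exact hk)⟩

theorem sl2_pres_odd (h2 : (2 : F) ≠ 0) :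
    (∃ rels : Finset (FreeGroup (Fin 3)), rels.card ≤ 9 ∧
      Nonempty (PresentedGroup (↑rels : Set (FreeGroup (Fin 3))) ≃*
        Matrix.SpecialLinearGroup (Fin 2) F)) ∧
    (∃ rels : Finset (FreeGroup (Fin 3)), rels.card ≤ 9 ∧
      Nonempty (PresentedGroup (↑rels : Set (FreeGroup (Fin 3))) ≃*
        Matrix.ProjectiveSpecialLinearGroup (Fin 2) F)) := by
  obtain ⟨p, hp⟩ := CharP.exists F
  haveI : CharP F p := hp
  haveI : Fact p.Prime := ⟨CharP.char_is_prime F p⟩
  have hp2 : 2 ≤ p := (Fact.out : p.Prime).two_le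
  have hp3 : 3 ≤ p := by
    rcases Nat.lt_or_ge p 3 with h | h
    · exfalso
      have hp2' : p = 2 := by omega
      apply h2
      have := CharP.cast_eq_zero F p
      rw [hp2'] at this
      exact_mod_cast this
    · exact h
  letI : Algebra (ZMod p) F := ZMod.algebra F p
  obtain ⟨ν, hνgen⟩ := exists_unit_gen (F := F)
  by_cases hfr : Module.finrank (ZMod p) F ≤ 2
  · -- scheme A
    have hμ : Algebra.adjoin (ZMod p) {((ν : F) ^ 2) ^ 1} = ⊤ := by
      rw [pow_one]; exact adjoin_sq_eq_top (p := p) ν hνgen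
    obtain ⟨cn, hcn⟩ := exists_list_aeval (p := p) _ hμ (ν : F)
    obtain ⟨cn', hcn'⟩ := exists_list_aeval (p := p) _ hμ (ν : F)⁻¹
    obtain ⟨c, hclen, hc⟩ := exists_minpoly_list (p := p) (((ν : F) ^ 2) ^ 1)
    have hlen : c.length ≤ 2 := by
      rw [hclen]
      exact (minpoly.natDegree_le _).trans hfr
    have hcl : aeval (((ν : F) ^ 2) ^ 1) (listPoly p [0, 1]) = (ν : F) ^ 2 := by
      simp [listPoly]
    exact ⟨pres_odd_sl2 ν hνgen 1 hμ none (c ++ [1]) [0, 1] cn cn' hc hcl hcn hcn'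
        (fun _ => ⟨c, rfl, hlen⟩) (fun k' hk' => by simp at hk'),
      pres_odd_psl2 ν hνgen 1 hμ none (c ++ [1]) [0, 1] cn cn' hc hcl hcn hcn'
        (fun _ => ⟨c, rfl, hlen⟩) (fun k' hk' => by simp at hk')⟩
  · -- scheme B
    have he : 3 ≤ Module.finrank (ZMod p) F := by omega
    obtain ⟨l, k, hμ, hk⟩ := exists_scheme_B (p := p) h2 hp3 he ν hνgen
    obtain ⟨cl, hcl⟩ := exists_list_aeval (p := p) _ hμ ((ν : F) ^ 2)
    obtain ⟨cn, hcn⟩ := exists_list_aeval (p := p) _ hμ (ν : F)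
    obtain ⟨cn', hcn'⟩ := exists_list_aeval (p := p) _ hμ (ν : F)⁻¹
    obtain ⟨c, hclen, hc⟩ := exists_minpoly_list (p := p) (((ν : F) ^ 2) ^ l)
    exact ⟨pres_odd_sl2 ν hνgen l hμ (some k) (c ++ [1]) cl cn cn' hc hcl hcn hcn'
        (fun h => by simp at h) (fun k' hk' => by
          have : k = k' := by simpa using hk'
          rw [← this]; exact hk),
      pres_odd_psl2 ν hνgen l hμ (some k) (c ++ [1]) cl cn cn' hc hcl hcn hcn'
        (fun h => by simp at h) (fun k' hk' => by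
          have : k = k' := by simpa using hk'
          rw [← this]; exact hk)⟩

end Top

end Cfsg.Agent.Lib.Helper59
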