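import Mathlib
import Cfsg.Agent.Lib.Helper59.WordLaw
import Cfsg.Agent.Lib.Helper37.SzLieC
import Cfsg.Agent.Lib.Helper37.SzAction

set_option autoImplicit false

namespace Cfsg.Agent.Lib.Helper59

open Polynomial Matrix

section Poly

variable {F : Type*} [Field F]

/-- first output polynomial of one ping-pong step -/
noncomputable def sq0 (d D : ℕ) (a c e : F[X]) : F[X] := a + X ^ d * c + X ^ D * e

/-- second output polynomial of one ping-pong step -/
noncomputable def sq1 (d : ℕ) (b e : F[X]) : F[X] := b + X ^ d * e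

/-- third output polynomial of one ping-pong step -/
noncomputable def sq2 (d D : ℕ) (a c e : F[X]) : F[X] := c + X ^ d * sq0 d D a c e

/-- fourth output polynomial of one ping-pong step -/
noncomputable def sq3 (d D : ℕ) (a b c e : F[X]) : F[X] :=
  e + X ^ d * sq1 d b e + X ^ D * sq0 d D a c e

/-- the degree pattern after a step -/
def SzSt (D d : ℕ) (a b c e : F[X]) : Prop :=
  e.natDegree = a.natDegree + D ∧ b.natDegree ≤ a.natDegree ∧ c.natDegree ≤ a.natDegree + d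

theorem sz_pp_step (d D : ℕ) (hd : 1 ≤ d) (hD : d < D) (a b c e : F[X])
    (he : e ≠ 0) (h1 : a.natDegree ≠ e.natDegree + D)
    (h2 : c.natDegree + d < max a.natDegree (e.natDegree + D))
    (h3 : b.natDegree ≤ max a.natDegree (e.natDegree + D)) :
    sq0 d D a c e ≠ 0 ∧ sq3 d D a b c e ≠ 0 ∧
    SzSt D d (sq0 d D a c e) (sq1 d b e) (sq2 d D a c e) (sq3 d D a b c e) ∧
    (sq0 d D a c e).natDegree ≤ max a.natDegree e.natDegree + 2 * D ∧
    (sq3 d D a b c e).natDegree ≤ max a.natDegree e.natDegree + 2 * D := by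
  set M := max a.natDegree (e.natDegree + D) with hM
  have hM1 : a.natDegree ≤ M := le_max_left _ _
  have hM2 : e.natDegree + D ≤ M := le_max_right _ _
  have hN1 : a.natDegree ≤ max a.natDegree e.natDegree := le_max_left _ _
  have hN2 : e.natDegree ≤ max a.natDegree e.natDegree := le_max_right _ _
  have hMle : M ≤ max a.natDegree e.natDegree + D := max_le (by omega) (by omega)
  have hxd : ∀ n : ℕ, (X ^ n : F[X]) ≠ 0 := fun n => pow_ne_zero _ X_ne_zero
  have dXe : (X ^ D * e).natDegree = D + e.natDegree := by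
    rw [natDegree_mul (hxd D) he, natDegree_X_pow]
  have dae : (a + X ^ D * e).natDegree = M := by
    rcases lt_or_gt_of_ne h1 with hlt | hgt
    · rw [natDegree_add_eq_right_of_natDegree_lt (by rw [dXe]; omega), dXe, hM,
        max_eq_right (by omega)]
      omega
    · rw [natDegree_add_eq_left_of_natDegree_lt (by rw [dXe]; omega), hM,
        max_eq_left (by omega)]
  have dXc : (X ^ d * c).natDegree ≤ d + c.natDegree := by
    refine natDegree_mul_le.trans ?_
    rw [natDegree_X_pow]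
  have e0 : sq0 d D a c e = (a + X ^ D * e) + X ^ d * c := by unfold sq0; ring
  have k0 : (sq0 d D a c e).natDegree = M := by
    rw [e0, natDegree_add_eq_left_of_natDegree_lt (by rw [dae]; omega), dae]
  have n0 : sq0 d D a c e ≠ 0 := ne_zero_of_natDegree_gt (n := 0) (by rw [k0]; omega)
  have dXe' : (X ^ d * e).natDegree = d + e.natDegree := by
    rw [natDegree_mul (hxd d) he, natDegree_X_pow]
  have k1 : (sq1 d b e).natDegree ≤ M := by
    unfold sq1
    refine (natDegree_add_le _ _).trans (max_le h3 ?_)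
    rw [dXe']
    omega
  have dX0 : (X ^ d * sq0 d D a c e).natDegree = d + M := by
    rw [natDegree_mul (hxd d) n0, natDegree_X_pow, k0]
  have k2 : (sq2 d D a c e).natDegree ≤ M + d := by
    unfold sq2
    refine (natDegree_add_le _ _).trans (max_le ?_ ?_)
    · omega
    · rw [dX0]; omega
  have dXD0 : (X ^ D * sq0 d D a c e).natDegree = D + M := by
    rw [natDegree_mul (hxd D) n0, natDegree_X_pow, k0]
  have dX1 : (X ^ d * sq1 d b e).natDegree ≤ d + M := by
    refine natDegree_mul_le.trans ?_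
    rw [natDegree_X_pow]
    omega
  have dlow : (e + X ^ d * sq1 d b e).natDegree < D + M := by
    refine lt_of_le_of_lt (natDegree_add_le _ _) (max_lt ?_ ?_)
    · omega
    · omega
  have e3 : sq3 d D a b c e = X ^ D * sq0 d D a c e + (e + X ^ d * sq1 d b e) := by
    unfold sq3; ring
  have k3 : (sq3 d D a b c e).natDegree = M + D := by
    rw [e3, natDegree_add_eq_left_of_natDegree_lt (by rw [dXD0]; exact dlow), dXD0]
    omega
  have n3 : sq3 d D a b c e ≠ 0 := ne_zero_of_natDegree_gt (n := 0) (by rw [k3]; omega)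
  exact ⟨n0, n3, ⟨by rw [k3, k0], by rw [k0]; exact k1, by rw [k0]; exact k2⟩,
    by rw [k0]; omega, by rw [k3]; omega⟩

theorem sz_pp_trans (d D : ℕ) (hd : 1 ≤ d) (hD : d < D) (a b c e : F[X])
    (he : e ≠ 0)
    (hprev : (a = 1 ∧ b = 0 ∧ c = 0 ∧ e = 1) ∨ (∃ d' D', d' < D' ∧ SzSt D' d' a b c e) ∨
      (∃ d' D', d' ≤ D' ∧ D' ≠ D ∧ SzSt D' d' e c b a)) :
    sq0 d D a c e ≠ 0 ∧ sq3 d D a b c e ≠ 0 ∧
    SzSt D d (sq0 d D a c e) (sq1 d b e) (sq2 d D a c e) (sq3 d D a b c e) ∧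
    (sq0 d D a c e).natDegree ≤ max a.natDegree e.natDegree + 2 * D ∧
    (sq3 d D a b c e).natDegree ≤ max a.natDegree e.natDegree + 2 * D := by
  have hM1 : a.natDegree ≤ max a.natDegree (e.natDegree + D) := le_max_left _ _
  have hM2 : e.natDegree + D ≤ max a.natDegree (e.natDegree + D) := le_max_right _ _
  rcases hprev with ⟨rfl, rfl, rfl, rfl⟩ | ⟨d', D', h1, h2, h3, h4⟩ | ⟨d', D', h1, h2, h3, h4, h5⟩
  · apply sz_pp_step d D hd hD _ _ _ _ he
    · rw [natDegree_one]; omega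
    · rw [natDegree_one, natDegree_zero] at *; omega
    · rw [natDegree_zero]; omega
  · apply sz_pp_step d D hd hD _ _ _ _ he
    · omega
    · omega
    · omega
  · apply sz_pp_step d D hd hD _ _ _ _ he
    · omega
    · omega
    · omega

/-- the polynomial translation matrix -/
noncomputable def ppU (F : Type*) [Field F] (s d : ℕ) : Matrix (Fin 4) (Fin 4) F[X] :=
  !![1, 0, X ^ d, X ^ (s * d); 0, 1, 0, X ^ d; 0, 0, 1, 0; 0, 0, 0, 1]

/-- the polynomial inversion matrix -/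
noncomputable def ppW (F : Type*) [Field F] : Matrix (Fin 4) (Fin 4) F[X] :=
  !![0, 0, 0, 1; 0, 0, 1, 0; 0, 1, 0, 0; 1, 0, 0, 0]

theorem ppU_mulVec (s d : ℕ) (v : Fin 4 → F[X]) :
    ppU F s d *ᵥ v = ![v 0 + X ^ d * v 2 + X ^ (s * d) * v 3, v 1 + X ^ d * v 3, v 2, v 3] := by
  ext j
  fin_cases j <;> simp [ppU, Matrix.mulVec, dotProduct, Fin.sum_univ_four]

theorem ppW_mulVec (v : Fin 4 → F[X]) : ppW F *ᵥ v = ![v 3, v 2, v 1, v 0] := by
  ext j
  fin_cases j <;> simp [ppW, Matrix.mulVec, dotProduct, Fin.sum_univ_four]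

/-- the generators -/
noncomputable def ppY (F : Type*) [Field F] (s i : ℕ) : Matrix (Fin 4) (Fin 4) F[X] :=
  ppW F * ppU F s (i + 1) * ppW F * ppU F s (i + 1)

/-- the inverse generators -/
noncomputable def ppY' (F : Type*) [Field F] (s i : ℕ) : Matrix (Fin 4) (Fin 4) F[X] :=
  ppU F s (i + 1) * ppW F * ppU F s (i + 1) * ppW F

theorem ppY_mulVec (s i : ℕ) (v : Fin 4 → F[X]) :
    ppY F s i *ᵥ v = ![sq0 (i + 1) (s * (i + 1)) (v 0) (v 2) (v 3), sq1 (i + 1) (v 1) (v 3),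
      sq2 (i + 1) (s * (i + 1)) (v 0) (v 2) (v 3),
      sq3 (i + 1) (s * (i + 1)) (v 0) (v 1) (v 2) (v 3)] := by
  unfold ppY
  rw [← Matrix.mulVec_mulVec, ← Matrix.mulVec_mulVec, ← Matrix.mulVec_mulVec]
  simp only [ppU_mulVec, ppW_mulVec]
  ext j
  fin_cases j <;> simp [sq0, sq1, sq2, sq3]

theorem ppY'_mulVec (s i : ℕ) (v : Fin 4 → F[X]) :
    ppY' F s i *ᵥ v = ![sq3 (i + 1) (s * (i + 1)) (v 3) (v 2) (v 1) (v 0),
      sq2 (i + 1) (s * (i + 1)) (v 3) (v 1) (v 0), sq1 (i + 1) (v 2) (v 0),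
      sq0 (i + 1) (s * (i + 1)) (v 3) (v 1) (v 0)] := by
  unfold ppY'
  rw [← Matrix.mulVec_mulVec, ← Matrix.mulVec_mulVec, ← Matrix.mulVec_mulVec]
  simp only [ppU_mulVec, ppW_mulVec]
  ext j
  fin_cases j <;> simp [sq0, sq1, sq2, sq3]

/-- the matrix of a word -/
noncomputable def ppProd4 (F : Type*) [Field F] (s : ℕ) (L : List (ℕ × Bool)) :
    Matrix (Fin 4) (Fin 4) F[X] :=
  (L.map fun x => cond x.2 (ppY F s x.1) (ppY' F s x.1)).prod

theorem vec4_apply (p0 p1 p2 p3 : F[X]) :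
    (![p0, p1, p2, p3] : Fin 4 → F[X]) 0 = p0 ∧ (![p0, p1, p2, p3] : Fin 4 → F[X]) 1 = p1 ∧
    (![p0, p1, p2, p3] : Fin 4 → F[X]) 2 = p2 ∧ (![p0, p1, p2, p3] : Fin 4 → F[X]) 3 = p3 :=
  ⟨rfl, rfl, rfl, rfl⟩

theorem pp4_invariant (s : ℕ) (hs : 2 ≤ s) : ∀ (L : List (ℕ × Bool)), FreeGroup.IsReduced L →
    (ppProd4 F s L *ᵥ ![1, 0, 0, 1]) 0 ≠ 0 ∧ (ppProd4 F s L *ᵥ ![1, 0, 0, 1]) 3 ≠ 0 ∧
    ((ppProd4 F s L *ᵥ ![1, 0, 0, 1]) 0).natDegree ≤ s * ppBnd L ∧
    ((ppProd4 F s L *ᵥ ![1, 0, 0, 1]) 3).natDegree ≤ s * ppBnd L ∧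
    (∀ x L', L = x :: L' →
      (x.2 = true → SzSt (s * (x.1 + 1)) (x.1 + 1) ((ppProd4 F s L *ᵥ ![1, 0, 0, 1]) 0)
        ((ppProd4 F s L *ᵥ ![1, 0, 0, 1]) 1) ((ppProd4 F s L *ᵥ ![1, 0, 0, 1]) 2)
        ((ppProd4 F s L *ᵥ ![1, 0, 0, 1]) 3)) ∧
      (x.2 = false → SzSt (s * (x.1 + 1)) (x.1 + 1) ((ppProd4 F s L *ᵥ ![1, 0, 0, 1]) 3)
        ((ppProd4 F s L *ᵥ ![1, 0, 0, 1]) 2) ((ppProd4 F s L *ᵥ ![1, 0, 0, 1]) 1)
        ((ppProd4 F s L *ᵥ ![1, 0, 0, 1]) 0))) := by
  intro L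
  induction L with
  | nil =>
    intro _
    have : ppProd4 F s [] *ᵥ ![1, 0, 0, 1] = ![1, 0, 0, 1] := by
      simp [ppProd4]
    rw [this]
    refine ⟨by simp, by simp, by simp, by simp, ?_⟩
    intro x L' h
    exact absurd h (by simp)
  | cons x L' ih =>
    intro hred
    have hred' : FreeGroup.IsReduced L' := hred.infix ⟨[x], [], by simp⟩
    obtain ⟨h0, h3, hb0, hb3, hx⟩ := ih hred'
    set v' := ppProd4 F s L' *ᵥ ![1, 0, 0, 1] with hv'
    have hprod : ppProd4 F s (x :: L')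
        = (cond x.2 (ppY F s x.1) (ppY' F s x.1)) * ppProd4 F s L' := by
      simp [ppProd4]
    have hbnd : s * ppBnd (x :: L') = 2 * (s * (x.1 + 1)) + s * ppBnd L' := by
      simp [ppBnd]; ring
    have hvv : ppProd4 F s (x :: L') *ᵥ ![1, 0, 0, 1]
        = (cond x.2 (ppY F s x.1) (ppY' F s x.1)) *ᵥ v' := by
      rw [hprod, ← Matrix.mulVec_mulVec]
    rw [hvv, hbnd]
    obtain ⟨i, ε⟩ := x
    have hdD : ∀ j : ℕ, j + 1 < s * (j + 1) := fun j => by nlinarith
    have hDne : ∀ j : ℕ, i ≠ j → s * (j + 1) ≠ s * (i + 1) := by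
      intro j hij hcon
      have := Nat.eq_of_mul_eq_mul_left (by omega : 0 < s) hcon
      omega
    have hmax := max_le hb0 hb3
    have hmax' := max_le hb3 hb0
    cases ε with
    | true =>
      simp only [cond_true]
      rw [ppY_mulVec]
      have hprev : (v' 0 = 1 ∧ v' 1 = 0 ∧ v' 2 = 0 ∧ v' 3 = 1) ∨
          (∃ d' D', d' < D' ∧ SzSt D' d' (v' 0) (v' 1) (v' 2) (v' 3)) ∨
          (∃ d' D', d' ≤ D' ∧ D' ≠ s * (i + 1) ∧ SzSt D' d' (v' 3) (v' 2) (v' 1) (v' 0)) := by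
        cases L' with
        | nil =>
          left
          have : v' = ![1, 0, 0, 1] := by rw [hv']; simp [ppProd4]
          rw [this]; simp
        | cons y L'' =>
          obtain ⟨hy1, hy2⟩ := hx y L'' rfl
          have hr := (FreeGroup.isReduced_cons_cons.mp hred).1
          rcases hyb : y.2 with _ | _
          · right; right
            refine ⟨y.1 + 1, s * (y.1 + 1), (hdD _).le, hDne _ ?_, hy2 hyb⟩
            intro hcon
            have := hr hcon
            rw [hyb] at this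
            exact absurd this (by simp)
          · right; left
            exact ⟨y.1 + 1, s * (y.1 + 1), hdD _, hy1 hyb⟩
      obtain ⟨k0, k3, kst, kb0, kb3⟩ := sz_pp_trans (i + 1) (s * (i + 1)) (by omega) (hdD i)
        (v' 0) (v' 1) (v' 2) (v' 3) h3 hprev
      obtain ⟨c0, c1, c2, c3⟩ := vec4_apply (sq0 (i + 1) (s * (i + 1)) (v' 0) (v' 2) (v' 3))
        (sq1 (i + 1) (v' 1) (v' 3)) (sq2 (i + 1) (s * (i + 1)) (v' 0) (v' 2) (v' 3))
        (sq3 (i + 1) (s * (i + 1)) (v' 0) (v' 1) (v' 2) (v' 3))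
      rw [c0, c1, c2, c3]
      refine ⟨k0, k3, by omega, by omega, ?_⟩
      intro x L'' hxL
      have hxe : x = (i, true) := (List.cons.inj hxL).1.symm
      subst hxe
      exact ⟨fun _ => kst, fun h => absurd h (by simp)⟩
    | false =>
      simp only [cond_false]
      rw [ppY'_mulVec]
      have hprev : (v' 3 = 1 ∧ v' 2 = 0 ∧ v' 1 = 0 ∧ v' 0 = 1) ∨
          (∃ d' D', d' < D' ∧ SzSt D' d' (v' 3) (v' 2) (v' 1) (v' 0)) ∨
          (∃ d' D', d' ≤ D' ∧ D' ≠ s * (i + 1) ∧ SzSt D' d' (v' 0) (v' 1) (v' 2) (v' 3)) := by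
        cases L' with
        | nil =>
          left
          have : v' = ![1, 0, 0, 1] := by rw [hv']; simp [ppProd4]
          rw [this]; simp
        | cons y L'' =>
          obtain ⟨hy1, hy2⟩ := hx y L'' rfl
          have hr := (FreeGroup.isReduced_cons_cons.mp hred).1
          rcases hyb : y.2 with _ | _
          · right; left
            exact ⟨y.1 + 1, s * (y.1 + 1), hdD _, hy2 hyb⟩
          · right; right
            refine ⟨y.1 + 1, s * (y.1 + 1), (hdD _).le, hDne _ ?_, hy1 hyb⟩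
            intro hcon
            have := hr hcon
            rw [hyb] at this
            exact absurd this (by simp)
      obtain ⟨k0, k3, kst, kb0, kb3⟩ := sz_pp_trans (i + 1) (s * (i + 1)) (by omega) (hdD i)
        (v' 3) (v' 2) (v' 1) (v' 0) h0 hprev
      obtain ⟨c0, c1, c2, c3⟩ := vec4_apply (sq3 (i + 1) (s * (i + 1)) (v' 3) (v' 2) (v' 1) (v' 0))
        (sq2 (i + 1) (s * (i + 1)) (v' 3) (v' 1) (v' 0)) (sq1 (i + 1) (v' 2) (v' 0))
        (sq0 (i + 1) (s * (i + 1)) (v' 3) (v' 1) (v' 0))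
      rw [c0, c1, c2, c3]
      refine ⟨k3, k0, by omega, by omega, ?_⟩
      intro x L'' hxL
      have hxe : x = (i, false) := (List.cons.inj hxL).1.symm
      subst hxe
      exact ⟨fun h => absurd h (by simp), fun _ => kst⟩

end Poly

section Final

open Cfsg.Agent.Lib.Helper37

variable {F : Type*} [Field F]

theorem ppU_eval (s d : ℕ) (hs : s ≠ 0) (t : F) :
    (Polynomial.evalRingHom t).mapMatrix (ppU F s d) = szT s 0 (t ^ d) := by
  ext i j
  fin_cases i <;> fin_cases j <;> simp [ppU, szT, hs, pow_mul']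

theorem ppW_eval (t : F) : (Polynomial.evalRingHom t).mapMatrix (ppW F) = szW F := by
  ext i j
  fin_cases i <;> fin_cases j <;> simp [ppW, szW]

/-- a nontrivial word is not a law in the Suzuki group over a large enough field -/
theorem word_not_law_sz (w : FreeGroup ℕ) (hw : w ≠ 1) (F : Type*) [Field F] [Fintype F]
    (m : ℕ) (hm : 1 ≤ m) (hF : Fintype.card F = 2 ^ (2 * m + 1))
    (hB : ppBnd w.toWord < 2 ^ m) :
    ∃ f : ℕ → ↥(Cfsg.Lie.Sz F (2 ^ (m + 1))), FreeGroup.lift f w ≠ 1 := by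
  classical
  have h : SzData F (2 ^ (m + 1)) := szData_of_card hm hF
  have hs2 : 2 ≤ 2 ^ (m + 1) := by
    calc 2 = 2 ^ 1 := by norm_num
      _ ≤ 2 ^ (m + 1) := Nat.pow_le_pow_right (by norm_num) (by omega)
  have hs0 : (2 : ℕ) ^ (m + 1) ≠ 0 := by omega
  have hL : w.toWord ≠ [] := by rwa [Ne, FreeGroup.toWord_eq_nil_iff]
  have hred : FreeGroup.IsReduced w.toWord := FreeGroup.isReduced_toWord
  obtain ⟨h0, h3, hb0, hb3, hx⟩ := pp4_invariant (F := F) (2 ^ (m + 1)) hs2 w.toWord hred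
  set P := ppProd4 F (2 ^ (m + 1)) w.toWord with hP
  set v := P *ᵥ ![1, 0, 0, 1] with hv
  obtain ⟨x, L', hLx⟩ := List.exists_cons_of_ne_nil hL
  have hpos : 0 < 2 ^ (m + 1) * (x.1 + 1) := by positivity
  have hdeg : (v 0).natDegree ≠ (v 3).natDegree := by
    obtain ⟨hx1, hx2⟩ := hx x L' hLx
    rcases hxb : x.2 with _ | _
    · have := (hx2 hxb).1; omega
    · have := (hx1 hxb).1; omega
  have hp : v 0 - v 3 ≠ 0 := fun h => hdeg (by rw [sub_eq_zero.mp h])
  have hpd : (v 0 - v 3).natDegree ≤ 2 ^ (m + 1) * ppBnd w.toWord :=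
    (natDegree_sub_le _ _).trans (max_le hb0 hb3)
  have hlt : 2 ^ (m + 1) * ppBnd w.toWord < Fintype.card F := by
    rw [hF]
    calc 2 ^ (m + 1) * ppBnd w.toWord < 2 ^ (m + 1) * 2 ^ m :=
          (Nat.mul_lt_mul_left (by positivity : 0 < 2 ^ (m + 1))).mpr hB
      _ = 2 ^ (2 * m + 1) := by rw [← pow_add]; congr 1; omega
  obtain ⟨t, ht⟩ := (v 0 - v 3).exists_eval_ne_zero_of_natDegree_lt_card hp (by
    rw [Cardinal.mk_fintype]
    exact_mod_cast (by omega : (v 0 - v 3).natDegree < Fintype.card F))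
  let g : ℕ → ↥(Cfsg.Sz F m) := fun i =>
    ⟨szWel h * szTel (2 ^ (m + 1)) 0 (t ^ (i + 1)) * szWel h * szTel (2 ^ (m + 1)) 0 (t ^ (i + 1)),
      mul_mem (mul_mem (mul_mem h.szWel_mem (h.szTel_mem _ _)) h.szWel_mem) (h.szTel_mem _ _)⟩
  have hTinv : ∀ b : F, (szTel (2 ^ (m + 1)) (0 : F) b)⁻¹ = szTel (2 ^ (m + 1)) 0 b := by
    intro b
    rw [h.szTel_inv, zero_pow (by omega), add_zero]
  have hginv : ∀ i, (g i)⁻¹ = ⟨szTel (2 ^ (m + 1)) 0 (t ^ (i + 1)) * szWel h *
      szTel (2 ^ (m + 1)) 0 (t ^ (i + 1)) * szWel h,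
      mul_mem (mul_mem (mul_mem (h.szTel_mem _ _) h.szWel_mem) (h.szTel_mem _ _)) h.szWel_mem⟩ := by
    intro i
    apply Subtype.ext
    show (szWel h * szTel (2 ^ (m + 1)) 0 (t ^ (i + 1)) * szWel h *
      szTel (2 ^ (m + 1)) 0 (t ^ (i + 1)))⁻¹ = szTel (2 ^ (m + 1)) 0 (t ^ (i + 1)) * szWel h *
      szTel (2 ^ (m + 1)) 0 (t ^ (i + 1)) * szWel h
    rw [_root_.mul_inv_rev, _root_.mul_inv_rev, _root_.mul_inv_rev, hTinv, h.szWel_inv]
    simp only [mul_assoc]
  let ψ : ↥(Cfsg.Sz F m) →* Matrix (Fin 4) (Fin 4) F :=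
    { toFun := fun a => ((a : Matrix.SpecialLinearGroup (Fin 4) F) : Matrix (Fin 4) (Fin 4) F)
      map_one' := rfl
      map_mul' := fun _ _ => rfl }
  have hψ : ∀ y : ℕ × Bool, ψ (cond y.2 (g y.1) (g y.1)⁻¹) =
      (Polynomial.evalRingHom t).mapMatrix
        (cond y.2 (ppY F (2 ^ (m + 1)) y.1) (ppY' F (2 ^ (m + 1)) y.1)) := by
    rintro ⟨i, ε⟩
    cases ε with
    | true =>
      simp only [cond_true]
      unfold ppY
      rw [map_mul, map_mul, map_mul, ppU_eval _ _ hs0, ppW_eval]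
      rfl
    | false =>
      simp only [cond_false]
      unfold ppY'
      rw [map_mul, map_mul, map_mul, ppU_eval _ _ hs0, ppW_eval, hginv]
      rfl
  have key : ψ (FreeGroup.lift g w) = (Polynomial.evalRingHom t).mapMatrix P := by
    have e1 : FreeGroup.lift g w
        = (w.toWord.map fun y => cond y.2 (g y.1) (g y.1)⁻¹).prod := by
      conv_lhs => rw [← FreeGroup.mk_toWord (x := w)]
      exact FreeGroup.lift_mk
    rw [e1, hP, ppProd4, map_list_prod, map_list_prod, List.map_map, List.map_map]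
    congr 1
    apply List.map_congr_left
    intro y _
    exact hψ y
  refine ⟨fun i => szLieEquiv h (g i), ?_⟩
  have e2 : FreeGroup.lift (fun i => szLieEquiv h (g i))
      = (szLieEquiv h).toMonoidHom.comp (FreeGroup.lift g) := by
    ext i; simp
  rw [e2, MonoidHom.comp_apply]
  intro hcon
  have h1 : FreeGroup.lift g w = 1 := by
    apply (szLieEquiv h).injective
    rw [map_one]
    exact hcon
  rw [h1, map_one] at key
  apply ht
  have e00 := congrFun (congrFun key 0) 0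
  have e03 := congrFun (congrFun key 0) 3
  have e30 := congrFun (congrFun key 3) 0
  have e33 := congrFun (congrFun key 3) 3
  simp only [RingHom.mapMatrix_apply, Matrix.map_apply, Polynomial.coe_evalRingHom] at e00 e03 e30 e33
  rw [Matrix.one_apply_eq] at e00 e33
  rw [Matrix.one_apply_ne (by decide)] at e03 e30
  have ev0 : v 0 = P 0 0 + P 0 3 := by
    rw [hv]; simp [Matrix.mulVec, dotProduct, Fin.sum_univ_four]
  have ev3 : v 3 = P 3 0 + P 3 3 := by
    rw [hv]; simp [Matrix.mulVec, dotProduct, Fin.sum_univ_four]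
  rw [ev0, ev3, eval_sub, eval_add, eval_add, ← e00, ← e03, ← e30, ← e33]
  ring

end Final

end Cfsg.Agent.Lib.Helper59
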