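import Mathlib

set_option autoImplicit false

namespace Cfsg.Agent.Lib.Helper59.WreathQuot

open Polynomial in
theorem poly_id (p : ℕ) [Fact p.Prime] :
    ((X : (ZMod p)[X]) - 1) ^ (p - 1) = ∑ i ∈ Finset.range p, (X : (ZMod p)[X]) ^ i := by
  have hp : p - 1 + 1 = p := Nat.sub_add_cancel (Fact.out : p.Prime).one_le
  have h1 : ((X : (ZMod p)[X]) - 1) ^ (p - 1) * (X - 1) = X ^ p - 1 := by
    rw [← pow_succ, hp, sub_pow_char, one_pow]
  have h2 : (∑ i ∈ Finset.range p, (X : (ZMod p)[X]) ^ i) * (X - 1) = X ^ p - 1 := geom_sum_mul _ _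
  have h3 : (X : (ZMod p)[X]) - 1 ≠ 0 := by
    have := Polynomial.X_sub_C_ne_zero (1 : ZMod p)
    simpa using this
  exact mul_right_cancel₀ h3 (h1.trans h2.symm)

theorem finrank_quot_ge {p : ℕ} [Fact p.Prime] {M : Type*} [AddCommGroup M] [Module (ZMod p) M]
    [Module.Finite (ZMod p) M]
    (T : Module.End (ZMod p) M) (hT : T ^ p = 1) (x : M) (C : Submodule (ZMod p) M)
    (hC : ∀ c ∈ C, T c ∈ C) (hx : (∑ i ∈ Finset.range p, T ^ i) x ∉ C) :
    p ≤ Module.finrank (ZMod p) (M ⧸ C) := by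
  have hp : p - 1 + 1 = p := Nat.sub_add_cancel (Fact.out : p.Prime).one_le
  have e1 : (T - 1) ^ (p - 1) = ∑ i ∈ Finset.range p, T ^ i := by
    have := congrArg (Polynomial.aeval T) (poly_id p)
    simpa using this
  have e2 : (T - 1) ^ p = 0 := by
    have h : ((Polynomial.X : Polynomial (ZMod p)) - 1) ^ p = Polynomial.X ^ p - 1 := by
      rw [sub_pow_char, one_pow]
    have := congrArg (Polynomial.aeval T) h
    simpa [hT] using this
  have hδC : C ≤ C.comap (T - 1) := by
    intro c hc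
    rw [Submodule.mem_comap, LinearMap.sub_apply]
    exact C.sub_mem (hC c hc) hc
  let δ : Module.End (ZMod p) (M ⧸ C) := C.mapQ C (T - 1) hδC
  have hδ : ∀ (n : ℕ) (m : M), (δ ^ n) (Submodule.Quotient.mk m) =
      Submodule.Quotient.mk (((T - 1) ^ n) m) := by
    intro n
    induction n with
    | zero => intro m; simp
    | succ n ih =>
      intro m
      rw [pow_succ, Module.End.mul_apply, pow_succ, Module.End.mul_apply, ← ih]
      rfl
  have hδp : δ ^ p = 0 := by
    ext m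
    simp only [LinearMap.comp_apply, Submodule.mkQ_apply, LinearMap.zero_apply]
    rw [hδ, e2]; simp
  by_contra hlt
  push Not at hlt
  have h1 : δ ^ Module.finrank (ZMod p) (M ⧸ C) = 0 := by
    have := Module.End.ker_pow_le_ker_pow_finrank δ p
    rw [hδp, LinearMap.ker_zero, top_le_iff, LinearMap.ker_eq_top] at this
    exact this
  have h2 : δ ^ (p - 1) = 0 := by
    have : p - 1 = (p - 1 - Module.finrank (ZMod p) (M ⧸ C)) + Module.finrank (ZMod p) (M ⧸ C) := by
      omega
    rw [this, pow_add, h1, mul_zero]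
  have h3 := hδ (p - 1) x
  rw [h2, e1, LinearMap.zero_apply] at h3
  exact hx ((Submodule.Quotient.mk_eq_zero C).1 h3.symm)

theorem card_bound_add {p : ℕ} [Fact p.Prime] {M : Type*} [AddCommGroup M] [Module (ZMod p) M]
    [Finite M] (τ : M →+ M) (hτ : ∀ a, τ^[p] a = a) (x : M) (C : AddSubgroup M)
    (hC : ∀ c ∈ C, τ c ∈ C) (hx : (∑ i ∈ Finset.range p, τ^[i] x) ∉ C) :
    p ^ p * Nat.card C ≤ Nat.card M := by
  let T : Module.End (ZMod p) M := τ.toZModLinearMap p
  have hTpow : ∀ (i : ℕ) (a : M), (T ^ i) a = τ^[i] a := by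
    intro i
    induction i with
    | zero => intro a; simp
    | succ i ih =>
      intro a
      rw [pow_succ', Module.End.mul_apply, ih, Function.iterate_succ_apply']
      rfl
  have hT : T ^ p = 1 := by
    ext a
    rw [hTpow, hτ]; rfl
  let C' : Submodule (ZMod p) M := AddSubgroup.toZModSubmodule p C
  have hfin : Module.Finite (ZMod p) M := Module.Finite.of_finite
  have hsum : ∀ n : ℕ, (∑ i ∈ Finset.range n, T ^ i) x = ∑ i ∈ Finset.range n, τ^[i] x := by
    intro n
    rw [LinearMap.sum_apply]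
    exact Finset.sum_congr rfl (fun i _ => hTpow i x)
  have key := finrank_quot_ge T hT x C' (fun c hc => hC _ hc) (by
    rw [hsum]; exact hx)
  have h1 := Submodule.card_eq_card_quotient_mul_card C'
  have h2 : Nat.card (M ⧸ C') = p ^ Module.finrank (ZMod p) (M ⧸ C') := by
    rw [Module.natCard_eq_pow_finrank (K := ZMod p), Nat.card_zmod]
  have h3 : Nat.card C' = Nat.card C := rfl
  rw [h2, h3] at h1
  rw [h1]
  have h5 : p ^ p ≤ p ^ Module.finrank (ZMod p) (M ⧸ C') :=
    Nat.pow_le_pow_right (Fact.out : p.Prime).pos key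
  calc p ^ p * Nat.card C ≤ p ^ Module.finrank (ZMod p) (M ⧸ C') * Nat.card C :=
        Nat.mul_le_mul_right _ h5
    _ = _ := by ring

theorem card_bound {p : ℕ} [Fact p.Prime] {A : Type*} [CommGroup A] [Finite A]
    (hexp : ∀ a : A, a ^ p = 1) (τ : A →* A) (hτ : ∀ a, τ^[p] a = a) (x : A) (C : Subgroup A)
    (hC : ∀ c ∈ C, τ c ∈ C) (hx : (∏ i ∈ Finset.range p, τ^[i] x) ∉ C) :
    p ^ p * Nat.card C ≤ Nat.card A := by
  have hmod : ∀ a : Additive A, p • a = 0 := fun a => by
    show Additive.ofMul (a.toMul ^ p) = 0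
    rw [hexp]; rfl
  have hit : ∀ (i : ℕ) (a : Additive A), (MonoidHom.toAdditive τ)^[i] a =
      Additive.ofMul (τ^[i] a.toMul) := by
    intro i
    induction i with
    | zero => intro a; rfl
    | succ i ih => intro a; rw [Function.iterate_succ_apply', ih, Function.iterate_succ_apply']; rfl
  have key := @card_bound_add p _ (Additive A) _ (AddCommGroup.zmodModule (n := p) hmod) _
    (MonoidHom.toAdditive τ) (fun a => by rw [hit, hτ]; rfl) (Additive.ofMul x)
    (Subgroup.toAddSubgroup C) (fun c hc => hC _ hc) (by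
      have : (∑ i ∈ Finset.range p, (MonoidHom.toAdditive τ)^[i] (Additive.ofMul x)) =
          Additive.ofMul (∏ i ∈ Finset.range p, τ^[i] x) := by
        rw [ofMul_prod]
        exact Finset.sum_congr rfl (fun i _ => hit i _)
      rw [this]; exact hx)
  exact key

theorem exists_hyperplane_add {p : ℕ} [Fact p.Prime] {M : Type*} [AddCommGroup M]
    [Module (ZMod p) M] (z : M) (hz : z ≠ 0) :
    ∃ H : AddSubgroup M, z ∉ H ∧ H.index = p := by
  have h1 : ¬ ∀ φ : Module.Dual (ZMod p) M, φ z = 0 := fun h =>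
    hz ((Module.forall_dual_apply_eq_zero_iff (ZMod p) z).1 h)
  push Not at h1
  obtain ⟨φ, hφ⟩ := h1
  refine ⟨φ.toAddMonoidHom.ker, fun h => hφ (AddMonoidHom.mem_ker.1 h), ?_⟩
  rw [AddSubgroup.index_ker]
  have hsurj : Function.Surjective φ.toAddMonoidHom := by
    intro c
    refine ⟨(c * (φ z)⁻¹) • z, ?_⟩
    show φ ((c * (φ z)⁻¹) • z) = c
    rw [map_smul, smul_eq_mul, mul_assoc, inv_mul_cancel₀ hφ, mul_one]
  rw [AddMonoidHom.range_eq_top.2 hsurj]
  rw [Nat.card_congr (AddSubgroup.topEquiv (G := ZMod p)).toEquiv, Nat.card_zmod]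

theorem exists_hyperplane {p : ℕ} [Fact p.Prime] {A : Type*} [CommGroup A]
    (hexp : ∀ a : A, a ^ p = 1) (z : A) (hz : z ≠ 1) :
    ∃ H : Subgroup A, z ∉ H ∧ H.index = p := by
  have hmod : ∀ a : Additive A, p • a = 0 := fun a => by
    show Additive.ofMul (a.toMul ^ p) = 0
    rw [hexp]; rfl
  obtain ⟨H, h1, h2⟩ := @exists_hyperplane_add p _ (Additive A) _
    (AddCommGroup.zmodModule (n := p) hmod) (Additive.ofMul z) hz
  exact ⟨AddSubgroup.toSubgroup' H, h1, h2⟩

theorem card_sylow_perm_sq (p : ℕ) [Fact p.Prime] (Q : Sylow p (Equiv.Perm (Fin (p ^ 2)))) :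
    Nat.card Q = p ^ (p + 1) := by
  have hp : p.Prime := Fact.out
  rw [Sylow.card_eq_multiplicity, Nat.card_perm, Nat.card_fin, Nat.factorization_def _ hp,
    padicValNat_factorial (b := 3) (by rw [Nat.log_pow hp.one_lt]; norm_num)]
  congr 1
  have h1 : Finset.Ico 1 3 = {1, 2} := by decide
  rw [h1, Finset.sum_pair (by norm_num), pow_one, Nat.div_self (pow_pos hp.pos 2), sq,
    Nat.mul_div_cancel _ hp.pos]

open scoped IsMulCommutative in
theorem wreath_quotient {P : Type*} [Group P] [Finite P] {p : ℕ} [Fact p.Prime]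
    (hP : IsPGroup p P) (A : Subgroup P) [A.Normal] [IsMulCommutative ↥A]
    (hexp : ∀ a ∈ A, a ^ p = 1) (hidx : A.index = p) (x y : P) (hx : x ∈ A)
    (hprod : ((List.range p).map (fun i => (y ^ i)⁻¹ * x * y ^ i)).prod ≠ 1) :
    ∃ (Q : Sylow p (Equiv.Perm (Fin (p ^ 2))))
      (f : P →* ↥(Q : Subgroup (Equiv.Perm (Fin (p ^ 2))))), Function.Surjective f := by
  have hp : p.Prime := Fact.out
  let τ : ↥A →* ↥A := (MulAut.conjNormal (y⁻¹) : MulAut ↥A).toMonoidHom
  have hτ1 : ∀ a : ↥A, ((τ a : ↥A) : P) = y⁻¹ * a * y := fun a => by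
    show ((MulAut.conjNormal y⁻¹ a : ↥A) : P) = _
    rw [MulAut.conjNormal_apply, inv_inv]
  have hτi : ∀ (i : ℕ) (a : ↥A), ((τ^[i] a : ↥A) : P) = (y ^ i)⁻¹ * a * y ^ i := by
    intro i
    induction i with
    | zero => intro a; simp
    | succ i ih =>
      intro a
      rw [Function.iterate_succ_apply', hτ1, ih, pow_succ]; group
  have hyp : y ^ p ∈ A := hidx ▸ A.pow_index_mem y
  have hτp : ∀ a : ↥A, τ^[p] a = a := by
    intro a
    apply Subtype.ext
    rw [hτi]
    have : (⟨y ^ p, hyp⟩ : ↥A) * a = a * ⟨y ^ p, hyp⟩ := mul_comm _ _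
    have h2 : y ^ p * (a : P) = a * y ^ p := congrArg Subtype.val this
    rw [mul_assoc, ← h2, inv_mul_cancel_left]
  let xA : ↥A := ⟨x, hx⟩
  have hlist : ∀ n : ℕ, ((∏ i ∈ Finset.range n, τ^[i] xA : ↥A) : P) =
      ((List.range n).map (fun i => (y ^ i)⁻¹ * x * y ^ i)).prod := by
    intro n
    induction n with
    | zero => simp
    | succ n ih =>
      rw [Finset.prod_range_succ, Subgroup.coe_mul, ih, hτi, List.range_succ, List.map_append,
        List.prod_append]
      simp [xA]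
  let z : ↥A := ∏ i ∈ Finset.range p, τ^[i] xA
  have hz : z ≠ 1 := by
    intro h
    apply hprod
    rw [← hlist]
    exact congrArg Subtype.val h
  have hexp' : ∀ a : ↥A, a ^ p = 1 := fun a => Subtype.ext (by simpa using hexp a a.2)
  obtain ⟨H₀, hzH, hH₀⟩ := exists_hyperplane (p := p) hexp' z hz
  let H : Subgroup P := H₀.map A.subtype
  have hHidx : H.index = p ^ 2 := by rw [Subgroup.index_map_subtype, hH₀, hidx, sq]
  have hHA : H ≤ A := by
    rintro _ ⟨a, -, rfl⟩
    exact a.2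
  let C : Subgroup P := H.normalCore
  have hCH : C ≤ H := Subgroup.normalCore_le H
  have hCA : C ≤ A := hCH.trans hHA
  have hCnorm : C.Normal := Subgroup.normalCore_normal H
  have hb := card_bound (p := p) hexp' τ hτp xA (C.subgroupOf A) (fun c hc => by
    rw [Subgroup.mem_subgroupOf] at hc ⊢
    rw [hτ1]
    have := hCnorm.conj_mem _ hc y⁻¹
    rwa [inv_inv] at this) (by
    intro hc
    rw [Subgroup.mem_subgroupOf] at hc
    obtain ⟨a, ha, haz⟩ := hCH hc
    have : a = z := Subtype.ext haz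
    exact hzH (this ▸ ha))
  rw [Nat.card_congr (Subgroup.subgroupOfEquivOfLe hCA).toEquiv] at hb
  have hcA := A.index_mul_card
  have hcC := C.index_mul_card
  rw [hidx] at hcA
  have hCidx : p ^ (p + 1) ≤ C.index := by
    have hpos : 0 < Nat.card C := Nat.card_pos
    have h1 : p ^ (p + 1) * Nat.card C ≤ C.index * Nat.card C := by
      rw [hcC, ← hcA, pow_succ]
      calc p ^ p * p * Nat.card C = p * (p ^ p * Nat.card C) := by ring
        _ ≤ p * Nat.card A := Nat.mul_le_mul_left _ hb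
    exact Nat.le_of_mul_le_mul_right h1 hpos
  have hcard : Nat.card (P ⧸ H) = p ^ 2 := hHidx
  let e : (P ⧸ H) ≃ Fin (p ^ 2) := Finite.equivFinOfCardEq hcard
  let f0 : P →* Equiv.Perm (Fin (p ^ 2)) :=
    (Equiv.permCongrHom e).toMonoidHom.comp (MulAction.toPermHom P (P ⧸ H))
  have hker : f0.ker = C := by
    ext g
    rw [MonoidHom.mem_ker]
    show (Equiv.permCongrHom e) (MulAction.toPermHom P (P ⧸ H) g) = 1 ↔ g ∈ H.normalCore
    rw [MulEquiv.map_eq_one_iff, Subgroup.normalCore_eq_ker, MonoidHom.mem_ker]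
  have hrcard : p ^ (p + 1) ≤ Nat.card f0.range := by
    rw [← Subgroup.index_ker, hker]; exact hCidx
  have hrange : IsPGroup p f0.range := hP.of_surjective f0.rangeRestrict f0.rangeRestrict_surjective
  obtain ⟨Q, hQ⟩ := hrange.exists_le_sylow
  have heq : f0.range = (Q : Subgroup (Equiv.Perm (Fin (p ^ 2)))) :=
    Subgroup.eq_of_le_of_card_ge hQ (by rw [card_sylow_perm_sq]; exact hrcard)
  refine ⟨Q, f0.codRestrict (Q : Subgroup (Equiv.Perm (Fin (p ^ 2)))) (fun g => hQ ⟨g, rfl⟩), ?_⟩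
  rintro ⟨q, hq⟩
  have hq' : q ∈ f0.range := by rw [heq]; exact hq
  obtain ⟨g, rfl⟩ := hq'
  exact ⟨g, rfl⟩

end Cfsg.Agent.Lib.Helper59.WreathQuot
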